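import Mathlib
import Cfsg.Prelude.Def_Blocks
import Cfsg.Prelude.Def_Transfer

/-!
# Elementary abelian odd normal subgroup complemented by a 2-group: the inverting involution
-/

set_option autoImplicit false

namespace Cfsg.Agent.Lib.Helper1.AbTwo

universe u

variable {G : Type u} [Group G]

/-- every element is a product `n * p` -/
theorem exists_mul_of_sup_eq_top (N P : Subgroup G) [hN : N.Normal] (hprod : N ⊔ P = ⊤) (g : G) :
    ∃ n ∈ N, ∃ p ∈ P, g = n * p := by
  have h1 : g ∈ ((N ⊔ P : Subgroup G) : Set G) := by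
    rw [hprod]
    trivial
  rw [Subgroup.normal_mul] at h1
  obtain ⟨n, hn, p, hp, rfl⟩ := Set.mem_mul.mp h1
  exact ⟨n, hn, p, hp, rfl⟩

/-- a central involution of the complement `P` inverts the unique minimal normal subgroup `N` -/
theorem exists_inverting [Finite G] (N P : Subgroup G) [hN : N.Normal]
    (hNab : ∀ a ∈ N, ∀ b ∈ N, a * b = b * a) (hP : IsPGroup 2 P) (hP1 : P ≠ ⊥)
    (hdisj : N ⊓ P = ⊥) (hprod : N ⊔ P = ⊤) (hN1 : N ≠ ⊥)
    (hmin : ∀ M : Subgroup G, M.Normal → M ≠ ⊥ → N ≤ M) :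
    ∃ z ∈ P, z * z = 1 ∧ (∀ p ∈ P, z * p = p * z) ∧ ∀ n ∈ N, z * n * z⁻¹ = n⁻¹ := by
  classical
  haveI : Nontrivial P := (Subgroup.nontrivial_iff_ne_bot P).mpr hP1
  haveI := hP.center_nontrivial
  have hc2 : IsPGroup 2 (Subgroup.center P) := hP.to_subgroup (Subgroup.center P)
  obtain ⟨k, hk⟩ := IsPGroup.iff_card.mp hc2
  have hk0 : k ≠ 0 := by
    intro h
    rw [h, pow_zero] at hk
    have := Finite.one_lt_card (α := Subgroup.center P)
    omega
  have hdvd : 2 ∣ Nat.card (Subgroup.center P) := by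
    rw [hk]
    exact dvd_pow_self 2 hk0
  obtain ⟨c, hc⟩ := exists_prime_orderOf_dvd_card' 2 hdvd
  obtain ⟨z, hzdef⟩ : ∃ z : G, z = ((c : P) : G) := ⟨_, rfl⟩
  have hzP : z ∈ P := by
    rw [hzdef]
    exact (c : P).2
  have hc2 : c ^ 2 = 1 := by
    rw [← hc]
    exact pow_orderOf_eq_one c
  have hzz : z * z = 1 := by
    have h1 : (((c ^ 2 : Subgroup.center P) : P) : G) = 1 := by
      rw [hc2]
      rfl
    rw [hzdef, ← h1]
    simp [pow_two]
  have hz1 : z ≠ 1 := by
    intro h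
    have h1 : c = 1 := by
      apply Subtype.ext
      apply Subtype.ext
      rw [← hzdef, h]
      rfl
    rw [h1, orderOf_one] at hc
    omega
  have hzinv : z⁻¹ = z := inv_eq_of_mul_eq_one_left hzz
  have hzc : ∀ p ∈ P, z * p = p * z := by
    intro p hp
    have h1 := Subgroup.mem_center_iff.mp c.2 ⟨p, hp⟩
    have h2 := congrArg (Subtype.val : P → G) h1
    rw [hzdef]
    exact h2.symm
  refine ⟨z, hzP, hzz, hzc, ?_⟩
  -- the fixed points of z on N
  have hconjN : ∀ n ∈ N, ∀ m ∈ N, n * m * n⁻¹ = m := by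
    intro n hn m hm
    rw [hNab n hn m hm, mul_inv_cancel_right]
  have hCnorm : (N ⊓ Subgroup.centralizer ({z} : Set G)).Normal := by
    constructor
    intro c hc g
    obtain ⟨hcN, hcz⟩ := Subgroup.mem_inf.mp hc
    have hcz' : z * c = c * z := Subgroup.mem_centralizer_iff.mp hcz z rfl
    obtain ⟨n, hn, p, hp, rfl⟩ := exists_mul_of_sup_eq_top N P hprod g
    have h1 : p * c * p⁻¹ ∈ N := hN.conj_mem c hcN p
    have h2 : n * p * c * (n * p)⁻¹ = p * c * p⁻¹ := by
      have h3 := hconjN n hn _ h1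
      rw [← h3]
      group
    rw [h2]
    refine Subgroup.mem_inf.mpr ⟨h1, ?_⟩
    rw [Subgroup.mem_centralizer_iff]
    intro h hh
    rw [Set.mem_singleton_iff] at hh
    rw [hh]
    have h4 : z * p = p * z := hzc p hp
    have h5 : z * p⁻¹ = p⁻¹ * z := hzc p⁻¹ (P.inv_mem hp)
    calc z * (p * c * p⁻¹) = (z * p) * c * p⁻¹ := by group
      _ = p * (z * c) * p⁻¹ := by rw [h4]; group
      _ = p * c * (z * p⁻¹) := by rw [hcz']; group
      _ = p * c * p⁻¹ * z := by rw [h5]; group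
  have hCbot : N ⊓ Subgroup.centralizer ({z} : Set G) = ⊥ := by
    by_contra hne
    have h1 := hmin _ hCnorm hne
    have hzN : ∀ n ∈ N, z * n = n * z := by
      intro n hn
      exact Subgroup.mem_centralizer_iff.mp (Subgroup.mem_inf.mp (h1 hn)).2 z rfl
    have hzG : ∀ g : G, z * g = g * z := by
      intro g
      obtain ⟨n, hn, p, hp, rfl⟩ := exists_mul_of_sup_eq_top N P hprod g
      calc z * (n * p) = (z * n) * p := by group
        _ = n * (z * p) := by rw [hzN n hn]; group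
        _ = n * p * z := by rw [hzc p hp]; group
    have hZnorm : (Subgroup.zpowers z).Normal := by
      constructor
      intro x hx g
      obtain ⟨j, rfl⟩ := Subgroup.mem_zpowers_iff.mp hx
      have h2 : g * z ^ j * g⁻¹ = z ^ j := by
        have h3 : Commute z g := hzG g
        have h4 : Commute (z ^ j) g := h3.zpow_left j
        rw [← h4.eq, mul_inv_cancel_right]
      rw [h2]
      exact Subgroup.zpow_mem_zpowers z j
    have hZne : Subgroup.zpowers z ≠ ⊥ := by
      intro h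
      exact hz1 (Subgroup.zpowers_eq_bot.mp h)
    have h2 := hmin _ hZnorm hZne
    have h3 : Subgroup.zpowers z ≤ P := (Subgroup.zpowers_le).mpr hzP
    have h4 : N ≤ N ⊓ P := le_inf le_rfl (h2.trans h3)
    rw [hdisj] at h4
    exact hN1 (le_bot_iff.mp h4)
  intro n hn
  have h1 : z * n * z⁻¹ ∈ N := hN.conj_mem n hn z
  have h2 : n * (z * n * z⁻¹) ∈ N ⊓ Subgroup.centralizer ({z} : Set G) := by
    refine Subgroup.mem_inf.mpr ⟨N.mul_mem hn h1, ?_⟩
    rw [Subgroup.mem_centralizer_iff]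
    intro h hh
    rw [Set.mem_singleton_iff] at hh
    rw [hh]
    have h3 : z * (n * (z * n * z⁻¹)) = (z * n * z⁻¹) * (z * z) * n * z⁻¹ := by group
    rw [h3, hzz, mul_one, ← hNab n hn _ h1, hzinv]
  rw [hCbot, Subgroup.mem_bot] at h2
  exact (eq_inv_of_mul_eq_one_right h2)

/-- the sum of a non-trivial linear character over a finite group vanishes -/
theorem sum_hom_eq_zero {H : Type u} [Group H] [Fintype H] (μ : H →* ℂˣ) {h₀ : H}
    (h : μ h₀ ≠ 1) : ∑ x : H, ((μ x : ℂˣ) : ℂ) = 0 := by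
  have h1 : ∑ x : H, ((μ x : ℂˣ) : ℂ) = ((μ h₀ : ℂˣ) : ℂ) * ∑ x : H, ((μ x : ℂˣ) : ℂ) := by
    rw [Finset.mul_sum, ← Equiv.sum_comp (Equiv.mulLeft h₀)]
    refine Finset.sum_congr rfl (fun x _ => ?_)
    simp
  have h2 : (1 - ((μ h₀ : ℂˣ) : ℂ)) * ∑ x : H, ((μ x : ℂˣ) : ℂ) = 0 := by
    rw [sub_mul, one_mul, ← h1, sub_self]
  rcases mul_eq_zero.mp h2 with h3 | h3
  · exfalso
    apply h
    apply Units.ext
    rw [Units.val_one]
    exact (sub_eq_zero.mp h3).symm
  · exact h3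

/-- a non-trivial finite abelian subgroup has a non-trivial linear character -/
theorem exists_nontrivial_hom [Finite G] (N : Subgroup G) (hNab : ∀ a ∈ N, ∀ b ∈ N, a * b = b * a)
    (hN1 : N ≠ ⊥) : ∃ (lam : N →* ℂˣ) (n₀ : N), lam n₀ ≠ 1 := by
  classical
  let _ : CommGroup N :=
    { (inferInstance : Group N) with
      mul_comm := fun a b => Subtype.ext (hNab a a.2 b b.2) }
  obtain ⟨n, hn1⟩ := (Subgroup.ne_bot_iff_exists_ne_one).mp hN1
  haveI : NeZero (Monoid.exponent N) := ⟨Monoid.exponent_ne_zero_of_finite⟩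
  obtain ⟨ν₀, hν₀⟩ := CommGroup.exists_apply_ne_one_of_hasEnoughRootsOfUnity N ℂ hn1
  exact ⟨ν₀, n, hν₀⟩

end Cfsg.Agent.Lib.Helper1.AbTwo
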