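import Mathlib
import Cfsg.Agent.Lib.Helper1.CharEquiv
import Cfsg.Agent.Lib.Helper1.CharSchur
import Cfsg.Agent.Lib.Helper1.CharCyc
import Cfsg.Agent.Lib.Helper1.CharReal

set_option autoImplicit false
set_option linter.unusedSectionVars false
set_option linter.unusedVariables false
set_option linter.style.haveILetI false

/-!
# A finite central extension in which an invariant irreducible character extends

For `N ⊲ G` and an irreducible representation `ρ` of `N` whose character is `G`-invariant, the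
group of pairs `(g, A)` with `A ρ(m) A⁻¹ = ρ(g m g⁻¹)` and `det A ^ k = 1` is a finite central
extension of `G`, and `(g, A) ↦ A` is an irreducible representation of it extending `ρ`.
-/

namespace Cfsg.Agent.Lib.Helper1.CentExt

open Representation Module

universe u

section construction

variable {G : Type u} [Group G] {n : ℕ} (N : Subgroup G) [hN : N.Normal]
  (ρ : Representation ℂ N (Fin n → ℂ)) (k : ℕ)

/-- the pairs `(g, A)` with `A` intertwining `ρ` and its `g`-conjugate and `det A ^ k = 1` -/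
def grp : Subgroup (G × (Module.End ℂ (Fin n → ℂ))ˣ) where
  carrier := {x | (∀ m : N, (x.2 : Module.End ℂ (Fin n → ℂ)) * ρ m
      = ρ (MulAut.conjNormal x.1 m) * (x.2 : Module.End ℂ (Fin n → ℂ))) ∧
      LinearMap.det (x.2 : Module.End ℂ (Fin n → ℂ)) ^ k = 1}
  mul_mem' := by
    rintro x y ⟨hx1, hx2⟩ ⟨hy1, hy2⟩
    refine ⟨fun m => ?_, ?_⟩
    · show ((x.2 * y.2 : (Module.End ℂ (Fin n → ℂ))ˣ) : Module.End ℂ (Fin n → ℂ)) * ρ m
        = ρ (MulAut.conjNormal (x.1 * y.1) m) * ((x.2 * y.2 : (Module.End ℂ (Fin n → ℂ))ˣ) :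
          Module.End ℂ (Fin n → ℂ))
      rw [Units.val_mul, mul_assoc, hy1 m, ← mul_assoc, hx1, map_mul, MulAut.mul_apply, mul_assoc]
    · show LinearMap.det ((x.2 * y.2 : (Module.End ℂ (Fin n → ℂ))ˣ) :
        Module.End ℂ (Fin n → ℂ)) ^ k = 1
      rw [Units.val_mul, map_mul, mul_pow, hx2, hy2, one_mul]
  one_mem' := by
    refine ⟨fun m => ?_, ?_⟩
    · show ((1 : (Module.End ℂ (Fin n → ℂ))ˣ) : Module.End ℂ (Fin n → ℂ)) * ρ m
        = ρ (MulAut.conjNormal (1 : G) m) * ((1 : (Module.End ℂ (Fin n → ℂ))ˣ) :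
          Module.End ℂ (Fin n → ℂ))
      rw [map_one, Units.val_one, one_mul, mul_one, MulAut.one_apply]
    · show LinearMap.det ((1 : (Module.End ℂ (Fin n → ℂ))ˣ) : Module.End ℂ (Fin n → ℂ)) ^ k = 1
      rw [Units.val_one, map_one, one_pow]
  inv_mem' := by
    rintro x ⟨hx1, hx2⟩
    refine ⟨fun m => ?_, ?_⟩
    · have h := hx1 (MulAut.conjNormal x.1⁻¹ m)
      rw [← MulAut.mul_apply, ← map_mul, mul_inv_cancel, map_one, MulAut.one_apply] at h
      show ((x.2⁻¹ : (Module.End ℂ (Fin n → ℂ))ˣ) : Module.End ℂ (Fin n → ℂ)) * ρ m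
        = ρ (MulAut.conjNormal x.1⁻¹ m) * ((x.2⁻¹ : (Module.End ℂ (Fin n → ℂ))ˣ) :
          Module.End ℂ (Fin n → ℂ))
      calc ((x.2⁻¹ : (Module.End ℂ (Fin n → ℂ))ˣ) : Module.End ℂ (Fin n → ℂ)) * ρ m
          = ((x.2⁻¹ : (Module.End ℂ (Fin n → ℂ))ˣ) : Module.End ℂ (Fin n → ℂ)) *
            (ρ m * (x.2 : Module.End ℂ (Fin n → ℂ))) *
            ((x.2⁻¹ : (Module.End ℂ (Fin n → ℂ))ˣ) : Module.End ℂ (Fin n → ℂ)) := by
            rw [mul_assoc, mul_assoc, Units.mul_inv, mul_one]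
        _ = ((x.2⁻¹ : (Module.End ℂ (Fin n → ℂ))ˣ) : Module.End ℂ (Fin n → ℂ)) *
            ((x.2 : Module.End ℂ (Fin n → ℂ)) * ρ (MulAut.conjNormal x.1⁻¹ m)) *
            ((x.2⁻¹ : (Module.End ℂ (Fin n → ℂ))ˣ) : Module.End ℂ (Fin n → ℂ)) := by rw [h]
        _ = ρ (MulAut.conjNormal x.1⁻¹ m) *
            ((x.2⁻¹ : (Module.End ℂ (Fin n → ℂ))ˣ) : Module.End ℂ (Fin n → ℂ)) := by
            rw [← mul_assoc, Units.inv_mul, one_mul]
    · show LinearMap.det ((x.2⁻¹ : (Module.End ℂ (Fin n → ℂ))ˣ) :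
        Module.End ℂ (Fin n → ℂ)) ^ k = 1
      have h1 : LinearMap.det ((x.2⁻¹ : (Module.End ℂ (Fin n → ℂ))ˣ) : Module.End ℂ (Fin n → ℂ))
          * LinearMap.det (x.2 : Module.End ℂ (Fin n → ℂ)) = 1 := by
        rw [← map_mul, Units.inv_mul, map_one]
      have h2 := congrArg (· ^ k) h1
      simp only [mul_pow, hx2, mul_one, one_pow] at h2
      exact h2

/-- the projection to `G` -/
def proj : grp N ρ k →* G := (MonoidHom.fst G _).comp (grp N ρ k).subtype

/-- the representation on the second coordinate -/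
def rep : Representation ℂ (grp N ρ k) (Fin n → ℂ) :=
  (Units.coeHom (Module.End ℂ (Fin n → ℂ))).comp ((MonoidHom.snd G _).comp (grp N ρ k).subtype)

theorem proj_apply (x : grp N ρ k) : proj N ρ k x = x.1.1 := rfl

theorem rep_apply (x : grp N ρ k) :
    rep N ρ k x = (x.1.2 : Module.End ℂ (Fin n → ℂ)) := rfl

/-- the embedding of `N` -/
def incl (hk : ∀ m : N, m ^ k = 1) : N →* grp N ρ k where
  toFun m := ⟨((m : G), MonoidHom.toHomUnits ρ m), by
    refine ⟨fun m' => ?_, ?_⟩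
    · show ρ m * ρ m' = ρ (MulAut.conjNormal (m : G) m') * ρ m
      rw [← map_mul, ← map_mul]
      congr 1
      apply Subtype.ext
      rw [Subgroup.coe_mul, Subgroup.coe_mul, MulAut.conjNormal_apply]
      group
    · show LinearMap.det (ρ m) ^ k = 1
      rw [← map_pow, ← map_pow, hk m, map_one, map_one]⟩
  map_one' := by
    apply Subtype.ext
    apply Prod.ext
    · rfl
    · exact map_one _
  map_mul' a b := by
    apply Subtype.ext
    apply Prod.ext
    · rfl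
    · exact map_mul _ a b

theorem proj_incl (hk : ∀ m : N, m ^ k = 1) (m : N) : proj N ρ k (incl N ρ k hk m) = m := rfl

theorem rep_incl (hk : ∀ m : N, m ^ k = 1) (m : N) : rep N ρ k (incl N ρ k hk m) = ρ m := rfl

theorem incl_injective (hk : ∀ m : N, m ^ k = 1) : Function.Injective (incl N ρ k hk) := by
  intro a b h
  apply Subtype.ext
  have := congrArg (proj N ρ k) h
  rwa [proj_incl, proj_incl] at this

theorem conj_incl (hk : ∀ m : N, m ^ k = 1) (x : grp N ρ k) (m : N) :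
    x * incl N ρ k hk m * x⁻¹ = incl N ρ k hk (MulAut.conjNormal (proj N ρ k x) m) := by
  apply Subtype.ext
  apply Prod.ext
  · show x.1.1 * (m : G) * x.1.1⁻¹ = ((MulAut.conjNormal x.1.1 m : N) : G)
    rw [MulAut.conjNormal_apply]
  · apply Units.ext
    show (x.1.2 : Module.End ℂ (Fin n → ℂ)) * ρ m *
      ((x.1.2⁻¹ : (Module.End ℂ (Fin n → ℂ))ˣ) : Module.End ℂ (Fin n → ℂ))
        = ρ (MulAut.conjNormal x.1.1 m)
    rw [x.2.1 m, mul_assoc, Units.mul_inv, mul_one]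

/-- the scalar of an element (meaningful on the kernel of the projection) -/
noncomputable def scal (x : grp N ρ k) : ℂ :=
  LinearMap.trace ℂ (Fin n → ℂ) (x.1.2 : Module.End ℂ (Fin n → ℂ)) / (n : ℂ)

theorem ker_scalar [hirr : ρ.IsIrreducible] (x : grp N ρ k) (hx : proj N ρ k x = 1) :
    (x.1.2 : Module.End ℂ (Fin n → ℂ)) = scal N ρ k x • (1 : Module.End ℂ (Fin n → ℂ)) ∧
      scal N ρ k x ^ (n * k) = 1 := by
  have h1 : ∀ m : N, (x.1.2 : Module.End ℂ (Fin n → ℂ)) ∘ₗ ρ m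
      = ρ m ∘ₗ (x.1.2 : Module.End ℂ (Fin n → ℂ)) := by
    intro m
    have h := x.2.1 m
    have hx' : x.1.1 = 1 := hx
    rw [hx', map_one, MulAut.one_apply] at h
    exact h
  have h2 := schur_scalar ρ (x.1.2 : Module.End ℂ (Fin n → ℂ)) h1
  rw [Module.finrank_fin_fun] at h2
  have h2' : (x.1.2 : Module.End ℂ (Fin n → ℂ))
      = scal N ρ k x • (1 : Module.End ℂ (Fin n → ℂ)) := h2
  refine ⟨h2', ?_⟩
  have h3 := x.2.2
  rw [h2', LinearMap.det_smul, map_one, mul_one, Module.finrank_fin_fun, ← pow_mul] at h3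
  exact h3

theorem ker_central [hirr : ρ.IsIrreducible] (x : grp N ρ k) (hx : proj N ρ k x = 1)
    (y : grp N ρ k) : x * y = y * x := by
  obtain ⟨hc, -⟩ := ker_scalar N ρ k x hx
  apply Subtype.ext
  apply Prod.ext
  · show x.1.1 * y.1.1 = y.1.1 * x.1.1
    have hx' : x.1.1 = 1 := hx
    rw [hx', one_mul, mul_one]
  · apply Units.ext
    show (x.1.2 : Module.End ℂ (Fin n → ℂ)) * (y.1.2 : Module.End ℂ (Fin n → ℂ))
      = (y.1.2 : Module.End ℂ (Fin n → ℂ)) * (x.1.2 : Module.End ℂ (Fin n → ℂ))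
    rw [hc, smul_mul_assoc, mul_smul_comm, one_mul, mul_one]

theorem ker_pow [hirr : ρ.IsIrreducible] (x : grp N ρ k) (hx : proj N ρ k x = 1) :
    x ^ (n * k) = 1 := by
  obtain ⟨hc, hck⟩ := ker_scalar N ρ k x hx
  apply Subtype.ext
  apply Prod.ext
  · show ((x ^ (n * k) : grp N ρ k) : G × (Module.End ℂ (Fin n → ℂ))ˣ).1 = 1
    rw [Subgroup.coe_pow, Prod.pow_fst]
    have hx' : x.1.1 = 1 := hx
    rw [hx', one_pow]
  · apply Units.ext
    show ((((x ^ (n * k) : grp N ρ k) : G × (Module.End ℂ (Fin n → ℂ))ˣ).2 :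
      (Module.End ℂ (Fin n → ℂ))ˣ) : Module.End ℂ (Fin n → ℂ)) = 1
    rw [Subgroup.coe_pow, Prod.pow_snd, Units.val_pow_eq_pow_val, hc, smul_pow, one_pow, hck,
      one_smul]

theorem eq_of_proj_eq_of_scal [hirr : ρ.IsIrreducible] (x y : grp N ρ k)
    (hx : proj N ρ k x = 1) (hy : proj N ρ k y = 1) (h : scal N ρ k x = scal N ρ k y) :
    x = y := by
  obtain ⟨hcx, -⟩ := ker_scalar N ρ k x hx
  obtain ⟨hcy, -⟩ := ker_scalar N ρ k y hy
  apply Subtype.ext
  apply Prod.ext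
  · show x.1.1 = y.1.1
    have hx' : x.1.1 = 1 := hx
    have hy' : y.1.1 = 1 := hy
    rw [hx', hy']
  · apply Units.ext
    rw [hcx, hcy, h]

theorem finite_grp [Finite G] [hirr : ρ.IsIrreducible] (hn : 0 < n) (hk : 0 < k) :
    Finite (grp N ρ k) := by
  classical
  obtain ⟨s, hs⟩ : ∃ s : G → grp N ρ k, ∀ x : grp N ρ k, proj N ρ k (s (proj N ρ k x))
      = proj N ρ k x := by
    refine ⟨fun g => if h : ∃ y : grp N ρ k, proj N ρ k y = g then h.choose else 1, ?_⟩
    intro x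
    have h : ∃ y : grp N ρ k, proj N ρ k y = proj N ρ k x := ⟨x, rfl⟩
    simp only [dif_pos h]
    exact h.choose_spec
  have hfin : (Set.univ : Set (grp N ρ k)).Finite := by
    apply Set.Finite.of_finite_image
      (f := fun x : grp N ρ k => (proj N ρ k x, scal N ρ k (x * (s (proj N ρ k x))⁻¹)))
    · apply Set.Finite.subset
        (s := (Set.univ : Set G) ×ˢ ((Polynomial.nthRoots (n * k) (1 : ℂ)).toFinset : Set ℂ))
      · exact Set.finite_univ.prod (Finset.finite_toSet _)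
      · rintro ⟨g, c⟩ ⟨x, -, hx⟩
        have hx1 : proj N ρ k x = g := congrArg Prod.fst hx
        have hx2 : scal N ρ k (x * (s (proj N ρ k x))⁻¹) = c := congrArg Prod.snd hx
        refine ⟨Set.mem_univ _, ?_⟩
        simp only [Finset.mem_coe, Multiset.mem_toFinset]
        rw [Polynomial.mem_nthRoots (Nat.mul_pos hn hk), ← hx2]
        have hker : proj N ρ k (x * (s (proj N ρ k x))⁻¹) = 1 := by
          rw [map_mul, map_inv, hs x, mul_inv_cancel]
        exact (ker_scalar N ρ k _ hker).2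
    · intro x _ y _ hxy
      have hxy' : (proj N ρ k x, scal N ρ k (x * (s (proj N ρ k x))⁻¹))
          = (proj N ρ k y, scal N ρ k (y * (s (proj N ρ k y))⁻¹)) := hxy
      obtain ⟨h1, h2⟩ := Prod.mk.inj hxy'
      have hkx : proj N ρ k (x * (s (proj N ρ k x))⁻¹) = 1 := by
        rw [map_mul, map_inv, hs x, mul_inv_cancel]
      have hky : proj N ρ k (y * (s (proj N ρ k y))⁻¹) = 1 := by
        rw [map_mul, map_inv, hs y, mul_inv_cancel]
      have h3 := eq_of_proj_eq_of_scal N ρ k _ _ hkx hky h2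
      rw [h1] at h3
      exact mul_right_cancel h3
  exact Set.finite_univ_iff.mp hfin

theorem proj_surjective [Finite N] [hirr : ρ.IsIrreducible] (hn : 0 < n)
    (hinv : ∀ (g : G) (m : N), ρ.character (MulAut.conjNormal g m) = ρ.character m) :
    Function.Surjective (proj N ρ k) := by
  intro g
  let σ : Representation ℂ N (Fin n → ℂ) := ρ.comp (MulAut.conjNormal g : MulAut N).toMonoidHom
  have hchar : ρ.character = σ.character := by
    funext m
    exact (hinv g m).symm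
  obtain ⟨e⟩ := equiv_of_char_eq ρ σ hchar
  have hA : ∀ m : N, (e.toLinearEquiv : (Fin n → ℂ) →ₗ[ℂ] (Fin n → ℂ)) * ρ m
      = ρ (MulAut.conjNormal g m) * (e.toLinearEquiv : (Fin n → ℂ) →ₗ[ℂ] (Fin n → ℂ)) :=
    fun m => e.toIntertwiningMap.isIntertwining' m
  have hAB : (e.toLinearEquiv : (Fin n → ℂ) →ₗ[ℂ] (Fin n → ℂ))
      * (e.toLinearEquiv.symm : (Fin n → ℂ) →ₗ[ℂ] (Fin n → ℂ)) = 1 :=
    LinearMap.ext (fun v => e.toLinearEquiv.apply_symm_apply v)
  have hBA : (e.toLinearEquiv.symm : (Fin n → ℂ) →ₗ[ℂ] (Fin n → ℂ))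
      * (e.toLinearEquiv : (Fin n → ℂ) →ₗ[ℂ] (Fin n → ℂ)) = 1 :=
    LinearMap.ext (fun v => e.toLinearEquiv.symm_apply_apply v)
  have hd : LinearMap.det (e.toLinearEquiv : (Fin n → ℂ) →ₗ[ℂ] (Fin n → ℂ)) ≠ 0 :=
    (LinearEquiv.isUnit_det' e.toLinearEquiv).ne_zero
  obtain ⟨c, hc⟩ := IsAlgClosed.exists_pow_nat_eq
    (LinearMap.det (e.toLinearEquiv : (Fin n → ℂ) →ₗ[ℂ] (Fin n → ℂ)))⁻¹ hn
  have hc0 : c ≠ 0 := by
    rintro rfl
    rw [zero_pow hn.ne'] at hc
    exact inv_ne_zero hd hc.symm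
  let u : (Module.End ℂ (Fin n → ℂ))ˣ :=
    ⟨c • (e.toLinearEquiv : (Fin n → ℂ) →ₗ[ℂ] (Fin n → ℂ)),
      c⁻¹ • (e.toLinearEquiv.symm : (Fin n → ℂ) →ₗ[ℂ] (Fin n → ℂ)), by
        rw [smul_mul_smul_comm, hAB, mul_inv_cancel₀ hc0, one_smul], by
        rw [smul_mul_smul_comm, hBA, inv_mul_cancel₀ hc0, one_smul]⟩
  refine ⟨⟨(g, u), ⟨fun m => ?_, ?_⟩⟩, rfl⟩
  · show c • (e.toLinearEquiv : (Fin n → ℂ) →ₗ[ℂ] (Fin n → ℂ)) * ρ m
      = ρ (MulAut.conjNormal g m) * c • (e.toLinearEquiv : (Fin n → ℂ) →ₗ[ℂ] (Fin n → ℂ))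
    rw [smul_mul_assoc, mul_smul_comm, hA m]
  · show LinearMap.det (c • (e.toLinearEquiv : (Fin n → ℂ) →ₗ[ℂ] (Fin n → ℂ))) ^ k = 1
    rw [LinearMap.det_smul, Module.finrank_fin_fun, hc, inv_mul_cancel₀ hd, one_pow]

end construction

section interface

/-- A finite central extension `E → G` in which the invariant irreducible character `θ` of the
normal subgroup `N` extends: `ι` embeds `N` as a normal subgroup, the kernel of `π` is central of
exponent dividing `e ∣ |N|²`, and `Θ` is an irreducible character of `E` with `Θ ∘ ι = θ`. -/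
theorem exists_central_ext {G : Type u} [Group G] [Finite G] (N : Subgroup G) [hN : N.Normal]
    {θ : N → ℂ} (hθ : Cfsg.IsIrrCharacter N θ)
    (hinv : ∀ (g : G) (m : N), θ (MulAut.conjNormal g m) = θ m) :
    ∃ (E : Type u) (_ : Group E) (_ : Finite E) (π : E →* G) (ι : N →* E) (Θ : E → ℂ) (e : ℕ),
      Function.Surjective π ∧ Function.Injective ι ∧ (∀ m : N, π (ι m) = m) ∧
      (∀ (x : E) (m : N), x * ι m * x⁻¹ = ι (MulAut.conjNormal (π x) m)) ∧
      (∀ z : E, π z = 1 → ∀ y : E, z * y = y * z) ∧ (∀ z : E, π z = 1 → z ^ e = 1) ∧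
      e ∣ Nat.card N ^ 2 ∧ Cfsg.IsIrrCharacter E Θ ∧ (∀ m : N, Θ (ι m) = θ m) := by
  classical
  haveI : Fintype N := Fintype.ofFinite N
  obtain ⟨n, ρ, hρ, rfl⟩ := hθ
  haveI := hρ
  have hV := nontrivial_of_isIrreducible ρ
  have hn : 0 < n := by
    have h := Module.finrank_pos (R := ℂ) (M := Fin n → ℂ)
    rwa [Module.finrank_fin_fun] at h
  have hndvd : n ∣ Nat.card N := by
    have h := degree_dvd_card ρ
    rwa [Module.finrank_fin_fun] at h
  obtain ⟨k, hkdef⟩ : ∃ k : ℕ, k = Nat.card N := ⟨_, rfl⟩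
  have hk : ∀ m : N, m ^ k = 1 := fun m => by rw [hkdef]; exact pow_card_eq_one'
  have hkpos : 0 < k := by rw [hkdef]; exact Nat.card_pos
  haveI : Finite (grp N ρ k) := finite_grp N ρ k hn hkpos
  haveI : (rep N ρ k).IsIrreducible :=
    isIrreducible_of_comp (incl N ρ k hk) (rep N ρ k) ρ (fun m => rfl) hρ
  refine ⟨grp N ρ k, inferInstance, inferInstance, proj N ρ k, incl N ρ k hk,
    (rep N ρ k).character, n * k, proj_surjective N ρ k hn hinv, incl_injective N ρ k hk,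
    fun m => rfl, conj_incl N ρ k hk, ker_central N ρ k, ker_pow N ρ k, ?_,
    isIrrCharacter_character (rep N ρ k), fun m => rfl⟩
  rw [← hkdef, pow_two]
  rw [← hkdef] at hndvd
  exact Nat.mul_dvd_mul_right hndvd k

end interface

end Cfsg.Agent.Lib.Helper1.CentExt
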