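import Cfsg.Agent.Lib.Helper1.CharIto

set_option autoImplicit false
set_option linter.unusedSectionVars false
set_option linter.unusedVariables false

/-!
# Converse of Itô's theorem: coprime action fixing all irreducible characters, and the induction
-/

namespace Cfsg.Agent.Lib.Helper1

open Representation Module
open scoped ComplexConjugate

universe u

section itoconv2

/-- a subgroup meeting every conjugacy class is the whole group -/
theorem eq_top_of_meets_all_classes {Y : Type*} [Group Y] [Finite Y] (H : Subgroup Y)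
    (h : ∀ y : Y, ∃ n ∈ H, IsConj n y) : H = ⊤ := by
  classical
  obtain ⟨f, hf⟩ : ∃ f : (Y ⧸ H) × H → Y, ∀ x, f x = x.1.out * (x.2 : Y) * x.1.out⁻¹ :=
    ⟨_, fun _ => rfl⟩
  have hsurj : Function.Surjective f := by
    intro y
    obtain ⟨n, hn, hc⟩ := h y
    obtain ⟨c, hc⟩ := isConj_iff.mp hc
    obtain ⟨k, hk⟩ := QuotientGroup.mk_out_eq_mul H c
    refine ⟨(QuotientGroup.mk c,
      ⟨(k : Y)⁻¹ * n * k, H.mul_mem (H.mul_mem (H.inv_mem k.2) hn) k.2⟩), ?_⟩
    rw [hf]
    simp only
    rw [hk, ← hc]
    group
  have hcard : Nat.card ((Y ⧸ H) × H) = Nat.card Y := by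
    rw [Nat.card_prod, ← Subgroup.card_eq_card_quotient_mul_card_subgroup]
  have hbij := (Nat.bijective_iff_surjective_and_card f).mpr ⟨hsurj, hcard⟩
  rw [eq_top_iff]
  intro y _
  have h1 : f (QuotientGroup.mk y, 1) = f (QuotientGroup.mk 1, 1) := by
    rw [hf, hf]; simp
  have h2 := hbij.1 h1
  have h3 : (QuotientGroup.mk y : Y ⧸ H) = QuotientGroup.mk 1 := congrArg Prod.fst h2
  rw [QuotientGroup.eq] at h3
  have h4 : y⁻¹ ∈ H := by simpa using h3
  exact (H.inv_mem_iff).mp h4

variable {X : Type u} [Group X] [Fintype X]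

theorem classFunction_conj_invariant (M : Subgroup X) [hM : M.Normal] [Fintype M] (g : X)
    (hinv : ∀ θ : M → ℂ, Cfsg.IsIrrCharacter M θ → conjChar M θ g = θ)
    {f : M → ℂ} (hf : Cfsg.IsClassFunction M f) : conjChar M f g = f := by
  have hd : conjChar M f g - f = 0 := by
    apply classFunction_eq_zero
    · intro m n
      show conjChar M f g (n * m * n⁻¹) - f (n * m * n⁻¹) = conjChar M f g m - f m
      rw [hf m n]
      congr 1
      rw [conjChar_eq_comp]
      simp only [Function.comp_apply, map_mul, map_inv]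
      exact hf _ _
    · intro θ hθ
      rw [classInner_sub_left]
      have h1 : Cfsg.classInner (conjChar M f g) θ = Cfsg.classInner f θ := by
        conv_lhs => rw [← hinv θ hθ]
        rw [conjChar_eq_comp, conjChar_eq_comp]
        exact classInner_comp_mulEquiv (conjNormal M g) f θ
      rw [h1, sub_self]
  exact sub_eq_zero.mp hd

theorem isConj_conj_of_invariant (M : Subgroup X) [hM : M.Normal] [Fintype M] (g : X)
    (hinv : ∀ θ : M → ℂ, Cfsg.IsIrrCharacter M θ → conjChar M θ g = θ) (m : M) :
    IsConj m (conjNormal M g m) := by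
  classical
  have hf : Cfsg.IsClassFunction M (fun n : M => if IsConj m n then (1 : ℂ) else 0) := by
    intro n k
    show (if IsConj m (k * n * k⁻¹) then (1 : ℂ) else 0) = if IsConj m n then 1 else 0
    have hiff : IsConj m (k * n * k⁻¹) ↔ IsConj m n := by
      constructor
      · intro h
        exact h.trans (isConj_iff.mpr ⟨k⁻¹, by group⟩)
      · intro h
        exact h.trans (isConj_iff.mpr ⟨k, rfl⟩)
    rw [if_congr hiff rfl rfl]
  have h1 := congrFun (classFunction_conj_invariant M g hinv hf) m
  have h2 : (if IsConj m (conjNormal M g m) then (1 : ℂ) else 0) = if IsConj m m then 1 else 0 :=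
    h1
  rw [if_pos (IsConj.refl m)] at h2
  by_contra hc
  rw [if_neg hc] at h2
  exact zero_ne_one h2

/-- a `p`-subgroup fixing all irreducible characters of a normal `p'`-subgroup centralizes it -/
theorem centralizes_of_invariant {p : ℕ} [Fact p.Prime] (M : Subgroup X) [hM : M.Normal]
    (P : Subgroup X) (hP : IsPGroup p P) (hcop : (Nat.card M).Coprime p)
    (hinv : ∀ θ : M → ℂ, Cfsg.IsIrrCharacter M θ → ∀ g ∈ P, conjChar M θ g = θ) :
    ∀ x ∈ P, ∀ m ∈ M, x * m = m * x := by
  classical
  haveI : Fintype M := Fintype.ofFinite M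
  let H : Subgroup M :=
    { carrier := {n | ∀ x ∈ P, x * (n : X) = n * x}
      one_mem' := by intro x _; simp
      mul_mem' := by
        intro a b ha hb x hx
        show x * ((a : X) * b) = a * b * x
        rw [← mul_assoc, ha x hx, mul_assoc, hb x hx, mul_assoc]
      inv_mem' := by
        intro a ha x hx
        show x * (a : X)⁻¹ = (a : X)⁻¹ * x
        have h1 := ha x hx
        calc x * (a : X)⁻¹ = (a : X)⁻¹ * ((a : X) * x) * (a : X)⁻¹ := by group
          _ = (a : X)⁻¹ * (x * (a : X)) * (a : X)⁻¹ := by rw [h1]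
          _ = (a : X)⁻¹ * x := by group }
  have hHtop : H = ⊤ := by
    apply eq_top_of_meets_all_classes
    intro m₀
    have hstab : ∀ (g : P) (n : M), IsConj m₀ n → IsConj m₀ (conjNormal M (g : X) n) := by
      intro g n hn
      exact hn.trans (isConj_conj_of_invariant M (g : X) (fun θ hθ => hinv θ hθ g g.2) n)
    letI : MulAction P {n : M // IsConj m₀ n} :=
      { smul := fun g n => ⟨conjNormal M (g : X) n.1, hstab g n.1 n.2⟩
        one_smul := by
          intro n
          apply Subtype.ext
          apply Subtype.ext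
          show ((1 : P) : X) * (n.1 : X) * ((1 : P) : X)⁻¹ = n.1
          simp
        mul_smul := by
          intro a b n
          apply Subtype.ext
          apply Subtype.ext
          show ((a * b : P) : X) * (n.1 : X) * ((a * b : P) : X)⁻¹ =
            (a : X) * ((b : X) * (n.1 : X) * (b : X)⁻¹) * (a : X)⁻¹
          simp only [Subgroup.coe_mul]
          group }
    have hcard : ¬ p ∣ Nat.card {n : M // IsConj m₀ n} := by
      have h1 : Nat.card {n : M // IsConj m₀ n} ∣ Nat.card M := by
        have h2 : Nat.card {n : M // IsConj m₀ n} =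
            Nat.card (MulAction.orbit (ConjAct M) m₀) :=
          Nat.card_congr (Equiv.subtypeEquivRight (fun n => by
            rw [ConjAct.mem_orbit_conjAct]; exact isConj_comm))
        rw [h2, Nat.card_congr (MulAction.orbitEquivQuotientStabilizer (ConjAct M) m₀)]
        exact Subgroup.index_dvd_card (MulAction.stabilizer (ConjAct M) m₀)
      intro hpd
      have h3 : p ∣ Nat.gcd (Nat.card M) p := Nat.dvd_gcd (hpd.trans h1) dvd_rfl
      rw [hcop] at h3
      exact (Fact.out : p.Prime).one_lt.ne' (Nat.dvd_one.mp h3)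
    obtain ⟨n, hn⟩ := hP.nonempty_fixed_point_of_prime_not_dvd_card _ hcard
    refine ⟨n.1, ?_, n.2.symm⟩
    intro x hx
    have h3 := hn ⟨x, hx⟩
    have h4 : x * ((n.1 : M) : X) * x⁻¹ = ((n.1 : M) : X) :=
      congrArg (fun z : {n : M // IsConj m₀ n} => ((z.1 : M) : X)) h3
    calc x * ((n.1 : M) : X) = (x * ((n.1 : M) : X) * x⁻¹) * x := by group
      _ = ((n.1 : M) : X) * x := by rw [h4]
  intro x hx m hm
  have h5 : (⟨m, hm⟩ : M) ∈ H := by rw [hHtop]; trivial
  exact h5 x hx

end itoconv2

end Cfsg.Agent.Lib.Helper1
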