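import Cfsg.Agent.Lib.Helper1.CharIto2

set_option autoImplicit false
set_option linter.unusedSectionVars false
set_option linter.unusedVariables false

/-!
# Converse of Itô's theorem: the induction
-/

namespace Cfsg.Agent.Lib.Helper1

open Representation Module
open scoped ComplexConjugate

universe u

section itoconv3

/-- generic converse of Itô's theorem for a class of groups closed under quotients and normal
subgroups in which nontrivial members have a nontrivial normal `p`- or `p'`-subgroup -/
theorem ito_converse_generic (p : ℕ) (hp : p.Prime)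
    (𝒞 : ∀ (Y : Type u) [Group Y], Prop)
    (hq : ∀ (Y : Type u) [Group Y] [Finite Y] (M : Subgroup Y) [M.Normal], 𝒞 Y → 𝒞 (Y ⧸ M))
    (hn : ∀ (Y : Type u) [Group Y] [Finite Y] (K : Subgroup Y) [K.Normal], 𝒞 Y → 𝒞 K)
    (hm : ∀ (Y : Type u) [Group Y] [Finite Y] [Nontrivial Y], 𝒞 Y →
      ∃ M : Subgroup Y, M.Normal ∧ M ≠ ⊥ ∧ (IsPGroup p M ∨ (Nat.card M).Coprime p)) :
    ∀ (n : ℕ) (X : Type u) [Group X] [Finite X], Nat.card X = n → 𝒞 X → PD p X →
      ∃ P : Subgroup X, P.Normal ∧ (∀ x ∈ P, ∀ y ∈ P, x * y = y * x) ∧ IsPGroup p P ∧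
        ¬ p ∣ P.index := by
  intro n
  induction n using Nat.strong_induction_on with
  | _ n ih =>
  intro X _ _ hcard hC hPD
  classical
  haveI : Fact p.Prime := ⟨hp⟩
  haveI : Fintype X := Fintype.ofFinite X
  rcases subsingleton_or_nontrivial X with hss | hnt
  · refine ⟨⊥, inferInstance, ?_, IsPGroup.of_bot, ?_⟩
    · intro x hx y hy
      rw [Subgroup.mem_bot] at hx hy
      rw [hx, hy]
    · rw [Subgroup.index_bot, Nat.card_eq_one_iff_unique.mpr ⟨hss, ⟨1⟩⟩]
      exact hp.one_lt.ne' ∘ Nat.dvd_one.mp
  · obtain ⟨M, hMn, hMne, hMcase⟩ := hm X hC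
    haveI := hMn
    have hquot : Nat.card (X ⧸ M) < n := by
      have h1 := Subgroup.card_eq_card_quotient_mul_card_subgroup M
      have h2 : 1 < Nat.card M := by
        have := (Subgroup.nontrivial_iff_ne_bot M).mpr hMne
        exact Finite.one_lt_card
      have h3 : 0 < Nat.card (X ⧸ M) := Nat.card_pos
      rw [← hcard, h1]
      nlinarith
    obtain ⟨Qb, hQbn, hQbab, hQbp, hQbidx⟩ := ih _ hquot (X ⧸ M) rfl (hq X M hC) (hPD.quotient M)
    obtain ⟨Q, hQ⟩ : ∃ Q : Subgroup X, Q = Qb.comap (QuotientGroup.mk' M) := ⟨_, rfl⟩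
    haveI hQn : Q.Normal := by rw [hQ]; exact hQbn.comap _
    have hQidx : Q.index = Qb.index := by
      rw [hQ]
      exact Subgroup.index_comap_of_surjective Qb (QuotientGroup.mk'_surjective M)
    rcases hMcase with hMp | hcop
    · -- `M` is a `p`-group: `Q` is the normal abelian Sylow subgroup
      have hQp : IsPGroup p Q := by
        rw [hQ]
        apply hQbp.comap_of_ker_isPGroup
        rw [QuotientGroup.ker_mk']
        exact hMp
      refine ⟨Q, hQn, ?_, hQp, by rw [hQidx]; exact hQbidx⟩
      have hPDQ : PD p Q := hPD.normal Q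
      have hlin : ∀ χ : Cfsg.IrrCharacter Q, (χ : Q → ℂ) 1 = 1 := by
        intro χ
        obtain ⟨d, hd1, hd2, hd3⟩ := IsIrrCharacter.degree_dvd_card χ.2
        have hnd := hPDQ χ.1 χ.2 d hd1
        obtain ⟨b, hb⟩ := (IsPGroup.iff_card.mp hQp)
        rw [hb] at hd2
        obtain ⟨j, -, hj⟩ := (Nat.dvd_prime_pow hp).mp hd2
        rcases Nat.eq_zero_or_pos j with hj0 | hj0
        · rw [hd1, hj, hj0, pow_zero, Nat.cast_one]
        · exfalso
          apply hnd
          rw [hj]
          exact dvd_pow_self p hj0.ne'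
      intro x hx y hy
      have h1 := abelian_of_all_linear hlin ⟨x, hx⟩ ⟨y, hy⟩
      exact congrArg Subtype.val h1
    · by_cases hQtop : Q = ⊤
      · -- `X / M` is an abelian `p`-group
        have hmemQb : ∀ q : X ⧸ M, q ∈ Qb := by
          intro q
          obtain ⟨x, rfl⟩ := QuotientGroup.mk_surjective q
          have h1 : x ∈ Q := by rw [hQtop]; exact Subgroup.mem_top x
          rw [hQ] at h1
          exact h1
        have hXMp : IsPGroup p (X ⧸ M) := by
          intro q
          obtain ⟨k, hk⟩ := hQbp ⟨q, hmemQb q⟩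
          exact ⟨k, congrArg Subtype.val hk⟩
        obtain ⟨a, ha⟩ : ∃ a, M.index = p ^ a := IsPGroup.iff_card.mp hXMp
        have hinv : ∀ θ : M → ℂ, Cfsg.IsIrrCharacter M θ → ∀ g : X, conjChar M θ g = θ :=
          fun θ hθ g => hPD.invariant_irr hp M ⟨a, ha⟩ hθ g
        obtain ⟨P⟩ : Nonempty (Sylow p X) := inferInstance
        have hcent := centralizes_of_invariant M (P : Subgroup X) P.isPGroup' hcop
          (fun θ hθ g _ => hinv θ hθ g)
        have hPidx : ¬ p ∣ (P : Subgroup X).index := P.not_dvd_index
        have hPn : (P : Subgroup X).Normal := by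
          rw [← Subgroup.normalizer_eq_top_iff]
          have h1 : (P : Subgroup X) ≤ Subgroup.normalizer ((P : Subgroup X) : Set X) :=
            Subgroup.le_normalizer
          have h2 : M ≤ Subgroup.normalizer ((P : Subgroup X) : Set X) := by
            intro m hm
            rw [Subgroup.mem_normalizer_iff]
            intro x
            have hkey : ∀ y ∈ (P : Subgroup X), m * y * m⁻¹ = y := by
              intro y hy
              rw [← hcent y hy m hm]
              group
            constructor
            · intro hx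
              rw [hkey x hx]
              exact hx
            · intro hx
              have h3 := hkey _ hx
              have h5 : m * x * m⁻¹ = x := by
                have h4 := congrArg (fun z => m⁻¹ * z * m) h3
                simpa [mul_assoc] using h4
              rw [h5] at hx
              exact hx
          have h3 : (P : Subgroup X) ⊔ M ≤ Subgroup.normalizer ((P : Subgroup X) : Set X) :=
            sup_le h1 h2
          have h4 : ((P : Subgroup X) ⊔ M).index = 1 := by
            have h5 : ((P : Subgroup X) ⊔ M).index ∣ (P : Subgroup X).index :=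
              Subgroup.index_dvd_of_le le_sup_left
            have h6 : ((P : Subgroup X) ⊔ M).index ∣ p ^ a := by
              rw [← ha]
              exact Subgroup.index_dvd_of_le le_sup_right
            obtain ⟨b, -, hb⟩ := (Nat.dvd_prime_pow hp).mp h6
            rcases Nat.eq_zero_or_pos b with hb0 | hb0
            · rw [hb, hb0, pow_zero]
            · exfalso
              apply hPidx
              refine dvd_trans ?_ h5
              rw [hb]
              exact dvd_pow_self p hb0.ne'
          rw [eq_top_iff, ← Subgroup.index_eq_one.mp h4]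
          exact h3
        refine ⟨P, hPn, ?_, P.isPGroup', hPidx⟩
        intro x hx y hy
        -- the commutator lies in `P ∩ M`
        have hcM : x * y * x⁻¹ * y⁻¹ ∈ M := by
          rw [← QuotientGroup.eq_one_iff]
          have h1 := hQbab (x : X ⧸ M) (hmemQb _) (y : X ⧸ M) (hmemQb _)
          have h2 : ((x * y * x⁻¹ * y⁻¹ : X) : X ⧸ M) =
              (x : X ⧸ M) * (y : X ⧸ M) * (x : X ⧸ M)⁻¹ * (y : X ⧸ M)⁻¹ := rfl
          rw [h2, h1]
          group
        have hcP : x * y * x⁻¹ * y⁻¹ ∈ (P : Subgroup X) :=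
          Subgroup.mul_mem _ (Subgroup.mul_mem _ (Subgroup.mul_mem _ hx hy) (Subgroup.inv_mem _ hx))
            (Subgroup.inv_mem _ hy)
        have hc1 : x * y * x⁻¹ * y⁻¹ = 1 := by
          obtain ⟨k, hk⟩ := P.isPGroup' ⟨_, hcP⟩
          have hk' : (x * y * x⁻¹ * y⁻¹) ^ (p ^ k) = 1 := congrArg Subtype.val hk
          have ho1 : orderOf (x * y * x⁻¹ * y⁻¹) ∣ p ^ k := orderOf_dvd_of_pow_eq_one hk'
          have ho2 : orderOf (x * y * x⁻¹ * y⁻¹) ∣ Nat.card M := by
            have h1 : orderOf (⟨_, hcM⟩ : M) ∣ Nat.card M := orderOf_dvd_natCard _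
            rwa [← Subgroup.orderOf_coe] at h1
          have hcop2 : Nat.Coprime (p ^ k) (Nat.card M) := (Nat.Coprime.pow_right k hcop).symm
          have ho3 : orderOf (x * y * x⁻¹ * y⁻¹) = 1 :=
            Nat.eq_one_of_dvd_coprimes hcop2 ho1 ho2
          exact orderOf_eq_one_iff.mp ho3
        calc x * y = (x * y * x⁻¹ * y⁻¹) * (y * x) := by group
          _ = y * x := by rw [hc1, one_mul]
      · -- `Q` is a proper normal subgroup
        have hQlt : Nat.card Q < n := by
          have h1 : Nat.card Q ≤ Nat.card X := Subgroup.card_le_card_group Q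
          have h2 : Nat.card Q ≠ Nat.card X := fun h => hQtop (Subgroup.eq_top_of_card_eq Q h)
          omega
        obtain ⟨P₀, hP₀n, hP₀ab, hP₀p, hP₀idx⟩ := ih _ hQlt Q rfl (hn X Q hC) (hPD.normal Q)
        have hchar : ((hP₀p.toSylow hP₀idx : Sylow p Q) : Subgroup Q).Characteristic :=
          Sylow.characteristic_of_normal _ (by rw [IsPGroup.toSylow_coe]; exact hP₀n)
        rw [IsPGroup.toSylow_coe] at hchar
        haveI := hchar
        refine ⟨P₀.map Q.subtype, ConjAct.normal_of_characteristic_of_normal, ?_, hP₀p.map _, ?_⟩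
        · rintro _ ⟨x, hx, rfl⟩ _ ⟨y, hy, rfl⟩
          have h1 := hP₀ab x hx y hy
          exact congrArg Subtype.val h1
        · rw [Subgroup.index_map_subtype, hQidx]
          exact hp.not_dvd_mul hP₀idx hQbidx

end itoconv3

end Cfsg.Agent.Lib.Helper1
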