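import Cfsg.Agent.Lib.Helper1.CharRelM
import Cfsg.Agent.Lib.Helper1.CharPRes
import Cfsg.Agent.Lib.Helper1.CharClifford3
import Cfsg.Agent.Lib.Helper1.CharPElem

set_option autoImplicit false
set_option linter.unusedSectionVars false
set_option linter.unusedVariables false

/-!
# Groups with abelian Sylow subgroups and monomial characters (towards Isaacs 6.23)
-/

namespace Cfsg.Agent.Lib.Helper1

open Representation Module
open scoped ComplexConjugate commutatorElement

universe u

section abelianSylow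

/-- all Sylow subgroups are abelian -/
def AS (A : Type*) [Group A] : Prop :=
  ∀ (p : ℕ) [Fact p.Prime] (P : Sylow p A), ∀ a ∈ P, ∀ b ∈ P, a * b = b * a

theorem AS.of_injective {A B : Type*} [Group A] [Group B] (f : A →* B)
    (hf : Function.Injective f) (h : AS B) : AS A := by
  intro p _ P a ha b hb
  have hP : IsPGroup p ((P : Subgroup A).map f) := P.isPGroup'.map f
  obtain ⟨Q, hQ⟩ := hP.exists_le_sylow
  apply hf
  rw [map_mul, map_mul]
  exact h p Q (f a) (hQ (Subgroup.mem_map_of_mem f ha)) (f b) (hQ (Subgroup.mem_map_of_mem f hb))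

theorem AS.of_surjective {A B : Type*} [Group A] [Group B] [Finite A] (f : A →* B)
    (hf : Function.Surjective f) (h : AS A) : AS B := by
  intro p _ P a ha b hb
  haveI : Finite B := Finite.of_surjective f hf
  obtain ⟨P₀⟩ : Nonempty (Sylow p A) := inferInstance
  have hp0 : IsPGroup p ((P₀ : Subgroup A).map f) := P₀.isPGroup'.map f
  have hidx : ¬ p ∣ ((P₀ : Subgroup A).map f).index := by
    intro hd
    exact P₀.not_dvd_index (hd.trans (Subgroup.index_map_dvd _ hf))
  obtain ⟨g, hg⟩ := MulAction.exists_smul_eq B (hp0.toSylow hidx) P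
  have hmem : ∀ x ∈ P, ∃ y ∈ (P₀ : Subgroup A), x = g * f y * g⁻¹ := by
    intro x hx
    have h1 : x ∈ ((g • (hp0.toSylow hidx) : Sylow p B) : Subgroup B) := by rw [hg]; exact hx
    rw [Sylow.coe_subgroup_smul, Subgroup.mem_smul_pointwise_iff_exists] at h1
    obtain ⟨s, hs, hsx⟩ := h1
    have hs' : s ∈ (P₀ : Subgroup A).map f := by
      rw [← IsPGroup.toSylow_coe hp0 hidx]; exact hs
    obtain ⟨y, hy, rfl⟩ := hs'
    exact ⟨y, hy, by rw [← hsx]; rfl⟩
  obtain ⟨x, hx, rfl⟩ := hmem a ha
  obtain ⟨y, hy, rfl⟩ := hmem b hb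
  have hxy := h p P₀ x hx y hy
  calc g * f x * g⁻¹ * (g * f y * g⁻¹) = g * f (x * y) * g⁻¹ := by rw [map_mul]; group
    _ = g * f (y * x) * g⁻¹ := by rw [hxy]
    _ = g * f y * g⁻¹ * (g * f x * g⁻¹) := by rw [map_mul]; group

theorem AS.comm_of_nilpotent {A : Type*} [Group A] [Finite A] (h : AS A)
    (hnil : Group.IsNilpotent A) (a b : A) : a * b = b * a := by
  obtain ⟨e⟩ := ((Group.isNilpotent_of_finite_tfae (G := A)).out 0 4).mp hnil
  have hcomm : ∀ x y : (∀ p : (Nat.card A).primeFactors, ∀ P : Sylow p A, (P : Subgroup A)),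
      x * y = y * x := by
    intro x y
    funext p P
    apply Subtype.ext
    haveI : Fact (p : ℕ).Prime := ⟨Nat.prime_of_mem_primeFactors p.2⟩
    exact h p P _ (x p P).2 _ (y p P).2
  have h1 := hcomm (e.symm a) (e.symm b)
  have h2 := congrArg e h1
  simpa using h2

/-- if the abelian normal subgroups inside a solvable normal subgroup with abelian Sylow subgroups
are all central, the normal subgroup is abelian -/
theorem abelian_of_central_abelian_normal {H : Type u} [Group H] [Finite H] (N : Subgroup H)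
    [hN : N.Normal] (hsolv : Group.IsSolvable N) (hAS : AS N)
    (hcent : ∀ A : Subgroup H, A.Normal → A ≤ N → (∀ a ∈ A, ∀ b ∈ A, a * b = b * a) →
      A ≤ Subgroup.center H) :
    ∀ a ∈ N, ∀ b ∈ N, a * b = b * a := by
  classical
  obtain ⟨D, hD0, hDs⟩ : ∃ D : ℕ → Subgroup H, D 0 = N ∧ ∀ i, D (i + 1) = ⁅D i, D i⁆ :=
    ⟨fun i => Nat.rec N (fun _ E => ⁅E, E⁆) i, rfl, fun _ => rfl⟩
  have hDn : ∀ i, (D i).Normal := by
    intro i
    induction i with
    | zero => rw [hD0]; exact hN
    | succ i ih =>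
      rw [hDs]
      haveI := ih
      infer_instance
  have hDN : ∀ i, D i ≤ N := by
    intro i
    induction i with
    | zero => rw [hD0]
    | succ i ih =>
      rw [hDs]
      haveI := hDn i
      exact (Subgroup.commutator_le_left (D i) (D i)).trans ih
  have hDder : ∀ i, D i = (derivedSeries N i).map N.subtype := by
    intro i
    induction i with
    | zero =>
      rw [hD0, derivedSeries_zero, ← MonoidHom.range_eq_map, Subgroup.range_subtype]
    | succ i ih =>
      rw [hDs, derivedSeries_succ, Subgroup.map_commutator, ← ih]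
  have hex : ∃ k, D k = ⊥ := by
    obtain ⟨k, hk⟩ := hsolv.solvable
    exact ⟨k, by rw [hDder, hk, Subgroup.map_bot]⟩
  have hab_of : ∀ i, D (i + 1) = ⊥ → ∀ a ∈ D i, ∀ b ∈ D i, a * b = b * a := by
    intro i hi a ha b hb
    have h1 : ⁅a, b⁆ ∈ ⁅D i, D i⁆ := Subgroup.commutator_mem_commutator ha hb
    rw [← hDs, hi, Subgroup.mem_bot] at h1
    exact commutatorElement_eq_one_iff_mul_comm.mp h1
  have hD1 : D 1 = ⊥ := by
    by_contra hne
    have hk0 : Nat.find hex ≠ 0 := by
      intro h0
      have h1 := Nat.find_spec hex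
      rw [h0] at h1
      apply hne
      rw [hDs, h1, eq_bot_iff]
      exact Subgroup.commutator_le_left ⊥ ⊥
    have hk1 : Nat.find hex ≠ 1 := by
      intro h0
      have h1 := Nat.find_spec hex
      rw [h0] at h1
      exact hne h1
    obtain ⟨j, hj⟩ : ∃ j, Nat.find hex = j + 2 := ⟨Nat.find hex - 2, by omega⟩
    have hj2 : D (j + 2) = ⊥ := by rw [← hj]; exact Nat.find_spec hex
    have hj1 : D (j + 1) ≠ ⊥ := Nat.find_min hex (by omega)
    have hcen : D (j + 1) ≤ Subgroup.center H :=
      hcent (D (j + 1)) (hDn _) (hDN _) (hab_of (j + 1) hj2)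
    -- `D j` is nilpotent, hence abelian
    have hcomm_c : ∀ x y : D j, x * y * x⁻¹ * y⁻¹ ∈ Subgroup.center (D j) := by
      intro x y
      rw [Subgroup.mem_center_iff]
      intro z
      apply Subtype.ext
      have h1 : ⁅(x : H), (y : H)⁆ ∈ D (j + 1) := by
        rw [hDs]
        exact Subgroup.commutator_mem_commutator x.2 y.2
      have h2 := Subgroup.mem_center_iff.mp (hcen h1) (z : H)
      rw [commutatorElement_def] at h2
      exact h2
    letI : CommGroup ((D j) ⧸ Subgroup.center (D j)) :=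
      { (inferInstance : Group ((D j) ⧸ Subgroup.center (D j))) with
        mul_comm := by
          intro a b
          obtain ⟨a, rfl⟩ := QuotientGroup.mk_surjective a
          obtain ⟨b, rfl⟩ := QuotientGroup.mk_surjective b
          rw [← QuotientGroup.mk_mul, ← QuotientGroup.mk_mul, QuotientGroup.eq]
          have h1 := hcomm_c b⁻¹ a⁻¹
          have h2 : (a * b)⁻¹ * (b * a) = b⁻¹ * a⁻¹ * b⁻¹⁻¹ * a⁻¹⁻¹ := by group
          rw [h2]
          exact h1 }
    have hnil : Group.IsNilpotent (D j) :=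
      Group.of_quotient_center_nilpotent (CommGroup.isNilpotent)
    have hASj : AS (D j) :=
      AS.of_injective (Subgroup.inclusion (hDN j)) (Subgroup.inclusion_injective (hDN j)) hAS
    apply hj1
    rw [hDs, eq_bot_iff]
    rw [Subgroup.commutator_le]
    intro x hx y hy
    rw [Subgroup.mem_bot]
    have h1 := AS.comm_of_nilpotent hASj hnil ⟨x, hx⟩ ⟨y, hy⟩
    have h2 : x * y = y * x := congrArg Subtype.val h1
    exact commutatorElement_eq_one_iff_mul_comm.mpr h2
  intro a ha b hb
  have h1 : ⁅a, b⁆ ∈ ⁅D 0, D 0⁆ := by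
    rw [hD0]
    exact Subgroup.commutator_mem_commutator ha hb
  rw [← hDs, hD1, Subgroup.mem_bot] at h1
  exact commutatorElement_eq_one_iff_mul_comm.mp h1

end abelianSylow

end Cfsg.Agent.Lib.Helper1
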