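import Cfsg.Agent.Lib.Helper1.CharMono2

set_option autoImplicit false
set_option linter.unusedSectionVars false
set_option linter.unusedVariables false

/-!
# Isaacs 6.23: characters restricting irreducibly to a normal subgroup with abelian Sylow
subgroups are monomial (solvable groups)
-/

namespace Cfsg.Agent.Lib.Helper1

open Representation Module
open scoped ComplexConjugate commutatorElement

universe u

section mono3

theorem monomial_of_irr_restrict : ∀ (n : ℕ) (H : Type u) [Group H] [Fintype H], Nat.card H = n →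
    Group.IsSolvable H → ∀ (N : Subgroup H) [N.Normal], AS N → ∀ (ψ : H → ℂ),
    Cfsg.IsIrrCharacter H ψ → Cfsg.IsIrrCharacter N (fun x : N => ψ x) →
    ∃ (U : Subgroup H) (lam : U → ℂ), Cfsg.IsCharacter U lam ∧ lam 1 = 1 ∧
      Cfsg.indFun U lam = ψ := by
  intro n
  induction n using Nat.strong_induction_on with
  | _ n ih =>
  intro H _ _ hcard hsolv N hN hAS ψ hψ hψN
  classical
  haveI := hsolv
  by_cases hprim : ∀ (K : Subgroup H) (φ : K → ℂ), Cfsg.IsIrrCharacter K φ →
      ψ = Cfsg.indFun K φ → K = ⊤
  · have hψ' := hψ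
    obtain ⟨m, ρ, hρ, hρψ⟩ := hψ
    by_cases hker : ∀ h : H, ρ h = LinearMap.id → h = 1
    · -- faithful and primitive
      have hprim' : ∀ (K : Subgroup H) (φ : K → ℂ), Cfsg.IsIrrCharacter K φ →
          ρ.character = Cfsg.indFun K φ → K = ⊤ := by rw [hρψ]; exact hprim
      have hcent : ∀ A : Subgroup H, A.Normal → A ≤ N → (∀ a ∈ A, ∀ b ∈ A, a * b = b * a) →
          A ≤ Subgroup.center H := by
        intro A hAn hAN hAab a ha
        haveI := hAn
        rw [Subgroup.mem_center_iff]
        intro g
        obtain ⟨ω, hω⟩ := scalar_of_primitive ρ hρ hprim' A hAab a ha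
        have h1 : ρ (g * a * g⁻¹ * a⁻¹) = LinearMap.id := by
          have h2 : ρ (g * a * g⁻¹) = ρ a := by
            have h3 : ρ g * ρ g⁻¹ = 1 := by rw [← map_mul, mul_inv_cancel, map_one]
            have h4 : (LinearMap.id : (Fin m → ℂ) →ₗ[ℂ] (Fin m → ℂ)) = 1 := rfl
            rw [map_mul, map_mul, hω, h4, mul_smul_comm, mul_one, smul_mul_assoc, h3]
          rw [map_mul, h2, ← map_mul, mul_inv_cancel, map_one]
          rfl
        have h3 := hker _ h1
        calc g * a = (g * a * g⁻¹ * a⁻¹) * (a * g) := by group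
          _ = a * g := by rw [h3, one_mul]
      have hNab := abelian_of_central_abelian_normal N inferInstance hAS hcent
      have h1 : (fun x : N => ψ x) 1 = 1 :=
        irr_degree_one_of_comm (fun a b => Subtype.ext (hNab a a.2 b b.2)) hψN
      refine ⟨⊤, fun x => ψ x, IsCharacter.restrict (IsIrrCharacter.isCharacter hψ') ⊤, h1, ?_⟩
      exact Cfsg.Agent.Lib.Helper25.Brauer.indFun_top ψ (IsIrrCharacter.isClassFunction hψ')
    · -- not faithful: pass to the quotient by the kernel
      push Not at hker
      obtain ⟨z, hz1, hzne⟩ := hker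
      obtain ⟨Z, hZdef⟩ : ∃ Z : Subgroup H, Z = MonoidHom.ker ρ := ⟨_, rfl⟩
      haveI hZn : Z.Normal := by rw [hZdef]; exact MonoidHom.normal_ker ρ
      have hzZ : z ∈ Z := by rw [hZdef]; exact hz1
      haveI : Fintype (H ⧸ Z) := Fintype.ofFinite _
      have hquot : Nat.card (H ⧸ Z) < n := by
        have h1 := Subgroup.card_eq_card_quotient_mul_card_subgroup Z
        have h2 : 1 < Nat.card Z := by
          have hne : Z ≠ ⊥ := by
            intro hb
            rw [hb, Subgroup.mem_bot] at hzZ
            exact hzne hzZ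
          have := (Subgroup.nontrivial_iff_ne_bot Z).mpr hne
          exact Finite.one_lt_card
        have h3 : 0 < Nat.card (H ⧸ Z) := Nat.card_pos
        rw [← hcard, h1]
        nlinarith
      obtain ⟨β', hβ', hβ'ψ⟩ := IsIrrCharacter.deflate Z hψ' (by
        intro x hx
        rw [hZdef] at hx
        have hx' : ρ x = LinearMap.id := hx
        rw [← hρψ, (char_eq_finrank_iff ρ x).mpr hx', char_one])
      obtain ⟨Nb, hNbdef⟩ : ∃ Nb : Subgroup (H ⧸ Z), Nb = N.map (QuotientGroup.mk' Z) :=
        ⟨_, rfl⟩
      haveI hNbn : Nb.Normal := by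
        rw [hNbdef]
        exact hN.map _ (QuotientGroup.mk'_surjective Z)
      have hASb : AS Nb := by
        rw [hNbdef]
        exact AS.of_surjective ((QuotientGroup.mk' Z).subgroupMap N)
          ((QuotientGroup.mk' Z).subgroupMap_surjective N) hAS
      have hβN : Cfsg.IsIrrCharacter Nb (fun x : Nb => β' x) := by
        subst hNbdef
        apply isIrr_of_comp_irr ((QuotientGroup.mk' Z).subgroupMap N)
          (IsCharacter.restrict (IsIrrCharacter.isCharacter hβ') _)
        have h1 : (fun x : N.map (QuotientGroup.mk' Z) => β' x) ∘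
            ((QuotientGroup.mk' Z).subgroupMap N) = fun x : N => ψ x := by
          funext x
          exact (hβ'ψ x).symm
        rw [h1]
        exact hψN
      obtain ⟨Ub, lamb, hlamb, hlamb1, hindb⟩ :=
        ih _ hquot (H ⧸ Z) rfl inferInstance Nb hASb β' hβ' hβN
      refine ⟨Ub.comap (QuotientGroup.mk' Z),
        fun u => lamb ⟨((u : H) : H ⧸ Z), u.2⟩, ?_, ?_, ?_⟩
      · exact IsCharacter.comp hlamb ((QuotientGroup.mk' Z).subgroupComap Ub)
      · exact hlamb1
      · rw [indFun_comap_mk Z Ub lamb, hindb]
        funext g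
        exact (hβ'ψ g).symm
  · -- induced from a proper subgroup
    push Not at hprim
    obtain ⟨K, φ, hφ, hψφ, hKtop⟩ := hprim
    haveI : Fintype K := Fintype.ofFinite K
    haveI : (N.subgroupOf K).Normal := Subgroup.normal_subgroupOf
    have hφN := irr_restrict_of_induced N hψ hψN K hφ hψφ
    have hKlt : Nat.card K < n := by
      have h1 : Nat.card K ≤ Nat.card H := Subgroup.card_le_card_group K
      have h2 : Nat.card K ≠ Nat.card H := fun h => hKtop (Subgroup.eq_top_of_card_eq K h)
      omega
    have hASK : AS (N.subgroupOf K) := by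
      refine AS.of_injective ((K.subtype).subgroupComap N) ?_ hAS
      intro x y hxy
      exact Subtype.ext (Subtype.ext (congrArg (fun t : N => (t : H)) hxy))
    obtain ⟨U', lam', hlam', hlam'1, hind'⟩ :=
      ih _ hKlt K rfl inferInstance (N.subgroupOf K) hASK φ hφ hφN
    refine ⟨U'.map K.subtype,
      lam' ∘ (U'.equivMapOfInjective K.subtype K.subtype_injective).symm, ?_, ?_, ?_⟩
    · exact IsCharacter.comp hlam'
        (U'.equivMapOfInjective K.subtype K.subtype_injective).symm.toMonoidHom
    · show lam' ((U'.equivMapOfInjective K.subtype K.subtype_injective).symm 1) = 1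
      rw [map_one]
      exact hlam'1
    · rw [← Cfsg.Agent.Lib.Helper25.Brauer.indFun_map K U' lam', hind', ← hψφ]

end mono3

end Cfsg.Agent.Lib.Helper1
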