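import Cfsg.Agent.S0857
import Cfsg.Agent.Lib.Helper25.Brauer2

set_option autoImplicit false
set_option linter.unusedSectionVars false
set_option linter.unusedVariables false

/-!
# Relative M-groups (Isaacs 6.22)
-/

namespace Cfsg.Agent.Lib.Helper1

open Representation Module
open scoped ComplexConjugate

universe u

section relM

/-- a chief factor above a normal subgroup with solvable quotient is abelian -/
theorem chief_abelian {X : Type u} [Group X] [Finite X] (N K L : Subgroup X) [N.Normal]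
    [hK : K.Normal] [hL : L.Normal]
    (hsolv : Group.IsSolvable (X ⧸ N)) (hNL : N ≤ L) (hLK : L < K)
    (hchief : ∀ M : Subgroup X, M.Normal → L ≤ M → M ≤ K → M = L ∨ M = K) : ⁅K, K⁆ ≤ L := by
  have hcomK : ⁅K, K⁆ ≤ K := Subgroup.commutator_le_left K K
  rcases hchief (⁅K, K⁆ ⊔ L) inferInstance le_sup_right (sup_le hcomK hLK.le) with h | h
  · rw [← h]
    exact le_sup_left
  · exfalso
    haveI := hsolv
    haveI : Group.IsSolvable (X ⧸ L) := by
      apply Group.isSolvable_of_surjective (f := QuotientGroup.map N L (MonoidHom.id X) hNL)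
      intro q
      obtain ⟨x, rfl⟩ := QuotientGroup.mk_surjective q
      exact ⟨(x : X ⧸ N), rfl⟩
    have hLb : L.map (QuotientGroup.mk' L) = ⊥ := by
      rw [eq_bot_iff]
      rintro _ ⟨l, hl, rfl⟩
      rw [Subgroup.mem_bot, QuotientGroup.mk'_apply, QuotientGroup.eq_one_iff]
      exact hl
    have hKb : ⁅K.map (QuotientGroup.mk' L), K.map (QuotientGroup.mk' L)⁆ =
        K.map (QuotientGroup.mk' L) := by
      rw [← Subgroup.map_commutator]
      have h2 : (⁅K, K⁆ ⊔ L).map (QuotientGroup.mk' L) = (⁅K, K⁆).map (QuotientGroup.mk' L) := by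
        rw [Subgroup.map_sup, hLb, sup_bot_eq]
      rw [← h2, h]
    have hne : K.map (QuotientGroup.mk' L) ≠ ⊥ := by
      intro hb
      apply not_le_of_gt hLK
      intro k hk
      have h3 : (QuotientGroup.mk' L k) ∈ K.map (QuotientGroup.mk' L) :=
        Subgroup.mem_map_of_mem _ hk
      rw [hb, Subgroup.mem_bot, QuotientGroup.mk'_apply, QuotientGroup.eq_one_iff] at h3
      exact h3
    have : Nontrivial (K.map (QuotientGroup.mk' L)) := (Subgroup.nontrivial_iff_ne_bot _).2 hne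
    have h1 : commutator (K.map (QuotientGroup.mk' L)) < ⊤ :=
      Group.IsSolvable.commutator_lt_top_of_nontrivial _
    apply h1.ne
    apply Subgroup.map_injective (Subgroup.subtype_injective (K.map (QuotientGroup.mk' L)))
    rw [Subgroup.map_subtype_commutator, hKb, ← MonoidHom.range_eq_map, Subgroup.range_subtype]

theorem classInner_finset_sum_irr {X : Type u} [Group X] [Fintype X] {F : Finset (X → ℂ)}
    (hF : ∀ φ ∈ F, Cfsg.IsIrrCharacter X φ) {φ₁ : X → ℂ} (h1 : φ₁ ∈ F) :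
    Cfsg.classInner (∑ φ ∈ F, φ) φ₁ = 1 := by
  classical
  rw [classInner_sum_left, Finset.sum_eq_single φ₁]
  · exact classInner_irr_self (hF φ₁ h1)
  · intro φ hφ hne
    exact classInner_irr_ne (hF φ hφ) (hF φ₁ h1) hne
  · intro h
    exact absurd h1 h

/-- one step of Isaacs 6.22 -/
theorem relM_step {X : Type u} [Group X] [Fintype X] (N : Subgroup X) [hN : N.Normal]
    (hsolv : Group.IsSolvable (X ⧸ N))
    (hchief : ∀ K L : Subgroup X, K.Normal → L.Normal → N ≤ L → L < K →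
      (∀ M : Subgroup X, M.Normal → L ≤ M → M ≤ K → M = L ∨ M = K) →
      ¬ IsSquare (L.relIndex K))
    {χ : X → ℂ} (hχ : Cfsg.IsIrrCharacter X χ)
    (hnot : ¬ Cfsg.IsIrrCharacter N (fun n : N => χ n)) :
    ∃ (T : Subgroup X), N ≤ T ∧ T ≠ ⊤ ∧ ∃ ψ : T → ℂ, Cfsg.IsIrrCharacter T ψ ∧
      χ = Cfsg.indFun T ψ := by
  classical
  have hcf := IsIrrCharacter.isClassFunction hχ
  have hex : ∃ K : Subgroup X, K.Normal ∧ N ≤ K ∧ Cfsg.IsIrrCharacter K (fun k : K => χ k) :=
    ⟨⊤, inferInstance, le_top, IsIrrCharacter.comp_mulEquiv hχ Subgroup.topEquiv⟩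
  obtain ⟨K, ⟨hKn, hNK, hKirr⟩, hKmin⟩ := (wellFounded_lt (α := Subgroup X)).has_min
    {K | K.Normal ∧ N ≤ K ∧ Cfsg.IsIrrCharacter K (fun k : K => χ k)} hex
  have hne : N ≠ K := by
    intro h
    subst h
    exact hnot hKirr
  obtain ⟨L, ⟨hLn, hNL, hLK⟩, hLmax⟩ := (wellFounded_gt (α := Subgroup X)).has_min
    {L | L.Normal ∧ N ≤ L ∧ L < K} ⟨N, hN, le_rfl, lt_of_le_of_ne hNK hne⟩
  have hch : ∀ M : Subgroup X, M.Normal → L ≤ M → M ≤ K → M = L ∨ M = K := by
    intro M hMn hLM hMK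
    by_cases hMK' : M = K
    · exact Or.inr hMK'
    · left
      have h1 : ¬ L < M := hLmax M ⟨hMn, hNL.trans hLM, lt_of_le_of_ne hMK hMK'⟩
      exact (eq_of_le_of_not_lt hLM h1).symm
  have hab : ⁅K, K⁆ ≤ L := chief_abelian N K L hsolv hNL hLK hch
  haveI : Fintype L := Fintype.ofFinite L
  have key := Cfsg.Agent.S0857.result K L hLK hch hab (fun k : K => χ k) hKirr
    (fun g n => hcf (n : X) g)
  rcases key with h | ⟨φ, e, hφ, he, he2⟩ | ⟨F, hF, hFc, hFs⟩
  · exact absurd hLK (hKmin L ⟨hLn, hNL, h⟩)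
  · exact absurd ⟨e, by rw [← he2]; ring⟩ (hchief K L hKn hLn hNL hLK hch)
  · have hFs' : (fun n : L => χ n) = ∑ φ ∈ F, φ := hFs
    have hri1 : L.relIndex K ≠ 1 := by
      intro h
      exact not_le_of_gt hLK (Subgroup.relIndex_eq_one.mp h)
    have hri0 : L.relIndex K ≠ 0 := by
      haveI : (L.subgroupOf K).FiniteIndex := inferInstance
      exact Subgroup.FiniteIndex.index_ne_zero
    have hcard : 1 < F.card := by omega
    obtain ⟨φ₁, h1, φ₂, h2, h12⟩ := Finset.one_lt_card.mp hcard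
    have hc1 : Cfsg.classInner (fun n : L => χ n) φ₁ ≠ 0 := by
      rw [hFs', classInner_finset_sum_irr hF h1]
      exact one_ne_zero
    have hc2 : Cfsg.classInner (fun n : L => χ n) φ₂ ≠ 0 := by
      rw [hFs', classInner_finset_sum_irr hF h2]
      exact one_ne_zero
    obtain ⟨g, hg⟩ := clifford_conj L hχ (hF φ₁ h1) (hF φ₂ h2) hc1 hc2
    obtain ⟨ψ, hψ, hχψ⟩ := Cfsg.Agent.Lib.Helper25.Brauer.clifford_corr L (hF φ₁ h1) hχ hc1
    refine ⟨charStab L φ₁, hNL.trans (le_charStab L (IsIrrCharacter.isClassFunction (hF φ₁ h1))),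
      ?_, ψ, hψ, hχψ⟩
    intro htop
    apply h12
    have hgm : g ∈ charStab L φ₁ := by rw [htop]; exact Subgroup.mem_top g
    rw [hg]
    exact ((mem_charStab L φ₁ g).mp hgm).symm

/-- Isaacs 6.22, inductive form -/
theorem relM_main {G : Type u} [Group G] [Fintype G] (N : Subgroup G) [hN : N.Normal]
    (hsolv : Group.IsSolvable (G ⧸ N))
    (hchief : ∀ (H K L : Subgroup G), N ≤ L → L < K → K ≤ H →
      (∀ h ∈ H, ∀ k ∈ K, h * k * h⁻¹ ∈ K) → (∀ h ∈ H, ∀ l ∈ L, h * l * h⁻¹ ∈ L) →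
      (∀ M : Subgroup G, L ≤ M → M ≤ K → (∀ h ∈ H, ∀ m ∈ M, h * m * h⁻¹ ∈ M) → M = L ∨ M = K) →
      ¬ IsSquare (L.relIndex K)) :
    ∀ (n : ℕ) (T : Subgroup G) (hNT : N ≤ T), Nat.card T = n → ∀ (χ : T → ℂ),
      Cfsg.IsIrrCharacter T χ →
      ∃ (H : Subgroup G) (hNH : N ≤ H) (ψ : H → ℂ), Cfsg.IsIrrCharacter H ψ ∧
        Cfsg.indFun H ψ = Cfsg.indFun T χ ∧
        Cfsg.IsIrrCharacter N (fun n : N => ψ ⟨(n : G), hNH n.2⟩) := by
  intro n
  induction n using Nat.strong_induction_on with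
  | _ n ih =>
  intro T hNT hcard χ hχ
  classical
  by_cases hirr : Cfsg.IsIrrCharacter N (fun n : N => χ ⟨(n : G), hNT n.2⟩)
  · exact ⟨T, hNT, χ, hχ, rfl, hirr⟩
  · haveI : Fintype T := Fintype.ofFinite T
    haveI hN'n : (N.subgroupOf T).Normal := Subgroup.normal_subgroupOf
    have hsolv' : Group.IsSolvable (T ⧸ N.subgroupOf T) := by
      haveI := hsolv
      apply Group.isSolvable_of_isSolvable_injective
        (f := QuotientGroup.map (N.subgroupOf T) N T.subtype (le_of_eq rfl))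
      rw [injective_iff_map_eq_one]
      intro q hq
      obtain ⟨x, rfl⟩ := QuotientGroup.mk_surjective q
      have hq' : ((T.subtype x : G) : G ⧸ N) = 1 := hq
      rw [QuotientGroup.eq_one_iff] at hq'
      rw [QuotientGroup.eq_one_iff]
      exact hq'
    have hnot : ¬ Cfsg.IsIrrCharacter (N.subgroupOf T) (fun n : N.subgroupOf T => χ n) := by
      intro h
      apply hirr
      exact IsIrrCharacter.comp_mulEquiv h (Subgroup.subgroupOfEquivOfLe hNT).symm
    have hchief' : ∀ K L : Subgroup T, K.Normal → L.Normal → N.subgroupOf T ≤ L → L < K →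
        (∀ M : Subgroup T, M.Normal → L ≤ M → M ≤ K → M = L ∨ M = K) →
        ¬ IsSquare (L.relIndex K) := by
      intro K L hKn hLn hNL hLK hch
      have hinj := T.subtype_injective
      rw [← Subgroup.relIndex_map_map_of_injective L K hinj]
      apply hchief T (K.map T.subtype) (L.map T.subtype)
      · intro x hx
        exact ⟨⟨x, hNT hx⟩, hNL (Subgroup.mem_subgroupOf.mpr hx), rfl⟩
      · exact (Subgroup.map_lt_map_iff_of_injective hinj).mpr hLK
      · exact Subgroup.map_subtype_le K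
      · rintro h hh _ ⟨k, hk, rfl⟩
        exact ⟨⟨h, hh⟩ * k * ⟨h, hh⟩⁻¹, hKn.conj_mem k hk ⟨h, hh⟩, rfl⟩
      · rintro h hh _ ⟨k, hk, rfl⟩
        exact ⟨⟨h, hh⟩ * k * ⟨h, hh⟩⁻¹, hLn.conj_mem k hk ⟨h, hh⟩, rfl⟩
      · intro M hLM hMK hMinv
        have hMT : M ≤ T := hMK.trans (Subgroup.map_subtype_le K)
        have hMn : (M.subgroupOf T).Normal := by
          constructor
          intro m hm t
          rw [Subgroup.mem_subgroupOf] at hm ⊢
          exact hMinv t t.2 m hm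
        have h1 : L ≤ M.subgroupOf T := by
          intro x hx
          rw [Subgroup.mem_subgroupOf]
          exact hLM (Subgroup.mem_map_of_mem _ hx)
        have h2 : M.subgroupOf T ≤ K := by
          intro x hx
          rw [Subgroup.mem_subgroupOf] at hx
          obtain ⟨k, hk, hkx⟩ := hMK hx
          have : k = x := Subtype.ext hkx
          rw [← this]
          exact hk
        rcases hch (M.subgroupOf T) hMn h1 h2 with h | h
        · left
          rw [← h, Subgroup.map_subgroupOf_eq_of_le hMT]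
        · right
          rw [← h, Subgroup.map_subgroupOf_eq_of_le hMT]
    obtain ⟨T₁, hNT₁, hT₁top, ψ, hψ, hχψ⟩ := relM_step (N.subgroupOf T) hsolv' hchief' hχ hnot
    have hNT₂ : N ≤ T₁.map T.subtype := by
      intro x hx
      exact ⟨⟨x, hNT hx⟩, hNT₁ (Subgroup.mem_subgroupOf.mpr hx), rfl⟩
    have hψ₂ : Cfsg.IsIrrCharacter (T₁.map T.subtype)
        (ψ ∘ (T₁.equivMapOfInjective T.subtype T.subtype_injective).symm) :=
      IsIrrCharacter.comp_mulEquiv hψ _
    have hc2 : Nat.card (T₁.map T.subtype) < n := by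
      rw [← hcard, ← Nat.card_congr (T₁.equivMapOfInjective T.subtype T.subtype_injective).toEquiv]
      have h1 : Nat.card T₁ ≤ Nat.card T := Subgroup.card_le_card_group T₁
      have h2 : Nat.card T₁ ≠ Nat.card T := fun h => hT₁top (Subgroup.eq_top_of_card_eq T₁ h)
      omega
    obtain ⟨H, hNH, φ, hφ, hind, hφN⟩ := ih _ hc2 (T₁.map T.subtype) hNT₂ rfl _ hψ₂
    refine ⟨H, hNH, φ, hφ, ?_, hφN⟩
    rw [hind, ← Cfsg.Agent.Lib.Helper25.Brauer.indFun_map T T₁ ψ, ← hχψ]

end relM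

end Cfsg.Agent.Lib.Helper1
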