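import Mathlib

/-!
# Even rank for self-adjoint idempotents of an alternating form

If `M0` is an invertible skew-symmetric complex matrix and `E` is an idempotent with
`Eᵀ M0 = M0 E`, then the trace (= rank) of `E` is an even natural number.
-/

set_option autoImplicit false

namespace Cfsg.Agent.Lib.Helper1.SkewEven

open Matrix

theorem even_of_skew_invertible (r : ℕ) (A : Matrix (Fin r) (Fin r) ℂ)
    (hA : A.transpose = -A) (hdet : A.det ≠ 0) : Even r := by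
  have h1 : A.det = (-1) ^ r * A.det := by
    conv_lhs => rw [← Matrix.det_transpose, hA, Matrix.det_neg, Fintype.card_fin]
  by_contra hodd
  rw [Nat.not_even_iff_odd] at hodd
  rw [hodd.neg_one_pow] at h1
  have h2 : A.det = 0 := by linear_combination (1 / 2 : ℂ) * h1
  exact hdet h2

theorem even_trace_of_skew (n : ℕ) (M0 E : Matrix (Fin n) (Fin n) ℂ) (hM0 : IsUnit M0)
    (hskew : M0.transpose = -M0) (hE : E * E = E) (hadj : E.transpose * M0 = M0 * E) :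
    ∃ r : ℕ, Even r ∧ Matrix.trace E = (r : ℂ) := by
  classical
  obtain ⟨f, hf⟩ : ∃ f : (Fin n → ℂ) →ₗ[ℂ] (Fin n → ℂ), f = Matrix.toLin' E := ⟨_, rfl⟩
  have hfapp : ∀ v, f v = E *ᵥ v := by
    intro v
    rw [hf, Matrix.toLin'_apply]
  have hfid : IsIdempotentElem f := by
    show f * f = f
    rw [hf, Module.End.mul_eq_comp, ← Matrix.toLin'_mul, hE]
  have hproj : LinearMap.IsProj (LinearMap.range f) f :=
    (LinearMap.isProj_range_iff_isIdempotentElem f).mpr hfid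
  have htr : LinearMap.trace ℂ _ f = (Module.finrank ℂ (LinearMap.range f) : ℂ) := hproj.trace
  have htr2 : Matrix.trace E = LinearMap.trace ℂ _ f := by
    rw [hf, Matrix.trace_toLin'_eq]
  obtain ⟨W, hW⟩ : ∃ W : Submodule ℂ (Fin n → ℂ), W = LinearMap.range f := ⟨_, rfl⟩
  rw [← hW] at htr
  obtain ⟨r, hr⟩ : ∃ r : ℕ, r = Module.finrank ℂ W := ⟨_, rfl⟩
  refine ⟨r, ?_, by rw [htr2, htr, hr]⟩
  obtain ⟨b⟩ : Nonempty (Module.Basis (Fin r) ℂ W) := by
    rw [hr]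
    exact ⟨Module.finBasis ℂ W⟩
  -- bilinear facts
  have hB_skew : ∀ v w : Fin n → ℂ, v ⬝ᵥ (M0 *ᵥ w) = -(w ⬝ᵥ (M0 *ᵥ v)) := by
    intro v w
    rw [Matrix.dotProduct_mulVec, ← Matrix.mulVec_transpose, hskew, Matrix.neg_mulVec,
      neg_dotProduct, dotProduct_comm]
  have htrans : ∀ (A : Matrix (Fin n) (Fin n) ℂ) (v u : Fin n → ℂ),
      (A *ᵥ v) ⬝ᵥ u = v ⬝ᵥ (A.transpose *ᵥ u) := by
    intro A v u
    rw [dotProduct_comm, Matrix.dotProduct_mulVec, ← Matrix.mulVec_transpose, dotProduct_comm]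
  have hB_adj : ∀ v w : Fin n → ℂ, (E *ᵥ v) ⬝ᵥ (M0 *ᵥ w) = v ⬝ᵥ (M0 *ᵥ (E *ᵥ w)) := by
    intro v w
    rw [htrans, Matrix.mulVec_mulVec, hadj, ← Matrix.mulVec_mulVec]
  have hEW : ∀ w : Fin n → ℂ, w ∈ W → E *ᵥ w = w := by
    intro w hw
    rw [hW] at hw
    obtain ⟨x, rfl⟩ := hw
    rw [hfapp, Matrix.mulVec_mulVec, hE]
  obtain ⟨Gr, hGr⟩ : ∃ Gr : Matrix (Fin r) (Fin r) ℂ, ∀ i j,
      Gr i j = ((b i : W) : Fin n → ℂ) ⬝ᵥ (M0 *ᵥ ((b j : W) : Fin n → ℂ)) :=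
    ⟨Matrix.of (fun i j => ((b i : W) : Fin n → ℂ) ⬝ᵥ (M0 *ᵥ ((b j : W) : Fin n → ℂ))),
      fun i j => rfl⟩
  apply even_of_skew_invertible r Gr
  · ext i j
    rw [Matrix.transpose_apply, Matrix.neg_apply, hGr, hGr]
    exact hB_skew _ _
  · intro hdet
    obtain ⟨c, hc0, hc⟩ := Matrix.exists_mulVec_eq_zero_iff.mpr hdet
    obtain ⟨w, hw⟩ : ∃ w : W, w = ∑ j, c j • b j := ⟨_, rfl⟩
    have hwcoe : ((w : W) : Fin n → ℂ) = ∑ j, c j • ((b j : W) : Fin n → ℂ) := by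
      rw [hw]
      simp
    have h1 : ∀ i, ((b i : W) : Fin n → ℂ) ⬝ᵥ (M0 *ᵥ ((w : W) : Fin n → ℂ)) = 0 := by
      intro i
      rw [hwcoe, Matrix.mulVec_sum, dotProduct_sum]
      have h2 := congrFun hc i
      rw [Matrix.mulVec, dotProduct] at h2
      rw [Pi.zero_apply] at h2
      rw [← h2]
      refine Finset.sum_congr rfl (fun j _ => ?_)
      rw [Matrix.mulVec_smul, dotProduct_smul, hGr, smul_eq_mul, mul_comm]
    have h3 : ∀ w' : W, ((w' : W) : Fin n → ℂ) ⬝ᵥ (M0 *ᵥ ((w : W) : Fin n → ℂ)) = 0 := by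
      intro w'
      have h4 : ((w' : W) : Fin n → ℂ) = ∑ i, (b.repr w' i) • ((b i : W) : Fin n → ℂ) := by
        have h40 := congrArg (Subtype.val : W → (Fin n → ℂ)) (b.sum_repr w')
        exact h40.symm.trans (by simp only [Submodule.coe_sum, Submodule.coe_smul])
      rw [h4, sum_dotProduct]
      apply Finset.sum_eq_zero
      intro i _
      rw [smul_dotProduct, h1 i, smul_zero]
    have h5 : ∀ v : Fin n → ℂ, v ⬝ᵥ (M0 *ᵥ ((w : W) : Fin n → ℂ)) = 0 := by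
      intro v
      have h6 : E *ᵥ v ∈ W := by
        rw [hW, ← hfapp]
        exact LinearMap.mem_range_self f v
      have h7 := h3 ⟨E *ᵥ v, h6⟩
      rw [hB_adj, hEW _ w.2] at h7
      exact h7
    have h8 : M0 *ᵥ ((w : W) : Fin n → ℂ) = 0 := by
      funext i
      have h9 := h5 (Pi.single i 1)
      rw [single_one_dotProduct] at h9
      exact h9
    have h10 : ((w : W) : Fin n → ℂ) = 0 := by
      obtain ⟨u, hu⟩ := hM0
      have h11 : ((u⁻¹ : (Matrix (Fin n) (Fin n) ℂ)ˣ) : Matrix (Fin n) (Fin n) ℂ) *ᵥ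
          (M0 *ᵥ ((w : W) : Fin n → ℂ)) = ((w : W) : Fin n → ℂ) := by
        rw [Matrix.mulVec_mulVec, ← hu, ← Units.val_mul, inv_mul_cancel, Units.val_one,
          Matrix.one_mulVec]
      rw [← h11, h8, Matrix.mulVec_zero]
    have h12 : w = 0 := Subtype.ext h10
    apply hc0
    have h13 : ⇑(b.repr (∑ j, c j • b j)) = c := b.repr_sum_self c
    rw [← hw, h12, map_zero] at h13
    rw [← h13]
    rfl

end Cfsg.Agent.Lib.Helper1.SkewEven
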