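import Mathlib
import Cfsg.Agent.Lib.Helper1.SkewEven
import Cfsg.Agent.Lib.Helper10.FS

/-!
# Real irreducible characters with an odd-dimensional fixed space are strongly real

If `χ` is a real-valued irreducible character of `G` and, for some subgroup `Q`, the multiplicity
`[χ_Q, 1_Q]` is odd, then the Frobenius–Schur indicator of `χ` is `+1`.
-/

set_option autoImplicit false
set_option linter.unusedSectionVars false
set_option linter.unusedVariables false

namespace Cfsg.Agent.Lib.Helper1.FSFixed

open Cfsg Cfsg.Agent.Lib.Helper1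
open scoped ComplexConjugate

universe u

variable {G : Type u} [Group G] [Fintype G]

set_option maxHeartbeats 800000 in
theorem ind_eq_one_of_odd_fixed {χ : G → ℂ} (hχ : IsIrrCharacter G χ)
    (hreal : ∀ g, conj (χ g) = χ g) (Q : Subgroup G) [Fintype Q] (a : ℕ)
    (ha : (Nat.card Q : ℂ)⁻¹ * ∑ q : Q, χ q = a) (hodd : Odd a) :
    (Nat.card G : ℂ)⁻¹ * ∑ s : G, χ (s * s) = 1 := by
  classical
  obtain ⟨n, ρ, hirr, rfl⟩ := hχ
  haveI := hirr
  rcases Cfsg.Agent.Lib.Helper10.FS.dichotomy n ρ with
    ⟨-, -, s, hs⟩ | ⟨M0, ε, hinv, hne, hunit, hε, hind, -, htrans, -⟩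
  · exfalso
    apply hs
    exact Complex.conj_eq_iff_im.mp (hreal s)
  · rcases hε with h1 | h1
    · rw [h1] at hind
      exact hind
    · exfalso
      obtain ⟨X, hXdef⟩ : ∃ X : G → Matrix (Fin n) (Fin n) ℂ,
          ∀ g, X g = LinearMap.toMatrix' (ρ g) := ⟨_, fun g => rfl⟩
      simp only [← hXdef] at hinv htrans
      have hX : ∀ g h, X (g * h) = X g * X h := by
        intro g h
        rw [hXdef, hXdef, hXdef, map_mul, Module.End.mul_eq_comp, LinearMap.toMatrix'_comp]
      have hX1 : X 1 = 1 := by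
        rw [hXdef, map_one, Module.End.one_eq_id, LinearMap.toMatrix'_id]
      have hχ : ∀ g, ρ.character g = (X g).trace := by
        intro g
        rw [hXdef, character_apply,
          LinearMap.trace_eq_matrix_trace ℂ (Pi.basisFun ℂ (Fin n)) (ρ g),
          LinearMap.toMatrix_eq_toMatrix']
      have hskew : M0.transpose = -M0 := by
        rw [htrans M0 hinv, h1, neg_one_smul]
      have hQ0 : (Nat.card Q : ℂ) ≠ 0 := by exact_mod_cast Nat.card_pos.ne'
      obtain ⟨S, hS⟩ : ∃ S : Matrix (Fin n) (Fin n) ℂ, S = ∑ q : Q, X (q : G) := ⟨_, rfl⟩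
      obtain ⟨E, hEdef⟩ : ∃ E : Matrix (Fin n) (Fin n) ℂ, E = (Nat.card Q : ℂ)⁻¹ • S := ⟨_, rfl⟩
      have hSS : S * S = (Nat.card Q : ℂ) • S := by
        rw [hS, Finset.sum_mul]
        have h2 : ∀ q : Q, X (q : G) * ∑ q' : Q, X (q' : G) = ∑ q' : Q, X (q' : G) := by
          intro q
          rw [Finset.mul_sum, ← Equiv.sum_comp (Equiv.mulLeft q) (fun q' : Q => X (q' : G))]
          refine Finset.sum_congr rfl (fun q' _ => ?_)
          rw [← hX]
          rfl
        rw [Finset.sum_congr rfl (fun q _ => h2 q), Finset.sum_const, Finset.card_univ,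
          Nat.card_eq_fintype_card]
        rw [← Nat.cast_smul_eq_nsmul ℂ]
      have hEE : E * E = E := by
        rw [hEdef, Matrix.smul_mul, Matrix.mul_smul, hSS, smul_smul, smul_smul]
        congr 1
        field_simp
      have hswap : ∀ g : G, (X g).transpose * M0 = M0 * X g⁻¹ := by
        intro g
        have h2 := hinv g
        calc (X g).transpose * M0 = (X g).transpose * M0 * (X g * X g⁻¹) := by
              rw [← hX, mul_inv_cancel, hX1, Matrix.mul_one]
          _ = ((X g).transpose * M0 * X g) * X g⁻¹ := by simp only [Matrix.mul_assoc]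
          _ = M0 * X g⁻¹ := by rw [h2]
      have hadj : E.transpose * M0 = M0 * E := by
        rw [hEdef, Matrix.transpose_smul, Matrix.smul_mul, Matrix.mul_smul]
        congr 1
        rw [hS, Matrix.transpose_sum, Finset.sum_mul, Finset.mul_sum]
        rw [Finset.sum_congr rfl (fun (q : Q) _ => hswap (q : G))]
        rw [← Equiv.sum_comp (Equiv.inv Q) (fun q : Q => M0 * X (q : G))]
        rfl
      have htrE : E.trace = (a : ℂ) := by
        rw [hEdef, Matrix.trace_smul, hS, Matrix.trace_sum, ← ha, smul_eq_mul]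
        congr 1
        refine Finset.sum_congr rfl (fun q _ => ?_)
        rw [hχ]
      obtain ⟨r, hr, hr'⟩ := Cfsg.Agent.Lib.Helper1.SkewEven.even_trace_of_skew n M0 E hunit hskew
        hEE hadj
      rw [htrE] at hr'
      have h3 : a = r := by exact_mod_cast hr'
      rw [h3] at hodd
      exact (Nat.not_even_iff_odd.mpr hodd) hr

end Cfsg.Agent.Lib.Helper1.FSFixed
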