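import Mathlib
import Cfsg.Agent.Lib.Lead.Hall

set_option autoImplicit false
set_option linter.unusedVariables false
set_option linter.unusedSectionVars false
set_option linter.style.haveILetI false
set_option linter.unusedSimpArgs false
open Pointwise

namespace Cfsg.Agent.Lib.Helper1.SameOrd

open Cfsg.Agent.Lib.Lead.Hall

universe u

/-- `p`-subgroups of the same order are conjugate. -/
def DP (G : Type*) [Group G] : Prop :=
  ∀ p : ℕ, p.Prime → ∀ H K : Subgroup G, IsPGroup p H → IsPGroup p K → Nat.card H = Nat.card K →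
    ∃ g : G, K = H.map (MulAut.conj g).toMonoidHom

/-- Sylow `p`-subgroups are cyclic for `p ≠ r`. -/
def ZP (r : ℕ) (G : Type*) [Group G] : Prop :=
  ∀ p : ℕ, p.Prime → p ≠ r → ∀ P : Sylow p G, IsCyclic P

/-- subgroups of the same order are conjugate. -/
def BP (G : Type*) [Group G] : Prop :=
  ∀ H K : Subgroup G, Nat.card H = Nat.card K → ∃ g : G, K = H.map (MulAut.conj g).toMonoidHom

section basic
variable {G : Type*} [Group G]

theorem mem_cj {g x : G} {H : Subgroup G} :
    x ∈ H.map (MulAut.conj g).toMonoidHom ↔ g⁻¹ * x * g ∈ H := by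
  constructor
  · rintro ⟨y, hy, rfl⟩
    simpa [MulAut.conj_apply, mul_assoc] using hy
  · intro h
    exact ⟨g⁻¹ * x * g, h, by simp [MulAut.conj_apply, mul_assoc]⟩

theorem cj_eq_smul (g : G) (H : Subgroup G) :
    H.map (MulAut.conj g).toMonoidHom = MulAut.conj g • H := by
  ext x
  rw [mem_cj, Subgroup.mem_pointwise_smul_iff_inv_smul_mem]
  simp [MulAut.smul_def, mul_assoc]

theorem cj_card (g : G) (H : Subgroup G) :
    Nat.card (H.map (MulAut.conj g).toMonoidHom) = Nat.card H :=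
  Subgroup.card_map_of_injective (MulAut.conj g).injective

theorem cj_cj (a g : G) (H : Subgroup G) :
    (H.map (MulAut.conj g).toMonoidHom).map (MulAut.conj a).toMonoidHom =
      H.map (MulAut.conj (a * g)).toMonoidHom := by
  ext x
  simp only [mem_cj]
  simp [mul_assoc]

theorem cj_normal (g : G) (N : Subgroup G) [hN : N.Normal] :
    N.map (MulAut.conj g).toMonoidHom = N := by
  ext x
  rw [mem_cj]
  constructor
  · intro h
    have := hN.conj_mem _ h g
    simpa [mul_assoc] using this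
  · intro h
    have := hN.conj_mem _ h g⁻¹
    simpa [mul_assoc] using this

theorem cj_one (H : Subgroup G) : H.map (MulAut.conj (1 : G)).toMonoidHom = H := by
  ext x
  simp [mem_cj]

theorem cyc_mem [Finite G] (S : Subgroup G) [hS : IsCyclic S] (W : Subgroup G) (hW : W ≤ S)
    (x : G) (hx : x ∈ S) (hxn : x ^ Nat.card W = 1) : x ∈ W := by
  classical
  haveI : Fintype ↥S := Fintype.ofFinite _
  have hn0 : 0 < Nat.card W := Nat.card_pos
  have hT := IsCyclic.card_pow_eq_one_le (α := ↥S) hn0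
  have hsub : (Finset.univ.filter (fun a : ↥S => (a : G) ∈ W)) ⊆
      Finset.univ.filter (fun a : ↥S => a ^ Nat.card W = 1) := by
    intro a ha
    rw [Finset.mem_filter] at ha ⊢
    refine ⟨ha.1, ?_⟩
    apply Subtype.ext
    have h1 : (⟨(a : G), ha.2⟩ : ↥W) ^ Nat.card W = 1 := pow_card_eq_one'
    have h2 := congrArg (Subtype.val) h1
    rw [Subgroup.coe_pow, Subgroup.coe_one] at h2
    rw [Subgroup.coe_pow, Subgroup.coe_one]
    exact h2
  have hcard : (Finset.univ.filter (fun a : ↥S => (a : G) ∈ W)).card = Nat.card W := by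
    rw [← Fintype.card_subtype, ← Nat.card_eq_fintype_card]
    exact Nat.card_congr (Subgroup.subgroupOfEquivOfLe hW).toEquiv
  have heq := Finset.eq_of_subset_of_card_le hsub (by rw [hcard]; exact hT)
  have hmem : (⟨x, hx⟩ : ↥S) ∈ Finset.univ.filter (fun a : ↥S => a ^ Nat.card W = 1) := by
    rw [Finset.mem_filter]
    exact ⟨Finset.mem_univ _, Subtype.ext (by simpa using hxn)⟩
  rw [← heq, Finset.mem_filter] at hmem
  exact hmem.2

theorem cyc_unique [Finite G] (S : Subgroup G) [IsCyclic S] (U V : Subgroup G) (hU : U ≤ S)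
    (hV : V ≤ S) (h : Nat.card U = Nat.card V) : U = V := by
  apply le_antisymm
  · intro x hx
    apply cyc_mem S V hV x (hU hx)
    rw [← h]
    have h1 : (⟨x, hx⟩ : ↥U) ^ Nat.card U = 1 := pow_card_eq_one'
    have h2 := congrArg Subtype.val h1
    rw [Subgroup.coe_pow, Subgroup.coe_one] at h2
    exact h2
  · intro x hx
    apply cyc_mem S U hU x (hV hx)
    rw [h]
    have h1 : (⟨x, hx⟩ : ↥V) ^ Nat.card V = 1 := pow_card_eq_one'
    have h2 := congrArg Subtype.val h1
    rw [Subgroup.coe_pow, Subgroup.coe_one] at h2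
    exact h2

theorem dp_of_z (G : Type*) [Group G] [Finite G]
    (hZ : ∀ p : ℕ, p.Prime → ∀ P : Sylow p G, IsCyclic P) : DP G := by
  intro p hp U V hU hV hc
  haveI : Fact p.Prime := ⟨hp⟩
  obtain ⟨S, hS⟩ := hU.exists_le_sylow
  obtain ⟨S', hS'⟩ := hV.exists_le_sylow
  obtain ⟨g, hg⟩ := MulAction.exists_smul_eq G S S'
  haveI : IsCyclic (S' : Subgroup G) := hZ p hp S'
  refine ⟨g, ?_⟩
  symm
  apply cyc_unique (S' : Subgroup G) _ _ ?_ hS' (by rw [cj_card, hc])
  rw [cj_eq_smul, ← hg, Sylow.coe_subgroup_smul]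
  exact Subgroup.pointwise_smul_le_pointwise_smul_iff.2 hS

theorem lift_pgroup [Finite G] (N : Subgroup G) [N.Normal] {p : ℕ} (hp : p.Prime)
    (hN : IsPGroup p N) {q : ℕ} (hq : q.Prime) (A' : Subgroup (G ⧸ N)) (hA : IsPGroup q A') :
    ∃ A : Subgroup G, IsPGroup q A ∧ A.map (QuotientGroup.mk' N) = A' ∧
      Nat.card A = if q = p then Nat.card N * Nat.card A' else Nat.card A' := by
  haveI : Fact p.Prime := ⟨hp⟩
  haveI : Fact q.Prime := ⟨hq⟩
  by_cases hqp : q = p
  · subst hqp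
    refine ⟨A'.comap (QuotientGroup.mk' N), ?_,
      Subgroup.map_comap_eq_self_of_surjective (QuotientGroup.mk'_surjective N) A', ?_⟩
    · apply hA.comap_of_ker_isPGroup
      rw [QuotientGroup.ker_mk']
      exact hN
    · rw [if_pos rfl, card_comap_mk]
  · obtain ⟨k, hk⟩ := hN.exists_card_eq
    obtain ⟨j, hj⟩ := hA.exists_card_eq
    have hcop : (Nat.card N).Coprime (Nat.card A') := by
      rw [hk, hj]
      exact Nat.Coprime.pow _ _ ((Nat.coprime_primes hp hq).2 (Ne.symm hqp))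
    obtain ⟨A, hAle, hAc⟩ := exists_compl_in N (A'.comap (QuotientGroup.mk' N)) (le_comap_mk N A')
      (Nat.card A') (card_comap_mk N A') hcop
    have hAq : IsPGroup q A := IsPGroup.of_card (hAc.trans hj)
    refine ⟨A, hAq, ?_, by rw [if_neg hqp, hAc]⟩
    have hle : A.map (QuotientGroup.mk' N) ≤ A' := by
      rw [Subgroup.map_le_iff_le_comap]
      exact hAle
    apply Subgroup.eq_of_le_of_card_ge hle
    have h1 := card_comap_mk N (A.map (QuotientGroup.mk' N))
    rw [Subgroup.comap_map_eq, QuotientGroup.ker_mk',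
      card_sup_of_coprime A N (by rw [hAc]; exact hcop.symm), hAc] at h1
    have h2 : Nat.card N * Nat.card A' = Nat.card N * Nat.card (A.map (QuotientGroup.mk' N)) := by
      rw [mul_comm]
      exact h1
    exact le_of_eq (Nat.eq_of_mul_eq_mul_left Nat.card_pos h2)

theorem dp_quot [Finite G] (N : Subgroup G) [N.Normal] {p : ℕ} (hp : p.Prime) (hN : IsPGroup p N)
    (hD : DP G) : DP (G ⧸ N) := by
  intro q hq A' B' hA hB hc
  obtain ⟨A, hAq, hAm, hAc⟩ := lift_pgroup N hp hN hq A' hA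
  obtain ⟨B, hBq, hBm, hBc⟩ := lift_pgroup N hp hN hq B' hB
  obtain ⟨g, hg⟩ := hD q hq A B hAq hBq (by rw [hAc, hBc, hc])
  refine ⟨QuotientGroup.mk' N g, ?_⟩
  rw [← hAm, ← hBm, hg, Subgroup.map_map, Subgroup.map_map]
  congr 1

theorem zp_quot [Finite G] (N : Subgroup G) [N.Normal] (r : ℕ) (hZ : ZP r G) : ZP r (G ⧸ N) := by
  intro q hq hqr P'
  haveI : Fact q.Prime := ⟨hq⟩
  obtain ⟨P, hP⟩ := Sylow.mapSurjective_surjective (QuotientGroup.mk'_surjective N) q P'
  haveI : IsCyclic (P : Subgroup G) := hZ q hq hqr P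
  have h1 : (P' : Subgroup (G ⧸ N)) = (P : Subgroup G).map (QuotientGroup.mk' N) := by
    rw [← hP, Sylow.coe_mapSurjective]
  have h2 : IsCyclic ((P : Subgroup G).map (QuotientGroup.mk' N)) :=
    isCyclic_of_surjective ((QuotientGroup.mk' N).subgroupMap (P : Subgroup G))
      (MonoidHom.subgroupMap_surjective _ _)
  show IsCyclic (P' : Subgroup (G ⧸ N))
  exact h1 ▸ h2

theorem exists_sylow_ge [Finite G] {p : ℕ} (hp : p.Prime) (H M : Subgroup G) (hMH : M ≤ H)
    (hM : IsPGroup p M) :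
    ∃ P : Subgroup G, P ≤ H ∧ M ≤ P ∧ IsPGroup p P ∧
      Nat.card P = p ^ (Nat.card H).factorization p := by
  haveI : Fact p.Prime := ⟨hp⟩
  have hM' : IsPGroup p (M.subgroupOf H) := hM.of_equiv (Subgroup.subgroupOfEquivOfLe hMH).symm
  obtain ⟨Q, hQ⟩ := hM'.exists_le_sylow
  refine ⟨(Q : Subgroup H).map H.subtype, Subgroup.map_subtype_le _, ?_, ?_, ?_⟩
  · intro x hx
    exact ⟨⟨x, hMH hx⟩, hQ (by rw [Subgroup.mem_subgroupOf]; exact hx), rfl⟩
  · exact Q.isPGroup'.map _
  · rw [Subgroup.card_map_of_injective H.subtype_injective]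
    exact Q.card_eq_multiplicity

theorem hall_sub [Finite G] [Group.IsSolvable G] (H : Subgroup G) (m n : ℕ)
    (h : Nat.card H = m * n) (hc : m.Coprime n) : ∃ C : Subgroup G, C ≤ H ∧ Nat.card C = m := by
  obtain ⟨C', hC'⟩ := hall_exists (G := ↥H) m n h hc
  exact ⟨C'.map H.subtype, Subgroup.map_subtype_le _, by
    rw [Subgroup.card_map_of_injective H.subtype_injective, hC']⟩

theorem into_compl [Finite G] (N : Subgroup G) [N.Normal] [IsMulCommutative N] (A C : Subgroup G)
    (hAN : A ⊔ N = ⊤) (hA : (Nat.card A).Coprime (Nat.card N))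
    (hC : (Nat.card C).Coprime (Nat.card N)) :
    ∃ a ∈ N, C.map (MulAut.conj a).toMonoidHom ≤ A := by
  have hsup : ((C ⊔ N) ⊓ A) ⊔ N = C ⊔ N := by
    apply SetLike.coe_injective
    rw [Subgroup.mul_normal, Subgroup.inf_mul_assoc _ _ _ (le_sup_right : N ≤ C ⊔ N),
      ← Subgroup.mul_normal, hAN]
    simp
  have h2cop : (Nat.card ((C ⊔ N) ⊓ A : Subgroup G)).Coprime (Nat.card N) :=
    Nat.Coprime.coprime_dvd_left (Subgroup.card_dvd_of_le inf_le_right) hA
  have hcardeq : Nat.card ((C ⊔ N) ⊓ A : Subgroup G) = Nat.card C := by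
    have h1 := card_sup_of_coprime ((C ⊔ N) ⊓ A) N h2cop
    rw [hsup, card_sup_of_coprime C N hC] at h1
    exact (Nat.eq_of_mul_eq_mul_right Nat.card_pos h1).symm
  obtain ⟨a, haN, hconj⟩ := conj_of_sup_eq N C ((C ⊔ N) ⊓ A) hcardeq.symm hC.symm hsup.symm
  exact ⟨a, haN, by rw [cj_eq_smul, hconj]; exact inf_le_right⟩

theorem card_map_mk_mul [Finite G] (N H : Subgroup G) [N.Normal] :
    Nat.card (H ⊓ N : Subgroup G) * Nat.card (H.map (QuotientGroup.mk' N)) = Nat.card H := by
  have h1 := Subgroup.relIndex_mul_relIndex (⊥ : Subgroup G) (H ⊓ N) H bot_le inf_le_left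
  rw [Subgroup.relIndex_bot_left, Subgroup.relIndex_bot_left, Subgroup.inf_relIndex_left] at h1
  rw [← h1, ← Subgroup.relIndex_ker, QuotientGroup.ker_mk']

theorem le_nrm (X N : Subgroup G) [hN : N.Normal] :
    X ≤ Subgroup.normalizer ((X ⊓ N : Subgroup G) : Set G) := by
  intro k hk
  rw [Subgroup.mem_normalizer_iff]
  intro h
  simp only [SetLike.mem_coe, Subgroup.mem_inf]
  constructor
  · rintro ⟨h1, h2⟩
    exact ⟨X.mul_mem (X.mul_mem hk h1) (X.inv_mem hk), hN.conj_mem _ h2 _⟩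
  · rintro ⟨h1, h2⟩
    refine ⟨?_, ?_⟩
    · have := X.mul_mem (X.mul_mem (X.inv_mem hk) h1) hk
      simpa [mul_assoc] using this
    · have := hN.conj_mem _ h2 k⁻¹
      simpa [mul_assoc] using this

theorem abel_le_nrm (N M : Subgroup G) [hN : N.Normal] [hc : IsMulCommutative N] (h : M ≤ N) :
    N ≤ Subgroup.normalizer (M : Set G) := by
  intro a ha
  rw [Subgroup.mem_normalizer_iff]
  intro x
  have key : ∀ y : G, y ∈ N → a * y * a⁻¹ = y := by
    intro y hy
    have h1 := hc.is_comm.comm (⟨a, ha⟩ : ↥N) ⟨y, hy⟩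
    have h2 : a * y = y * a := congrArg Subtype.val h1
    rw [h2, mul_inv_cancel_right]
  constructor
  · intro hx
    rw [key x (h hx)]
    exact hx
  · intro hx
    have h1 : x ∈ N := by
      have := hN.conj_mem _ (h hx) a⁻¹
      simpa [mul_assoc] using this
    rw [key x h1] at hx
    exact hx

end basic

end Cfsg.Agent.Lib.Helper1.SameOrd
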