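import Mathlib
import Cfsg.Agent.Lib.Lead.Hall
import Cfsg.Agent.Lib.Helper1.SameOrdA

set_option autoImplicit false
set_option linter.unusedVariables false
set_option linter.unusedSectionVars false
set_option linter.style.haveILetI false
set_option linter.unusedSimpArgs false
open Pointwise

namespace Cfsg.Agent.Lib.Helper1.SameOrd

open Cfsg.Agent.Lib.Lead.Hall

universe u

set_option maxHeartbeats 1600000 in
theorem main : ∀ (n : ℕ) (G : Type u) [Group G] [Finite G] [Group.IsSolvable G], Nat.card G = n →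
    ∀ r : ℕ, DP G → ZP r G → BP G := by
  intro n
  induction n using Nat.strong_induction_on with
  | _ n ih =>
  intro G _ _ _ hn r hD hZ
  by_cases htriv : Subsingleton G
  · intro H K _
    refine ⟨1, ?_⟩
    rw [cj_one]
    ext x
    rw [Subsingleton.elim x 1]
    exact ⟨fun _ => H.one_mem, fun _ => K.one_mem⟩
  haveI : Nontrivial G := not_subsingleton_iff_nontrivial.1 htriv
  obtain ⟨N, -, hNmin⟩ := Finite.exists_le_minimal
    (p := fun L : Subgroup G => L.Normal ∧ L ≠ ⊥) (a := ⊤) ⟨inferInstance, top_ne_bot⟩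
  haveI hNn : N.Normal := hNmin.prop.1
  have hN0 : N ≠ ⊥ := hNmin.prop.2
  obtain ⟨hNc, p, hp, hexp⟩ := Cfsg.Agent.S0043.result N hN0 (by
    intro L hL hLN
    by_cases hL0 : L = ⊥
    · exact Or.inl hL0
    · exact Or.inr (le_antisymm hLN (hNmin.le_of_le ⟨hL, hL0⟩ hLN)))
  haveI : Fact p.Prime := ⟨hp⟩
  haveI := hNc
  have hNp : IsPGroup p N := by
    intro g
    refine ⟨1, ?_⟩
    apply Subtype.ext
    simpa using hexp g g.2
  obtain ⟨k, hk⟩ := hNp.exists_card_eq
  -- step C: N contains every element of order dividing p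
  obtain ⟨y, hyN, hy1⟩ : ∃ y ∈ N, y ≠ 1 := by
    by_contra hcon
    push_neg at hcon
    exact hN0 ((Subgroup.eq_bot_iff_forall N).2 hcon)
  have hyo : orderOf y = p := orderOf_eq_prime (hexp y hyN) hy1
  have hC : ∀ x : G, x ^ p = 1 → x ∈ N := by
    intro x hx
    by_cases hx1 : x = 1
    · rw [hx1]; exact N.one_mem
    have hxo : orderOf x = p := orderOf_eq_prime hx hx1
    have h1 : IsPGroup p (Subgroup.zpowers x) :=
      IsPGroup.of_card (n := 1) (by rw [Nat.card_zpowers, hxo, pow_one])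
    have h2 : IsPGroup p (Subgroup.zpowers y) :=
      IsPGroup.of_card (n := 1) (by rw [Nat.card_zpowers, hyo, pow_one])
    obtain ⟨g, hg⟩ := hD p hp (Subgroup.zpowers y) (Subgroup.zpowers x) h2 h1
      (by rw [Nat.card_zpowers, Nat.card_zpowers, hyo, hxo])
    have h3 : Subgroup.zpowers x ≤ N := by
      rw [hg, ← cj_normal g N]
      exact Subgroup.map_mono ((Subgroup.zpowers_le).2 hyN)
    exact h3 (Subgroup.mem_zpowers x)
  -- step D
  have hD' : ∀ H K : Subgroup G, Nat.card H = Nat.card K →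
      ∃ g : G, K ⊓ N = (H ⊓ N).map (MulAut.conj g).toMonoidHom := by
    intro H K hc
    obtain ⟨P, hPH, hMP, hPp, hPc⟩ :=
      exists_sylow_ge hp H (H ⊓ N) inf_le_left (hNp.to_le inf_le_right)
    obtain ⟨Q, hQK, hMQ, hQp, hQc⟩ :=
      exists_sylow_ge hp K (K ⊓ N) inf_le_left (hNp.to_le inf_le_right)
    obtain ⟨g, hg⟩ := hD p hp P Q hPp hQp (by rw [hPc, hQc, hc])
    refine ⟨g, ?_⟩
    have e1 : H ⊓ N = P ⊓ N := le_antisymm (le_inf hMP inf_le_right) (inf_le_inf_right N hPH)
    have e2 : K ⊓ N = Q ⊓ N := le_antisymm (le_inf hMQ inf_le_right) (inf_le_inf_right N hQK)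
    rw [e1, e2, hg, Subgroup.map_inf_eq _ _ _ (MulAut.conj g).injective, cj_normal g N]
  have hNcard1 : 1 < Nat.card N := (Subgroup.one_lt_card_iff_ne_bot N).2 hN0
  have hidxpos : 0 < N.index := Nat.pos_of_ne_zero Subgroup.index_ne_zero_of_finite
  have hcmi := Subgroup.card_mul_index N
  rw [hn] at hcmi
  have hQ : BP (G ⧸ N) := by
    apply ih (Nat.card (G ⧸ N)) ?_ (G ⧸ N) rfl r (dp_quot N hp hNp hD) (zp_quot N r hZ)
    rw [← Subgroup.index_eq_card]
    nlinarith
  intro H K hc
  have hci : Nat.card (H ⊓ N : Subgroup G) = Nat.card (K ⊓ N : Subgroup G) := by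
    obtain ⟨g, hg⟩ := hD' H K hc
    rw [hg, cj_card]
  by_cases hIII : N ≤ H ∨ H ⊓ N = ⊥
  · have hcm : Nat.card (H.map (QuotientGroup.mk' N)) = Nat.card (K.map (QuotientGroup.mk' N)) := by
      have h1 := card_map_mk_mul N H
      have h2 := card_map_mk_mul N K
      rw [← hc, ← h1, hci] at h2
      exact (Nat.eq_of_mul_eq_mul_left Nat.card_pos h2).symm
    obtain ⟨g', hg'⟩ := hQ _ _ hcm
    obtain ⟨g, rfl⟩ := QuotientGroup.mk'_surjective N g'
    obtain ⟨H₁, hH₁⟩ : ∃ H₁, H₁ = H.map (MulAut.conj g).toMonoidHom := ⟨_, rfl⟩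
    have hsup : H₁ ⊔ N = K ⊔ N := by
      have e : H₁.map (QuotientGroup.mk' N) = K.map (QuotientGroup.mk' N) := by
        rw [hg', hH₁, Subgroup.map_map, Subgroup.map_map]
        congr 1
      have e2 := congrArg (Subgroup.comap (QuotientGroup.mk' N)) e
      rwa [Subgroup.comap_map_eq, Subgroup.comap_map_eq, QuotientGroup.ker_mk'] at e2
    have hc1 : Nat.card H₁ = Nat.card K := by rw [hH₁, cj_card, hc]
    have hH₁N : H₁ ⊓ N = (H ⊓ N).map (MulAut.conj g).toMonoidHom := by
      rw [hH₁, Subgroup.map_inf_eq _ _ _ (MulAut.conj g).injective, cj_normal g N]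
    suffices h : ∃ a : G, K = H₁.map (MulAut.conj a).toMonoidHom by
      obtain ⟨a, ha⟩ := h
      exact ⟨a * g, by rw [ha, hH₁, cj_cj]⟩
    rcases hIII with h1 | h2
    · have hNH₁ : N ≤ H₁ := by
        rw [hH₁, ← cj_normal g N]
        exact Subgroup.map_mono h1
      have hNK : N ≤ K := by
        have h3 : K ⊓ N = N := by
          apply Subgroup.eq_of_le_of_card_ge inf_le_right
          rw [← hci, inf_eq_right.2 h1]
        exact inf_eq_right.1 h3
      refine ⟨1, ?_⟩
      rw [cj_one]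
      calc K = K ⊔ N := (sup_eq_left.2 hNK).symm
        _ = H₁ ⊔ N := hsup.symm
        _ = H₁ := sup_eq_left.2 hNH₁
    · have hH₁0 : H₁ ⊓ N = ⊥ := by rw [hH₁N, h2, Subgroup.map_bot]
      have hcop : (Nat.card N).Coprime (Nat.card H₁) := by
        rw [hk]
        apply Nat.Coprime.pow_left
        rw [Nat.Prime.coprime_iff_not_dvd hp]
        intro hdvd
        obtain ⟨x, hx⟩ := exists_prime_orderOf_dvd_card' (G := ↥H₁) p hdvd
        have hx1 : (x : G) ^ p = 1 := by
          have h5 := pow_orderOf_eq_one x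
          rw [hx] at h5
          have h6 := congrArg Subtype.val h5
          rw [Subgroup.coe_pow, Subgroup.coe_one] at h6
          exact h6
        have hxN : (x : G) ∈ H₁ ⊓ N := ⟨x.2, hC _ hx1⟩
        rw [hH₁0, Subgroup.mem_bot] at hxN
        have hx0 : x = 1 := Subtype.ext hxN
        rw [hx0, orderOf_one] at hx
        exact hp.one_lt.ne hx
      obtain ⟨a, -, ha⟩ := conj_of_sup_eq N H₁ K hc1 hcop hsup
      exact ⟨a, by rw [cj_eq_smul, ha]⟩
  · -- case III
    push_neg at hIII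
    obtain ⟨hNH, hHN⟩ := hIII
    have hpr : p = r := by
      by_contra hne
      obtain ⟨S, hS⟩ := hNp.exists_le_sylow
      haveI : IsCyclic (S : Subgroup G) := hZ p hp hne S
      obtain ⟨z, hz, hz1⟩ : ∃ z ∈ H ⊓ N, z ≠ 1 := by
        by_contra hcon
        push_neg at hcon
        exact hHN ((Subgroup.eq_bot_iff_forall _).2 hcon)
      have hzo : orderOf z = p := orderOf_eq_prime (hexp z hz.2) hz1
      apply hNH
      intro x hx
      have h1 : x ∈ Subgroup.zpowers z := by
        apply cyc_mem (S : Subgroup G) (Subgroup.zpowers z)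
          ((Subgroup.zpowers_le).2 (hS hz.2)) x (hS hx)
        rw [Nat.card_zpowers, hzo]
        exact hexp x hx
      exact (Subgroup.zpowers_le.2 hz.1) h1
    have hk2 : 2 ≤ k := by
      by_contra hlt
      have hk1 : k ≤ 1 := by omega
      have hdvd : Nat.card (H ⊓ N : Subgroup G) ∣ p := by
        have h1 : Nat.card (H ⊓ N : Subgroup G) ∣ Nat.card N := Subgroup.card_dvd_of_le inf_le_right
        rw [hk] at h1
        exact h1.trans (by simpa using pow_dvd_pow p hk1)
      rcases (Nat.dvd_prime hp).1 hdvd with h1 | h1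
      · exact hHN (Subgroup.card_eq_one.1 h1)
      · apply hNH
        have h3 : H ⊓ N = N := by
          apply Subgroup.eq_of_le_of_card_ge inf_le_right
          rw [h1, hk]
          calc p ^ k ≤ p ^ 1 := Nat.pow_le_pow_right hp.pos hk1
            _ = p := pow_one p
        exact inf_eq_right.1 h3
    obtain ⟨E', hE'⟩ := Sylow.exists_subgroup_card_pow_prime (G := ↥N) p (n := 2)
      (by rw [hk]; exact pow_dvd_pow p hk2)
    obtain ⟨E, hE⟩ : ∃ E, E = E'.map N.subtype := ⟨_, rfl⟩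
    have hEN : E ≤ N := by rw [hE]; exact Subgroup.map_subtype_le _
    have hEc : Nat.card E = p ^ 2 := by
      rw [hE, Subgroup.card_map_of_injective N.subtype_injective, hE']
    have hsq : ∀ z : G, z ^ p ^ 2 = 1 → z ^ p = 1 := by
      intro z hz
      by_contra hz1
      have hzo : orderOf z = p ^ 2 :=
        orderOf_eq_prime_pow (n := 1) (by rwa [pow_one]) hz
      obtain ⟨g, hg⟩ := hD p hp E (Subgroup.zpowers z) (IsPGroup.of_card hEc)
        (IsPGroup.of_card (n := 2) (by rw [Nat.card_zpowers, hzo]))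
        (by rw [hEc, Nat.card_zpowers, hzo])
      have h3 : Subgroup.zpowers z ≤ N := by
        rw [hg, ← cj_normal g N]
        exact Subgroup.map_mono hEN
      exact hz1 (hexp z (h3 (Subgroup.mem_zpowers z)))
    have hall : ∀ j : ℕ, ∀ x : G, x ^ p ^ j = 1 → x ^ p = 1 := by
      intro j
      induction j with
      | zero =>
        intro x hx
        rw [pow_zero, pow_one] at hx
        rw [hx, one_pow]
      | succ j ihj =>
        intro x hx
        rcases j with _ | j
        · simpa using hx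
        · apply hsq
          have h1 : (x ^ p) ^ p ^ (j + 1) = 1 := by
            rw [← pow_mul, ← pow_succ']
            exact hx
          have h2 := ihj (x ^ p) h1
          rw [← pow_mul, ← pow_two] at h2
          exact h2
    have hpN : ∀ P : Subgroup G, IsPGroup p P → P ≤ N := by
      intro P hP x hx
      obtain ⟨j, hj⟩ := hP ⟨x, hx⟩
      apply hC
      apply hall j
      have h6 := congrArg Subtype.val hj
      rw [Subgroup.coe_pow, Subgroup.coe_one] at h6
      exact h6
    have hidx : ¬ p ∣ N.index := by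
      intro hdvd
      rw [Subgroup.index_eq_card] at hdvd
      obtain ⟨x', hx'⟩ := exists_prime_orderOf_dvd_card' (G := G ⧸ N) p hdvd
      obtain ⟨x, rfl⟩ := QuotientGroup.mk'_surjective N x'
      have h0 : (QuotientGroup.mk' N) (x ^ p) = 1 := by
        rw [map_pow]
        have h5 := pow_orderOf_eq_one (QuotientGroup.mk' N x)
        rw [hx'] at h5
        exact h5
      have h1 : x ^ p ∈ N := (QuotientGroup.eq_one_iff _).1 h0
      have h2 : x ^ p ^ 2 = 1 := by
        rw [pow_two, pow_mul]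
        exact hexp _ h1
      have h3 : x ∈ N := hC x (hsq x h2)
      have h4 : QuotientGroup.mk' N x = 1 := (QuotientGroup.eq_one_iff x).2 h3
      rw [h4, orderOf_one] at hx'
      exact hp.one_lt.ne hx'
    have hcopN : (Nat.card N).Coprime N.index := by
      rw [hk]
      exact Nat.Coprime.pow_left _ ((Nat.Prime.coprime_iff_not_dvd hp).2 hidx)
    obtain ⟨A, hA⟩ := hall_exists (G := G) N.index (Nat.card N)
      (by rw [mul_comm]; exact (Subgroup.card_mul_index N).symm) hcopN.symm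
    have hAcopN : (Nat.card A).Coprime (Nat.card N) := by rw [hA]; exact hcopN.symm
    have hAN : A ⊔ N = ⊤ := by
      apply Subgroup.eq_top_of_card_eq
      rw [card_sup_of_coprime A N hAcopN, hA, mul_comm, Subgroup.card_mul_index]
    -- reduce to H ⊓ N = K ⊓ N
    obtain ⟨g₀, hg₀⟩ := hD' H K hc
    obtain ⟨H₁, hH₁⟩ : ∃ H₁, H₁ = H.map (MulAut.conj g₀).toMonoidHom := ⟨_, rfl⟩
    have hc1 : Nat.card H₁ = Nat.card K := by rw [hH₁, cj_card, hc]
    have hinf : H₁ ⊓ N = K ⊓ N := by
      rw [hg₀, hH₁, Subgroup.map_inf_eq _ _ _ (MulAut.conj g₀).injective, cj_normal g₀ N]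
    suffices h : ∃ a : G, K = H₁.map (MulAut.conj a).toMonoidHom by
      obtain ⟨a, ha⟩ := h
      exact ⟨a * g₀, by rw [ha, hH₁, cj_cj]⟩
    obtain ⟨P, hPK, hMP, hPp, hPc⟩ :=
      exists_sylow_ge hp K (K ⊓ N) inf_le_left (hNp.to_le inf_le_right)
    have hPN₀ : P = K ⊓ N := le_antisymm (le_inf hPK (hpN P hPp)) hMP
    have hN₀c : Nat.card (K ⊓ N : Subgroup G) = p ^ (Nat.card K).factorization p := hPN₀ ▸ hPc
    obtain ⟨m', hKm, hm'p⟩ : ∃ m' : ℕ, Nat.card K = m' * p ^ (Nat.card K).factorization p ∧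
        m'.Coprime p :=
      ⟨Nat.card K / p ^ (Nat.card K).factorization p,
        (Nat.div_mul_cancel (Nat.ordProj_dvd _ _)).symm,
        (Nat.coprime_ordCompl hp Nat.card_pos.ne').symm⟩
    have hcopm : m'.Coprime (p ^ (Nat.card K).factorization p) := Nat.Coprime.pow_right _ hm'p
    obtain ⟨CK, hCK, hCKc⟩ := hall_sub K m' _ hKm hcopm
    obtain ⟨CH, hCH, hCHc⟩ := hall_sub H₁ m' _ (hc1.trans hKm) hcopm
    have hKeq : (K ⊓ N) ⊔ CK = K := by
      apply Subgroup.eq_of_le_of_card_ge (sup_le inf_le_left hCK)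
      have h1 : Nat.card (K ⊓ N : Subgroup G) ∣ Nat.card ((K ⊓ N) ⊔ CK : Subgroup G) :=
        Subgroup.card_dvd_of_le le_sup_left
      have h2 : Nat.card CK ∣ Nat.card ((K ⊓ N) ⊔ CK : Subgroup G) :=
        Subgroup.card_dvd_of_le le_sup_right
      rw [hN₀c] at h1
      rw [hCKc] at h2
      have h3 := Nat.Coprime.mul_dvd_of_dvd_of_dvd hcopm h2 h1
      rw [← hKm] at h3
      exact Nat.le_of_dvd Nat.card_pos h3
    have hCKcop : (Nat.card CK).Coprime (Nat.card N) := by
      rw [hCKc, hk]; exact Nat.Coprime.pow_right _ hm'p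
    have hCHcop : (Nat.card CH).Coprime (Nat.card N) := by
      rw [hCHc, hk]; exact Nat.Coprime.pow_right _ hm'p
    obtain ⟨aK, haKN, haK⟩ := into_compl N A CK hAN hAcopN hCKcop
    obtain ⟨aH, haHN, haH⟩ := into_compl N A CH hAN hAcopN hCHcop
    obtain ⟨nrm, hnrm⟩ : ∃ X, X = Subgroup.normalizer ((K ⊓ N : Subgroup G) : Set G) := ⟨_, rfl⟩
    have hNnrm : N ≤ nrm := by rw [hnrm]; exact abel_le_nrm N (K ⊓ N) inf_le_right
    have hKnrm : K ≤ nrm := by rw [hnrm]; exact le_nrm K N
    have hH₁nrm : H₁ ≤ nrm := by rw [hnrm, ← hinf]; exact le_nrm H₁ N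
    obtain ⟨A₁, hA₁⟩ : ∃ X, X = A ⊓ nrm := ⟨_, rfl⟩
    obtain ⟨DK, hDK⟩ : ∃ X, X = CK.map (MulAut.conj aK).toMonoidHom := ⟨_, rfl⟩
    obtain ⟨DH, hDH⟩ : ∃ X, X = CH.map (MulAut.conj aH).toMonoidHom := ⟨_, rfl⟩
    have hDKA : DK ≤ A₁ := by
      rw [hA₁]
      refine le_inf (hDK ▸ haK) ?_
      intro x hx
      rw [hDK, mem_cj] at hx
      have h1 : aK⁻¹ * x * aK ∈ nrm := hKnrm (hCK hx)
      have h2 := nrm.mul_mem (nrm.mul_mem (hNnrm haKN) h1) (nrm.inv_mem (hNnrm haKN))
      simpa [mul_assoc] using h2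
    have hDHA : DH ≤ A₁ := by
      rw [hA₁]
      refine le_inf (hDH ▸ haH) ?_
      intro x hx
      rw [hDH, mem_cj] at hx
      have h1 : aH⁻¹ * x * aH ∈ nrm := hH₁nrm (hCH hx)
      have h2 := nrm.mul_mem (nrm.mul_mem (hNnrm haHN) h1) (nrm.inv_mem (hNnrm haHN))
      simpa [mul_assoc] using h2
    have hA₁lt : Nat.card A₁ < n := by
      have h1 : Nat.card A₁ ≤ Nat.card A := Subgroup.card_le_of_le (hA₁ ▸ inf_le_left)
      rw [hA] at h1
      nlinarith
    have hA₁Z : ∀ q : ℕ, q.Prime → ∀ Q : Sylow q ↥A₁, IsCyclic Q := by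
      intro q hq Q
      haveI : Fact q.Prime := ⟨hq⟩
      by_cases hqp : q = p
      · have hQ1 : Nat.card (Q : Subgroup ↥A₁) = 1 := by
          obtain ⟨j, hj⟩ := Q.isPGroup'.exists_card_eq
          rcases j with _ | j
          · simpa using hj
          · exfalso
            apply hidx
            have h1 : q ∣ Nat.card (Q : Subgroup ↥A₁) := by
              rw [hj]; exact dvd_pow_self q (Nat.succ_ne_zero j)
            have h2 : Nat.card (Q : Subgroup ↥A₁) ∣ Nat.card ↥A₁ :=
              Subgroup.card_subgroup_dvd_card _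
            have h3 : Nat.card ↥A₁ ∣ Nat.card A := Subgroup.card_dvd_of_le (hA₁ ▸ inf_le_left)
            rw [hA] at h3
            exact hqp ▸ (h1.trans (h2.trans h3))
        haveI : Subsingleton (Q : Subgroup ↥A₁) := (Nat.card_eq_one_iff_unique.1 hQ1).1
        exact isCyclic_of_subsingleton
      · have hqr : q ≠ r := hpr ▸ hqp
        have hQ' : IsPGroup q ((Q : Subgroup ↥A₁).map A₁.subtype) := Q.isPGroup'.map _
        obtain ⟨S, hS⟩ := hQ'.exists_le_sylow
        haveI : IsCyclic (S : Subgroup G) := hZ q hq hqr S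
        haveI : IsCyclic ((Q : Subgroup ↥A₁).map A₁.subtype) := Subgroup.isCyclic_of_le hS
        exact isCyclic_of_injective
          (Subgroup.equivMapOfInjective (Q : Subgroup ↥A₁) A₁.subtype
            A₁.subtype_injective).toMonoidHom (MulEquiv.injective _)
    have hB₁ : BP ↥A₁ := ih (Nat.card ↥A₁) hA₁lt ↥A₁ rfl 0 (dp_of_z ↥A₁ hA₁Z)
      (fun q hq _ Q => hA₁Z q hq Q)
    have hDKc : Nat.card DK = m' := by rw [hDK, cj_card, hCKc]
    have hDHc : Nat.card DH = m' := by rw [hDH, cj_card, hCHc]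
    obtain ⟨b, hb⟩ := hB₁ (DH.subgroupOf A₁) (DK.subgroupOf A₁) (by
      rw [Nat.card_congr (Subgroup.subgroupOfEquivOfLe hDHA).toEquiv,
        Nat.card_congr (Subgroup.subgroupOfEquivOfLe hDKA).toEquiv, hDHc, hDKc])
    have hDKDH : DK ≤ DH.map (MulAut.conj (b : G)).toMonoidHom := by
      intro x hx
      rw [mem_cj]
      have h1 : (⟨x, hDKA hx⟩ : ↥A₁) ∈ DK.subgroupOf A₁ := by
        rw [Subgroup.mem_subgroupOf]; exact hx
      rw [hb, mem_cj, Subgroup.mem_subgroupOf] at h1
      simpa using h1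
    have hbnrm : (b : G) ∈ nrm := by
      have h1 : (b : G) ∈ A ⊓ nrm := hA₁ ▸ b.2
      exact h1.2
    have hgn : aK⁻¹ * (b : G) * aH ∈ nrm :=
      nrm.mul_mem (nrm.mul_mem (nrm.inv_mem (hNnrm haKN)) hbnrm) (hNnrm haHN)
    refine ⟨aK⁻¹ * (b : G) * aH, ?_⟩
    have hle : K ≤ H₁.map (MulAut.conj (aK⁻¹ * (b : G) * aH)).toMonoidHom := by
      rw [← hKeq]
      apply sup_le
      · intro x hx
        rw [mem_cj]
        have h1 := hgn
        rw [hnrm, Subgroup.mem_normalizer_iff''] at h1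
        have h2 := (h1 x).1 hx
        have h3 : (aK⁻¹ * (b : G) * aH)⁻¹ * x * (aK⁻¹ * (b : G) * aH) ∈ H₁ ⊓ N := by
          rw [hinf]; exact h2
        exact h3.1
      · intro x hx
        rw [mem_cj]
        have h1 : aK * x * aK⁻¹ ∈ DK := by
          rw [hDK, mem_cj]
          simpa [mul_assoc] using hx
        have h2 := hDKDH h1
        rw [mem_cj, hDH, mem_cj] at h2
        apply hCH
        convert h2 using 1
        group
    exact Subgroup.eq_of_le_of_card_ge hle (by rw [cj_card, hc1])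

end Cfsg.Agent.Lib.Helper1.SameOrd
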