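import Mathlib
import Cfsg.Agent.Lib.Helper1.SpDLA
import Cfsg.Agent.Lib.Helper1.SylSpC
import Cfsg.Agent.S4014

/-!
Derived length of Sylow 2-subgroups of `Sp_{2n}(F)`, `F` finite of odd order.
-/

namespace Cfsg.Agent.Lib.Helper1.SpDL

open scoped commutatorElement
open Cfsg.Agent.Lib.Helper1.SylSp Cfsg.Agent.Lib.Helper1.SylSym Matrix

section sp2
variable {F : Type*} [Field F]

lemma sp2_ds [Finite F] (h2 : (2 : F) ≠ 0)
    (Q : Subgroup (Matrix.symplecticGroup (Fin 1) F)) (hQ : IsPGroup 2 Q) :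
    derivedSeries ↥Q 2 = ⊥ := by
  have hE : Set.ncard {g : Q | g ^ 2 = 1} ≤ 2 := by
    obtain ⟨z, hz⟩ : ∃ z : Matrix.symplecticGroup (Fin 1) F,
        (z : Matrix (Fin 1 ⊕ Fin 1) (Fin 1 ⊕ Fin 1) F) = -1 :=
      ⟨⟨-1, SymplecticGroup.neg_mem (Submonoid.one_mem _)⟩, rfl⟩
    have hsub : (fun g : Q => (g : Matrix.symplecticGroup (Fin 1) F)) '' {g : Q | g ^ 2 = 1} ⊆
        {1, z} := by
      rintro _ ⟨g, hg, rfl⟩
      have hg2 : (g : Matrix.symplecticGroup (Fin 1) F) * g = 1 := by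
        have := congrArg Subtype.val hg
        simpa [pow_two] using this
      rcases sp2_involution h2 _ hg2 with h | h
      · left; exact Subtype.ext h
      · right; exact Subtype.ext (h.trans hz.symm)
    calc Set.ncard {g : Q | g ^ 2 = 1}
        = Set.ncard ((fun g : Q => (g : Matrix.symplecticGroup (Fin 1) F)) ''
            {g : Q | g ^ 2 = 1}) := (Set.ncard_image_of_injective _ Subtype.val_injective).symm
      _ ≤ Set.ncard ({1, z} : Set (Matrix.symplecticGroup (Fin 1) F)) :=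
          Set.ncard_le_ncard hsub (Set.toFinite _)
      _ ≤ 2 := (Set.ncard_insert_le 1 {z}).trans (by rw [Set.ncard_singleton])
  rcases Cfsg.Agent.Lib.Helper18.UniqueInvolution.cyclic_or_quaternion_of_unique 2 hQ hE with
    h | ⟨-, n, ⟨e⟩⟩
  · letI := IsCyclic.commGroup (α := Q)
    rw [derivedSeries_succ, Subgroup.commutator_eq_bot_iff_le_centralizer]
    intro x _
    rw [Subgroup.mem_centralizer_iff]
    intro y _
    exact mul_comm y x
  · exact ds_bot_of_equiv e.symm 2 (quaternion_ds _)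

end sp2

section supp
variable {F : Type*} [Field F] (n : ℕ)

/-- wreath elements supported on `I` -/
def supp (I : Set (Fin n)) : Subgroup (Matrix.symplecticGroup (Fin n) F) where
  carrier := {g | ∃ (f : Fin n → Matrix.symplecticGroup (Fin 1) F) (σ : Equiv.Perm (Fin n)),
    (∀ x, x ∉ I → f x = 1) ∧ (∀ x, x ∉ I → σ x = x) ∧ g = betaHom n f * tauHom n σ}
  one_mem' := ⟨1, 1, fun _ _ => rfl, fun _ _ => rfl, by simp⟩
  mul_mem' := by
    rintro _ _ ⟨f, σ, hf, hσ, rfl⟩ ⟨f', σ', hf', hσ', rfl⟩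
    refine ⟨f * (fun i => f' (σ.symm i)), σ * σ', ?_, ?_, ?_⟩
    · intro x hx
      have h1 : σ.symm x = x := by
        rw [Equiv.symm_apply_eq]; exact (hσ x hx).symm
      rw [Pi.mul_apply, hf x hx, h1, hf' x hx, mul_one]
    · intro x hx
      rw [Equiv.Perm.mul_apply, hσ' x hx, hσ x hx]
    · rw [map_mul, map_mul, mul_assoc, ← mul_assoc (tauHom n σ), tau_beta]
      simp only [mul_assoc]
  inv_mem' := by
    rintro _ ⟨f, σ, hf, hσ, rfl⟩
    refine ⟨fun i => (f (σ i))⁻¹, σ⁻¹, ?_, ?_, ?_⟩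
    · intro x hx
      show (f (σ x))⁻¹ = 1
      rw [hσ x hx, hf x hx, inv_one]
    · intro x hx
      rw [Equiv.Perm.inv_eq_iff_eq]
      exact (hσ x hx).symm
    · rw [_root_.mul_inv_rev, ← map_inv, ← map_inv, tau_beta]
      rfl

lemma supp_mono {I J : Set (Fin n)} (h : I ⊆ J) : supp (F := F) n I ≤ supp n J := by
  rintro _ ⟨f, σ, hf, hσ, rfl⟩
  exact ⟨f, σ, fun x hx => hf x (fun h' => hx (h h')), fun x hx => hσ x (fun h' => hx (h h')), rfl⟩

lemma perm_mem_of_fix {I : Set (Fin n)} {σ : Equiv.Perm (Fin n)} (hσ : ∀ x, x ∉ I → σ x = x)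
    {i : Fin n} (hi : i ∈ I) : σ i ∈ I := by
  by_contra h
  have h1 := hσ _ h
  have h2 : σ i = i := σ.injective h1
  rw [h2] at h
  exact h hi

lemma perm_symm_mem_of_fix {I : Set (Fin n)} {σ : Equiv.Perm (Fin n)}
    (hσ : ∀ x, x ∉ I → σ x = x) {i : Fin n} (hi : i ∈ I) : σ.symm i ∈ I := by
  by_contra h
  have h1 := hσ _ h
  rw [Equiv.apply_symm_apply] at h1
  rw [← h1] at h
  exact h hi

lemma comp_symm_eq {I J : Set (Fin n)} (hIJ : Disjoint I J)
    {f' : Fin n → Matrix.symplecticGroup (Fin 1) F} {σ : Equiv.Perm (Fin n)}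
    (hf' : ∀ x, x ∉ J → f' x = 1) (hσ : ∀ x, x ∉ I → σ x = x) :
    (fun i => f' (σ.symm i)) = f' := by
  funext i
  by_cases hi : i ∈ I
  · have h1 : σ.symm i ∈ I := perm_symm_mem_of_fix n hσ hi
    rw [hf' _ (fun h => Set.disjoint_left.1 hIJ h1 h), hf' _ (fun h => Set.disjoint_left.1 hIJ hi h)]
  · have h1 : σ.symm i = i := by
      rw [Equiv.symm_apply_eq]; exact (hσ i hi).symm
    rw [h1]

lemma supp_comm (I J : Set (Fin n)) (hIJ : Disjoint I J) :
    ∀ x ∈ supp (F := F) n I, ∀ y ∈ supp (F := F) n J, x * y = y * x := by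
  rintro _ ⟨f, σ, hf, hσ, rfl⟩ _ ⟨f', σ', hf', hσ', rfl⟩
  have e1 : (fun i => f' (σ.symm i)) = f' := comp_symm_eq n hIJ hf' hσ
  have e2 : (fun i => f (σ'.symm i)) = f := comp_symm_eq n hIJ.symm hf hσ'
  have e3 : f * f' = f' * f := by
    funext i
    by_cases hi : i ∈ I
    · rw [Pi.mul_apply, Pi.mul_apply, hf' i (fun h => Set.disjoint_left.1 hIJ hi h), mul_one,
        one_mul]
    · rw [Pi.mul_apply, Pi.mul_apply, hf i hi, mul_one, one_mul]
  have e4 : σ * σ' = σ' * σ := by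
    ext i
    simp only [Equiv.Perm.mul_apply]
    by_cases hi : i ∈ I
    · have hi' : i ∉ J := fun h => Set.disjoint_left.1 hIJ hi h
      have h1 : σ i ∈ I := perm_mem_of_fix n hσ hi
      rw [hσ' i hi', hσ' (σ i) (fun h => Set.disjoint_left.1 hIJ h1 h)]
    · have h1 : σ' i ∉ I := by
        by_cases hj : i ∈ J
        · have h2 : σ' i ∈ J := perm_mem_of_fix n hσ' hj
          exact fun h => Set.disjoint_left.1 hIJ h h2
        · rw [hσ' i hj]; exact hi
      rw [hσ i hi, hσ _ h1]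
  calc betaHom n f * tauHom n σ * (betaHom n f' * tauHom n σ')
      = betaHom n f * (tauHom n σ * betaHom n f') * tauHom n σ' := by simp only [mul_assoc]
    _ = betaHom n f * (betaHom n f' * tauHom n σ) * tauHom n σ' := by rw [tau_beta, e1]
    _ = betaHom n (f * f') * tauHom n (σ * σ') := by
        rw [map_mul, map_mul]; simp only [mul_assoc]
    _ = betaHom n (f' * f) * tauHom n (σ' * σ) := by rw [e3, e4]
    _ = betaHom n f' * (betaHom n f * tauHom n σ') * tauHom n σ := by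
        rw [map_mul, map_mul]; simp only [mul_assoc]
    _ = betaHom n f' * (tauHom n σ' * betaHom n f) * tauHom n σ := by rw [tau_beta, e2]
    _ = betaHom n f' * tauHom n σ' * (betaHom n f * tauHom n σ) := by simp only [mul_assoc]

lemma decomp_unique {f f' : Fin n → Matrix.symplecticGroup (Fin 1) F} {σ σ' : Equiv.Perm (Fin n)}
    (h : betaHom n f * tauHom n σ = betaHom n f' * tauHom n σ') : f = f' ∧ σ = σ' := by
  have h1 : betaHom n (f'⁻¹ * f) = tauHom (F := F) n (σ' * σ⁻¹) := by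
    rw [map_mul, map_mul, map_inv, map_inv, inv_mul_eq_iff_eq_mul, ← mul_assoc, ← h]
    group
  have h2 : betaHom n (f'⁻¹ * f) ∈ (betaHom (F := F) n).range ⊓ (tauHom (F := F) n).range :=
    ⟨⟨_, rfl⟩, ⟨_, h1.symm⟩⟩
  rw [range_inf, Subgroup.mem_bot] at h2
  have h3 : f'⁻¹ * f = 1 := betaHom_injective n (by rw [h2, map_one])
  have h4 : σ' * σ⁻¹ = 1 := tauHom_injective (F := F) n (by rw [← h1, h2, map_one])
  exact ⟨(inv_mul_eq_one.1 h3).symm, (mul_inv_eq_one.1 h4).symm⟩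

lemma supp_inf (I J : Set (Fin n)) (hIJ : Disjoint I J) :
    supp (F := F) n I ⊓ supp (F := F) n J = ⊥ := by
  rw [eq_bot_iff]
  rintro x ⟨⟨f, σ, hf, hσ, rfl⟩, ⟨f', σ', hf', hσ', h⟩⟩
  obtain ⟨rfl, rfl⟩ := decomp_unique n h
  have hf1 : f = 1 := by
    funext i
    by_cases hi : i ∈ I
    · exact hf' i (fun h => Set.disjoint_left.1 hIJ hi h)
    · exact hf i hi
  have hσ1 : σ = 1 := by
    ext i
    by_cases hi : i ∈ I
    · rw [hσ' i (fun h => Set.disjoint_left.1 hIJ hi h)]; rfl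
    · rw [hσ i hi]; rfl
  rw [Subgroup.mem_bot, hf1, hσ1, map_one, map_one, mul_one]

lemma supp_conj (I : Set (Fin n)) (w : Equiv.Perm (Fin n)) :
    ∀ x ∈ supp (F := F) n I, tauHom n w * x * (tauHom n w)⁻¹ ∈ supp (F := F) n (w '' I) := by
  rintro _ ⟨f, σ, hf, hσ, rfl⟩
  refine ⟨fun i => f (w.symm i), w * σ * w⁻¹, ?_, ?_, ?_⟩
  · intro x hx
    apply hf
    intro h
    exact hx ⟨_, h, Equiv.apply_symm_apply w x⟩
  · intro x hx
    have h1 : w.symm x ∉ I := fun h => hx ⟨_, h, Equiv.apply_symm_apply w x⟩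
    show w (σ (w.symm x)) = x
    rw [hσ _ h1, Equiv.apply_symm_apply]
  · rw [← mul_assoc, tau_beta, map_mul, map_mul, map_inv]
    simp only [mul_assoc]

end supp

section main
variable {F : Type*} [Field F] [Fintype F]

theorem exists_big (h2 : (2 : F) ≠ 0) (n : ℕ) : ∀ (i : ℕ) (I : Finset (Fin n)), I.card = 2 ^ i →
    ∃ X : Subgroup (Matrix.symplecticGroup (Fin n) F), X ≤ supp n (I : Set (Fin n)) ∧
      IsPGroup 2 X ∧ dser X (i + 1) ≠ ⊥ := by
  classical
  intro i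
  induction i with
  | zero =>
    intro I hI
    rw [pow_zero, Finset.card_eq_one] at hI
    obtain ⟨a, rfl⟩ := hI
    obtain ⟨H, hH, x, hx, y, hy, hxy⟩ := sp2_exists_q8 h2
    obtain ⟨φ, hφ⟩ : ∃ φ : Matrix.symplecticGroup (Fin 1) F →* Matrix.symplecticGroup (Fin n) F,
        φ = (betaHom n).comp (MonoidHom.mulSingle (fun _ : Fin n => Matrix.symplecticGroup (Fin 1) F) a) :=
      ⟨_, rfl⟩
    have hinj : Function.Injective φ := by
      rw [hφ]
      intro u v h
      have h' : Pi.mulSingle a u = Pi.mulSingle a v := betaHom_injective n h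
      exact Pi.mulSingle_injective a h'
    refine ⟨H.map φ, ?_, hH.map φ, ?_⟩
    · rintro _ ⟨h, hh, rfl⟩
      refine ⟨Pi.mulSingle a h, 1, ?_, fun _ _ => rfl, ?_⟩
      · intro x hx
        apply Pi.mulSingle_eq_of_ne
        intro hxa
        apply hx
        rw [hxa]
        simp
      · rw [hφ, map_one, mul_one]
        rfl
    · intro hbot
      have h1 : ⁅φ x, φ y⁆ ∈ dser (H.map φ) (0 + 1) :=
        Subgroup.commutator_mem_commutator (Subgroup.mem_map_of_mem φ hx)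
          (Subgroup.mem_map_of_mem φ hy)
      rw [hbot, Subgroup.mem_bot, commutatorElement_eq_one_iff_mul_comm, ← map_mul, ← map_mul] at h1
      exact hxy (hinj h1)
  | succ i ih =>
    intro I hI
    obtain ⟨I₁, hI₁, hc₁⟩ := Finset.exists_subset_card_eq
      (show 2 ^ i ≤ I.card by rw [hI, pow_succ]; omega)
    have hc₂ : (I \ I₁).card = 2 ^ i := by
      rw [Finset.card_sdiff_of_subset hI₁, hI, hc₁, pow_succ]; omega
    have hd : Disjoint I₁ (I \ I₁) := Finset.disjoint_sdiff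
    obtain ⟨w, hw1, hw2, hw3⟩ := exists_swap I₁ (I \ I₁) hd (hc₁.trans hc₂.symm)
    obtain ⟨X₁, hX₁, hp₁, hd₁⟩ := ih I₁ hc₁
    obtain ⟨t, ht⟩ : ∃ t : Matrix.symplecticGroup (Fin n) F, t = tauHom n w := ⟨_, rfl⟩
    obtain ⟨X₂, hX₂def⟩ : ∃ X₂ : Subgroup (Matrix.symplecticGroup (Fin n) F),
        X₂ = X₁.map (MulAut.conj t).toMonoidHom := ⟨_, rfl⟩
    have hdS : Disjoint (I₁ : Set (Fin n)) ((I \ I₁ : Finset (Fin n)) : Set (Fin n)) := by
      rw [Finset.disjoint_coe]; exact hd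
    have hX₂ : X₂ ≤ supp n ((I \ I₁ : Finset (Fin n)) : Set (Fin n)) := by
      rw [hX₂def]
      rintro _ ⟨x, hx, rfl⟩
      have h1 := supp_conj n (I₁ : Set (Fin n)) w x (hX₁ hx)
      rw [← ht] at h1
      refine supp_mono n ?_ h1
      rintro _ ⟨z, hz, rfl⟩
      exact hw1 z hz
    have hcomm : ∀ x ∈ X₁, ∀ y ∈ X₂, x * y = y * x :=
      fun x hx y hy => supp_comm n _ _ hdS x (hX₁ hx) y (hX₂ hy)
    have hinf : X₁ ⊓ X₂ = ⊥ :=
      eq_bot_iff.2 (le_trans (inf_le_inf hX₁ hX₂) (supp_inf n _ _ hdS).le)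
    have htt : t * t = 1 := by rw [ht, ← map_mul, hw3, map_one]
    have htinv : t⁻¹ = t := inv_eq_of_mul_eq_one_left htt
    have hp₂ : IsPGroup 2 X₂ := by rw [hX₂def]; exact hp₁.map _
    have h12 : IsPGroup 2 (X₁ ⊔ X₂ : Subgroup (Matrix.symplecticGroup (Fin n) F)) := by
      apply IsPGroup.to_sup_of_normal_right' hp₁ hp₂
      intro x hx
      apply mem_normalizer_of_conj
      · intro a ha
        rw [hcomm x hx a ha, mul_inv_cancel_right]; exact ha
      · intro a ha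
        rw [mul_assoc, ← hcomm x hx a ha, inv_mul_cancel_left]; exact ha
    have hzp : IsPGroup 2 (Subgroup.zpowers t) := by
      rintro ⟨x, hx⟩
      obtain ⟨k, rfl⟩ := Subgroup.mem_zpowers_iff.1 hx
      refine ⟨1, Subtype.ext ?_⟩
      show (t ^ k) ^ 2 ^ 1 = 1
      rw [pow_one, pow_two, ← _root_.zpow_add, ← two_mul, _root_.zpow_mul, zpow_two, htt,
        _root_.one_zpow]
    have hmap : ∀ a ∈ X₁ ⊔ X₂, t * a * t⁻¹ ∈ X₁ ⊔ X₂ := by
      intro a ha
      have h1 : (X₁ ⊔ X₂).map (MulAut.conj t).toMonoidHom ≤ X₁ ⊔ X₂ := by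
        rw [Subgroup.map_sup]
        apply sup_le
        · rw [← hX₂def]; exact le_sup_right
        · apply le_trans _ le_sup_left
          rw [hX₂def]
          rintro _ ⟨_, ⟨x, hx, rfl⟩, rfl⟩
          show t * (t * x * t⁻¹) * t⁻¹ ∈ X₁
          have h3 : t * (t * x * t⁻¹) * t⁻¹ = (t * t) * x * (t * t)⁻¹ := by group
          rw [h3, htt, one_mul, inv_one, mul_one]
          exact hx
      exact h1 ⟨a, ha, rfl⟩
    have hnz : Subgroup.zpowers t ≤ Subgroup.normalizer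
        ((X₁ ⊔ X₂ : Subgroup (Matrix.symplecticGroup (Fin n) F)) : Set (Matrix.symplecticGroup (Fin n) F)) := by
      rw [Subgroup.zpowers_le]
      apply mem_normalizer_of_conj hmap
      intro a ha
      have h3 := hmap a ha
      rw [htinv] at h3 ⊢
      exact h3
    have hZp : IsPGroup 2 (X₁ ⊔ X₂ ⊔ Subgroup.zpowers t : Subgroup (Matrix.symplecticGroup (Fin n) F)) := by
      rw [sup_comm]
      exact IsPGroup.to_sup_of_normal_right' hzp h12 hnz
    refine ⟨X₁ ⊔ X₂ ⊔ Subgroup.zpowers t, ?_, hZp, ?_⟩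
    · apply sup_le (sup_le _ _) _
      · exact hX₁.trans (supp_mono n (by exact_mod_cast hI₁))
      · exact hX₂.trans (supp_mono n (by
          intro z hz
          exact (Finset.mem_sdiff.1 (Finset.mem_coe.1 hz)).1))
      · rw [Subgroup.zpowers_le]
        refine ⟨1, w, fun _ _ => rfl, ?_, ?_⟩
        · intro x hx
          exact hw2 x (fun h => hx (hI₁ h)) (fun h => hx (Finset.mem_sdiff.1 h).1)
        · rw [ht, map_one, one_mul]
    · apply dl_step X₁ X₂ _ t hcomm hinf _ (le_sup_left.trans le_sup_left)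
        (Subgroup.mem_sup_right (Subgroup.mem_zpowers t)) (i + 1) hd₁
      intro x hx
      rw [hX₂def]
      exact ⟨x, hx, rfl⟩

theorem sp_lower (hF : Odd (Fintype.card F)) (n : ℕ) (hn : 1 ≤ n)
    (R : Sylow 2 (Matrix.symplecticGroup (Fin n) F)) :
    derivedSeries ↥(R : Subgroup (Matrix.symplecticGroup (Fin n) F)) (Nat.log 2 n + 1) ≠ ⊥ := by
  classical
  have h2 : (2 : F) ≠ 0 := by
    apply Ring.two_ne_zero
    intro h
    rw [FiniteField.even_card_iff_char_two] at h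
    rw [Nat.odd_iff] at hF
    omega
  obtain ⟨I, -, hI⟩ := Finset.exists_subset_card_eq (s := (Finset.univ : Finset (Fin n)))
    (n := 2 ^ Nat.log 2 n)
    (by rw [Finset.card_univ, Fintype.card_fin]; exact Nat.pow_log_le_self 2 (by omega))
  obtain ⟨X, -, hXp, hXd⟩ := exists_big h2 n (Nat.log 2 n) I hI
  obtain ⟨P₀, hP₀⟩ := hXp.exists_le_sylow
  have h1 : dser (P₀ : Subgroup (Matrix.symplecticGroup (Fin n) F)) (Nat.log 2 n + 1) ≠ ⊥ := by
    intro h
    apply hXd
    rw [eq_bot_iff, ← h]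
    exact dser_mono hP₀ _
  intro hbot
  apply h1
  rw [← ds_eq_bot_iff]
  exact ds_bot_of_equiv (Sylow.equiv R P₀) _ hbot

theorem sp_upper (hF : Odd (Fintype.card F)) (n : ℕ) (hn : 1 ≤ n)
    (R : Sylow 2 (Matrix.symplecticGroup (Fin n) F)) :
    derivedSeries ↥(R : Subgroup (Matrix.symplecticGroup (Fin n) F)) (Nat.log 2 n + 2) = ⊥ := by
  classical
  have h2 : (2 : F) ≠ 0 := by
    apply Ring.two_ne_zero
    intro h
    rw [FiniteField.even_card_iff_char_two] at h
    rw [Nat.odd_iff] at hF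
    omega
  obtain ⟨q, hq⟩ : ∃ q : ℕ, Fintype.card F = q := ⟨_, rfl⟩
  rw [hq] at hF
  have hq1 : 1 < q := by rw [← hq]; exact Fintype.one_lt_card
  have hqc : Nat.card F = q := by rw [Nat.card_eq_fintype_card, hq]
  let Q : Sylow 2 (Matrix.symplecticGroup (Fin 1) F) := default
  let T₀ : Sylow 2 (Equiv.Perm (Fin n)) := default
  obtain ⟨B, hB⟩ : ∃ B : Subgroup (Matrix.symplecticGroup (Fin n) F), B = (Subgroup.pi Set.univ
      (fun _ : Fin n => (Q : Subgroup (Matrix.symplecticGroup (Fin 1) F)))).map (betaHom n) :=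
    ⟨_, rfl⟩
  obtain ⟨T, hT⟩ : ∃ T : Subgroup (Matrix.symplecticGroup (Fin n) F),
      T = (T₀ : Subgroup (Equiv.Perm (Fin n))).map (tauHom (F := F) n) := ⟨_, rfl⟩
  have hnorm : ∀ t ∈ T, ∀ b ∈ B, t * b * t⁻¹ ∈ B := by
    rw [hB, hT]
    rintro _ ⟨σ, hσ, rfl⟩ _ ⟨f, hf, rfl⟩
    refine ⟨fun i => f (σ.symm i), fun i _ => hf (σ.symm i) (Set.mem_univ _), ?_⟩
    rw [tau_beta, mul_inv_cancel_right]
  have hBT : B ⊓ T = ⊥ := by
    rw [eq_bot_iff, ← range_inf (F := F) n, hB, hT]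
    exact inf_le_inf (Subgroup.map_le_range _ _) (Subgroup.map_le_range _ _)
  have hcardQ : Nat.card Q = 2 ^ padicValNat 2 (q ^ 2 - 1) := by
    rw [Sylow.card_eq_multiplicity, Cfsg.Agent.Lib.Helper5.SympCount.card_sp F 1 q hqc,
      Nat.factorization_def _ Nat.prime_two, val_sp q hF hq1 1]
    simp
  have hcardT : Nat.card T₀ = 2 ^ padicValNat 2 n.factorial := by
    rw [Sylow.card_eq_multiplicity, Nat.card_perm, Nat.card_eq_fintype_card, Fintype.card_fin,
      Nat.factorization_def _ Nat.prime_two]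
  have hcardW : Nat.card (prodSub B T hnorm) =
      2 ^ (n * padicValNat 2 (q ^ 2 - 1) + padicValNat 2 n.factorial) := by
    rw [prodSub_card B T hnorm hBT, hB, hT, Subgroup.card_map_of_injective (betaHom_injective n),
      Subgroup.card_map_of_injective (tauHom_injective n), hcardT, card_pi_const, hcardQ,
      Nat.card_eq_fintype_card, Fintype.card_fin, ← pow_mul, ← pow_add, mul_comm]
  obtain ⟨P', hP'⟩ := (IsPGroup.of_card hcardW).exists_le_sylow
  have hcardP' : Nat.card P' =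
      2 ^ (n * padicValNat 2 (q ^ 2 - 1) + padicValNat 2 n.factorial) := by
    rw [Sylow.card_eq_multiplicity, Cfsg.Agent.Lib.Helper5.SympCount.card_sp F n q hqc,
      Nat.factorization_def _ Nat.prime_two, val_sp q hF hq1 n]
  have hWP : prodSub B T hnorm = P' :=
    Subgroup.eq_of_le_of_card_ge hP' (by rw [hcardP', hcardW])
  have hT0 : derivedSeries ↥(T₀ : Subgroup (Equiv.Perm (Fin n))) (Nat.log 2 n) = ⊥ :=
    (Cfsg.Agent.S4014.result 2 n hn T₀).1
  have hTd : dser T (Nat.log 2 n) = ⊥ := by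
    rw [hT, dser_map, (ds_eq_bot_iff _ _).1 hT0, Subgroup.map_bot]
  have hQd : dser (Q : Subgroup (Matrix.symplecticGroup (Fin 1) F)) 2 = ⊥ :=
    (ds_eq_bot_iff _ _).1 (sp2_ds h2 _ Q.isPGroup')
  have hBd : dser B 2 = ⊥ := by
    have h3 : dser (Subgroup.pi Set.univ
        (fun _ : Fin n => (Q : Subgroup (Matrix.symplecticGroup (Fin 1) F)))) 2 = ⊥ := by
      rw [eq_bot_iff]
      refine (dser_pi _ 2).trans ?_
      rw [hQd, Subgroup.pi_bot]
    rw [hB, dser_map, h3, Subgroup.map_bot]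
  have hW : dser (prodSub B T hnorm) (Nat.log 2 n + 2) = ⊥ := by
    rw [dser_add, eq_bot_iff, ← hBd]
    apply dser_mono
    intro x hx
    obtain ⟨b, hb, t, ht, rfl⟩ := dser_prod B T hnorm (prodSub B T hnorm) (fun x hx => hx) _ x hx
    rw [hTd, Subgroup.mem_bot] at ht
    rw [ht, mul_one]
    exact hb
  have h3 : derivedSeries ↥(P' : Subgroup (Matrix.symplecticGroup (Fin n) F)) (Nat.log 2 n + 2) = ⊥ := by
    rw [ds_eq_bot_iff, ← hWP]
    exact hW
  exact ds_bot_of_equiv (Sylow.equiv P' R) _ h3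

end main

end Cfsg.Agent.Lib.Helper1.SpDL
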