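import Mathlib
import Cfsg.Agent.Lib.Helper1.SylSlF

/-!
Abstract wreath lemma: in `S = β(D^k) · τ(T₀) · Z` (with `D` generalized-dihedral-like), the
kernel of a homomorphism `Θ` to an elementary abelian 2-group, trivial on `τ(T₀)`, is `Good`.
Also: Sylow subgroups of a normal subgroup.
-/

namespace Cfsg.Agent.Lib.Helper1.SylOr

open Cfsg.Agent.Lib.Helper1.SylSym Cfsg.Agent.Lib.Helper1.SylSp Cfsg.Agent.Lib.Helper1.SylSl
open scoped commutatorElement

section abstract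
variable {G A H M : Type*} [Group G] [CommGroup A] [Group H] [Group M]

lemma gk_conj {S K : Subgroup G} (hnorm : ∀ x ∈ S, ∀ y ∈ K, x * y * x⁻¹ ∈ K) :
    ∀ x ∈ S, ∀ n ∈ gk 2 K, x * n * x⁻¹ ∈ gk 2 K := by
  intro x hx n hn
  obtain ⟨hnK, hn2⟩ := mem_gk.1 hn
  refine mem_gk.2 ⟨hnorm x hx n hnK, ?_⟩
  have h1 : (x * n * x⁻¹) ^ 2 = x * n ^ 2 * x⁻¹ := conj_pow
  rw [h1]
  have h2 : ⁅K, K⁆.map (MulAut.conj x).toMonoidHom ≤ ⁅K, K⁆ := by
    rw [Subgroup.map_commutator]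
    apply Subgroup.commutator_mono <;>
    · rintro _ ⟨y, hy, rfl⟩
      exact hnorm x hx y hy
  exact h2 ⟨n ^ 2, hn2, rfl⟩

lemma pair_apply {k : ℕ} (i j : Fin k) (hij : i ≠ j) (a b : H) (l : Fin k) :
    (Pi.mulSingle i a * Pi.mulSingle j b : Fin k → H) l =
      if l = i then a else if l = j then b else 1 := by
  rw [Pi.mul_apply]
  by_cases h1 : l = i
  · subst h1
    rw [if_pos rfl, Pi.mulSingle_eq_same, Pi.mulSingle_eq_of_ne hij, mul_one]
  · rw [if_neg h1, Pi.mulSingle_eq_of_ne h1, one_mul]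
    by_cases h2 : l = j
    · subst h2; rw [if_pos rfl, Pi.mulSingle_eq_same]
    · rw [if_neg h2, Pi.mulSingle_eq_of_ne h2]

lemma pair_mul {k : ℕ} (i j : Fin k) (hij : i ≠ j) (a b a' b' : H) :
    (Pi.mulSingle i a * Pi.mulSingle j b : Fin k → H) * (Pi.mulSingle i a' * Pi.mulSingle j b') =
      Pi.mulSingle i (a * a') * Pi.mulSingle j (b * b') := by
  funext l
  rw [Pi.mul_apply, pair_apply i j hij, pair_apply i j hij, pair_apply i j hij]
  split_ifs <;> simp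

lemma pair_inv {k : ℕ} (i j : Fin k) (hij : i ≠ j) (a b : H) :
    (Pi.mulSingle i a * Pi.mulSingle j b : Fin k → H)⁻¹ =
      Pi.mulSingle i a⁻¹ * Pi.mulSingle j b⁻¹ := by
  funext l
  rw [Pi.inv_apply, pair_apply i j hij, pair_apply i j hij]
  split_ifs <;> simp

lemma pair_one {k : ℕ} (i j : Fin k) :
    (Pi.mulSingle i 1 * Pi.mulSingle j 1 : Fin k → H) = 1 := by
  rw [Pi.mulSingle_one, Pi.mulSingle_one, mul_one]

theorem wreath_ker_good (k : ℕ) (hk : 2 ≤ k) (Θ : G →* A) (hA : ∀ a : A, a * a = 1)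
    (ν : H →* M) (D : Subgroup H) (hD1 : ∀ d ∈ D, ν d ≠ 1 → d * d = 1)
    (s₁ : H) (hs₁ : s₁ ∈ D) (hνs : ν s₁ ≠ 1)
    (β : (Fin k → H) →* G) (τ : Equiv.Perm (Fin k) →* G)
    (hτβ : ∀ σ f, τ σ * β f = β (fun i => f (σ.symm i)) * τ σ)
    (T₀ : Subgroup (Equiv.Perm (Fin k))) (hT₀ : Good 2 T₀) (hΘτ : ∀ σ ∈ T₀, Θ (τ σ) = 1)
    (Z : Subgroup G) (hZ1 : ∀ z ∈ Z, z * z = 1) (hZβ : ∀ z ∈ Z, ∀ f, z * β f = β f * z)
    (hZτ : ∀ z ∈ Z, ∀ σ, z * τ σ = τ σ * z)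
    (S : Subgroup G)
    (hS : ∀ x, x ∈ S ↔ ∃ f ∈ Subgroup.pi Set.univ (fun _ : Fin k => D), ∃ σ ∈ T₀, ∃ z ∈ Z,
      x = β f * τ σ * z) :
    Good 2 (S ⊓ Θ.ker) := by
  classical
  obtain ⟨K, hK⟩ : ∃ K : Subgroup G, K = S ⊓ Θ.ker := ⟨_, rfl⟩
  rw [← hK, good_iff_le_gk]
  have hKmem : ∀ x, x ∈ K ↔ x ∈ S ∧ Θ x = 1 := by
    intro x
    rw [hK]
    exact ⟨fun h => ⟨h.1, MonoidHom.mem_ker.1 h.2⟩, fun h => ⟨h.1, MonoidHom.mem_ker.2 h.2⟩⟩
  have hnormK : ∀ x ∈ S, ∀ y ∈ K, x * y * x⁻¹ ∈ K := by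
    intro x hx y hy
    rw [hKmem] at hy ⊢
    refine ⟨S.mul_mem (S.mul_mem hx hy.1) (S.inv_mem hx), ?_⟩
    rw [map_mul, map_mul, map_inv, hy.2, mul_one, mul_inv_cancel]
  have hconj := gk_conj hnormK
  have hβS : ∀ f ∈ Subgroup.pi Set.univ (fun _ : Fin k => D), β f ∈ S := by
    intro f hf
    rw [hS]
    exact ⟨f, hf, 1, T₀.one_mem, 1, Z.one_mem, by simp⟩
  have hτS : ∀ σ ∈ T₀, τ σ ∈ S := by
    intro σ hσ
    rw [hS]
    exact ⟨1, Subgroup.one_mem _, σ, hσ, 1, Z.one_mem, by simp⟩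
  have hR4 : ∀ y ∈ K, y * y = 1 → y ∈ gk 2 K := by
    intro y hy hy2
    exact mem_gk.2 ⟨hy, by rw [pow_two, hy2]; exact Subgroup.one_mem _⟩
  obtain ⟨i0, i1, h01⟩ : ∃ i0 i1 : Fin k, i0 ≠ i1 :=
    ⟨⟨0, by omega⟩, ⟨1, by omega⟩, by simp [Fin.ext_iff]⟩
  have hpair_mem : ∀ (i j : Fin k), i ≠ j → ∀ a ∈ D, ∀ b ∈ D,
      (Pi.mulSingle i a * Pi.mulSingle j b : Fin k → H) ∈
        Subgroup.pi Set.univ (fun _ : Fin k => D) := by
    intro i j hij a ha b hb l _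
    rw [pair_apply i j hij]
    split_ifs
    · exact ha
    · exact hb
    · exact D.one_mem
  have hΘpos : ∀ (i j : Fin k) (d : H),
      Θ (β (Pi.mulSingle i d)) = Θ (β (Pi.mulSingle j d)) := by
    intro i j d
    have h1 := hτβ (Equiv.swap i j) (Pi.mulSingle i d)
    have h2 : (fun l => (Pi.mulSingle i d : Fin k → H) ((Equiv.swap i j).symm l)) =
        Pi.mulSingle j d := by
      funext l
      rw [Equiv.symm_swap]
      by_cases hl : l = j
      · subst hl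
        rw [Equiv.swap_apply_right, Pi.mulSingle_eq_same, Pi.mulSingle_eq_same]
      · rw [Pi.mulSingle_eq_of_ne hl]
        apply Pi.mulSingle_eq_of_ne
        intro h3
        apply hl
        have h4 := congrArg (Equiv.swap i j) h3
        rw [Equiv.swap_apply_self, Equiv.swap_apply_left] at h4
        exact h4
    rw [h2] at h1
    have h3 := congrArg Θ h1
    rw [map_mul, map_mul, mul_comm (Θ (β (Pi.mulSingle j d)))] at h3
    exact mul_left_cancel h3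
  have hpairK : ∀ s ∈ D, ∀ i j : Fin k, i ≠ j →
      β (Pi.mulSingle i s * Pi.mulSingle j s) ∈ K := by
    intro s hs i j hij
    rw [hKmem]
    refine ⟨hβS _ (hpair_mem i j hij s hs s hs), ?_⟩
    rw [map_mul, map_mul, hΘpos i j s, hA]
  have hR2 : ∀ s ∈ D, ν s ≠ 1 → ∀ i j : Fin k, i ≠ j →
      β (Pi.mulSingle i s * Pi.mulSingle j s) ∈ gk 2 K := by
    intro s hs hνs' i j hij
    apply hR4 _ (hpairK s hs i j hij)
    rw [← map_mul, pair_mul i j hij, hD1 s hs hνs', pair_one, map_one]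
  have hs₁2 : s₁ * s₁ = 1 := hD1 s₁ hs₁ hνs
  have hs₁inv : s₁⁻¹ = s₁ := inv_eq_of_mul_eq_one_left hs₁2
  have hinv : ∀ c ∈ D, ν c = 1 → s₁ * c⁻¹ * s₁⁻¹ = c := by
    intro c hc hνc
    have h1 : ν (s₁ * c) ≠ 1 := by
      rw [map_mul, hνc, mul_one]; exact hνs
    have h2 := hD1 (s₁ * c) (D.mul_mem hs₁ hc) h1
    rw [hs₁inv]
    have h3 : s₁ * c⁻¹ * s₁ = (s₁ * c * s₁)⁻¹ := by
      rw [mul_inv_rev, mul_inv_rev, hs₁inv, mul_assoc]
    have h4 : s₁ * c * s₁ = c⁻¹ := by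
      apply eq_inv_of_mul_eq_one_left
      rw [mul_assoc (s₁ * c) s₁ c]
      exact h2
    rw [h3, h4, inv_inv]
  have hsq : ∀ (i j : Fin k), i ≠ j → ∀ a ∈ D, ∀ b ∈ D,
      s₁ * a⁻¹ * s₁⁻¹ = a → s₁ * b⁻¹ * s₁⁻¹ = b →
      β (Pi.mulSingle i a * Pi.mulSingle j b) ∈ K →
      β (Pi.mulSingle i a * Pi.mulSingle j b) ∈ gk 2 K := by
    intro i j hij a ha b hb haa hbb hx
    refine mem_gk.2 ⟨hx, ?_⟩
    have hconjY : β (Pi.mulSingle i s₁ * Pi.mulSingle j s₁) *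
        (β (Pi.mulSingle i a * Pi.mulSingle j b))⁻¹ *
        (β (Pi.mulSingle i s₁ * Pi.mulSingle j s₁))⁻¹ = β (Pi.mulSingle i a * Pi.mulSingle j b) := by
      rw [← map_inv, ← map_inv, ← map_mul, ← map_mul, pair_inv i j hij, pair_inv i j hij,
        pair_mul i j hij, pair_mul i j hij, haa, hbb]
    have h1 : β (Pi.mulSingle i a * Pi.mulSingle j b) ^ 2 =
        ⁅β (Pi.mulSingle i a * Pi.mulSingle j b), β (Pi.mulSingle i s₁ * Pi.mulSingle j s₁)⁆ := by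
      rw [commutatorElement_def, pow_two, mul_assoc, mul_assoc]
      congr 1
      rw [← mul_assoc]
      exact hconjY.symm
    rw [h1]
    exact Subgroup.commutator_mem_commutator hx (hpairK s₁ hs₁ i j hij)
  have hR1 : ∀ c ∈ D, ν c = 1 → ∀ i j : Fin k, i ≠ j →
      β (Pi.mulSingle i c * Pi.mulSingle j c⁻¹) ∈ gk 2 K := by
    intro c hc hνc i j hij
    apply hsq i j hij c hc c⁻¹ (D.inv_mem hc) (hinv c hc hνc)
      (hinv c⁻¹ (D.inv_mem hc) (by rw [map_inv, hνc, inv_one]))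
    rw [hKmem]
    refine ⟨hβS _ (hpair_mem i j hij c hc c⁻¹ (D.inv_mem hc)), ?_⟩
    rw [map_mul, map_mul, Pi.mulSingle_inv, map_inv, map_inv, hΘpos i j c, mul_inv_cancel]
  -- reduction to position `i0`
  have hred : ∀ i : Fin k, ∀ d ∈ D, ∃ n ∈ gk 2 K, β (Pi.mulSingle i d) = n * β (Pi.mulSingle i0 d) := by
    intro i d hd
    by_cases hi : i = i0
    · subst hi
      exact ⟨1, Subgroup.one_mem _, (one_mul _).symm⟩
    · have hsplit : β (Pi.mulSingle i d) =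
          β (Pi.mulSingle i d * Pi.mulSingle i0 d⁻¹) * β (Pi.mulSingle i0 d) := by
        rw [← map_mul, mul_assoc, ← Pi.mulSingle_mul, inv_mul_cancel, Pi.mulSingle_one, mul_one]
      by_cases hνd : ν d = 1
      · exact ⟨_, hR1 d hd hνd i i0 hi, hsplit⟩
      · have hdinv : d⁻¹ = d := inv_eq_of_mul_eq_one_left (hD1 d hd hνd)
        refine ⟨_, hR2 d hd hνd i i0 hi, ?_⟩
        rw [hdinv] at hsplit
        exact hsplit
  have hn0 : ∀ t ∈ D.map (β.comp (MonoidHom.mulSingle (fun _ : Fin k => H) i0)),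
      ∀ b ∈ gk 2 K, t * b * t⁻¹ ∈ gk 2 K := by
    rintro _ ⟨d, hd, rfl⟩ b hb
    apply hconj _ _ b hb
    apply hβS
    intro l _
    show (Pi.mulSingle i0 d : Fin k → H) l ∈ D
    by_cases hl : l = i0
    · subst hl; rw [Pi.mulSingle_eq_same]; exact hd
    · rw [Pi.mulSingle_eq_of_ne hl]; exact D.one_mem
  have hR : ∀ f ∈ Subgroup.pi Set.univ (fun _ : Fin k => D),
      ∃ n ∈ gk 2 K, ∃ d ∈ D, β f = n * β (Pi.mulSingle i0 d) := by
    intro f hf
    have h1 : f ∈ (prodSub (gk 2 K)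
        (D.map (β.comp (MonoidHom.mulSingle (fun _ : Fin k => H) i0))) hn0).comap β := by
      apply Subgroup.pi_mem_of_mulSingle_mem
      intro i
      obtain ⟨n, hn, hnd⟩ := hred i (f i) (hf i (Set.mem_univ i))
      exact ⟨n, hn, _, ⟨f i, hf i (Set.mem_univ i), rfl⟩, hnd⟩
    obtain ⟨n, hn, _, ⟨d, hd, rfl⟩, hx⟩ := h1
    exact ⟨n, hn, d, hd, hx⟩
  -- main
  intro x hx
  have hxS := ((hKmem x).1 hx).1
  rw [hS] at hxS
  obtain ⟨f, hf, σ, hσ, z, hz, rfl⟩ := hxS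
  have hτgk : τ σ ∈ gk 2 K := by
    have h1 : T₀.map τ ≤ K := by
      rintro _ ⟨ρ, hρ, rfl⟩
      rw [hKmem]
      exact ⟨hτS ρ hρ, hΘτ ρ hρ⟩
    exact le_gk_of_good h1 (good_map τ hT₀) ⟨σ, hσ, rfl⟩
  have hreorder : β f * τ σ * z = β f * z * τ σ := by
    rw [mul_assoc, mul_assoc, hZτ z hz σ]
  rw [hreorder]
  rw [hreorder] at hx
  have hτK : τ σ ∈ K := (mem_gk.1 hτgk).1
  have hfz : β f * z ∈ K := by
    have h1 : β f * z = β f * z * τ σ * (τ σ)⁻¹ := by group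
    rw [h1]
    exact K.mul_mem hx (K.inv_mem hτK)
  obtain ⟨n, hn, d, hd, hfd⟩ := hR f hf
  have hnK : n ∈ K := (mem_gk.1 hn).1
  have hyK : β (Pi.mulSingle i0 d) * z ∈ K := by
    have h1 : β (Pi.mulSingle i0 d) * z = n⁻¹ * (β f * z) := by
      rw [hfd]; group
    rw [h1]
    exact K.mul_mem (K.inv_mem hnK) hfz
  have hy : β (Pi.mulSingle i0 d) * z ∈ gk 2 K := by
    by_cases hνd : ν d = 1
    · -- rotation
      have hw := hR2 s₁ hs₁ hνs i0 i1 h01
      have hwK : β (Pi.mulSingle i0 s₁ * Pi.mulSingle i1 s₁) ∈ K := (mem_gk.1 hw).1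
      have hds : ν (d * s₁) ≠ 1 := by
        rw [map_mul, hνd, one_mul]; exact hνs
      have hds2 := hD1 (d * s₁) (D.mul_mem hd hs₁) hds
      have hy' : β (Pi.mulSingle i0 d) * z * β (Pi.mulSingle i0 s₁ * Pi.mulSingle i1 s₁) =
          β (Pi.mulSingle i0 (d * s₁) * Pi.mulSingle i1 s₁) * z := by
        rw [mul_assoc, hZβ z hz, ← mul_assoc, ← map_mul]
        congr 2
        have h1 : (Pi.mulSingle i0 d : Fin k → H) = Pi.mulSingle i0 d * Pi.mulSingle i1 1 := by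
          rw [Pi.mulSingle_one, mul_one]
        rw [h1, pair_mul i0 i1 h01, one_mul]
      have hy'K : β (Pi.mulSingle i0 (d * s₁) * Pi.mulSingle i1 s₁) * z ∈ K := by
        rw [← hy']
        exact K.mul_mem hyK hwK
      have hy'2 : β (Pi.mulSingle i0 (d * s₁) * Pi.mulSingle i1 s₁) * z *
          (β (Pi.mulSingle i0 (d * s₁) * Pi.mulSingle i1 s₁) * z) = 1 := by
        rw [mul_assoc, ← mul_assoc z, hZβ z hz, mul_assoc, hZ1 z hz, mul_one, ← map_mul,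
          pair_mul i0 i1 h01, hds2, hs₁2, pair_one, map_one]
      have hy'gk := hR4 _ hy'K hy'2
      have h2 : β (Pi.mulSingle i0 d) * z =
          β (Pi.mulSingle i0 (d * s₁) * Pi.mulSingle i1 s₁) * z *
            (β (Pi.mulSingle i0 s₁ * Pi.mulSingle i1 s₁))⁻¹ := by
        rw [← hy']; group
      rw [h2]
      exact Subgroup.mul_mem _ hy'gk (Subgroup.inv_mem _ hw)
    · apply hR4 _ hyK
      rw [mul_assoc, ← mul_assoc z, hZβ z hz, mul_assoc, hZ1 z hz, mul_one, ← map_mul,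
        ← Pi.mulSingle_mul, hD1 d hd hνd, Pi.mulSingle_one, map_one]
  have hfinal : β f * z * τ σ = n * (β (Pi.mulSingle i0 d) * z) * τ σ := by
    rw [hfd]; group
  rw [hfinal]
  exact Subgroup.mul_mem _ (Subgroup.mul_mem _ hn hy) hτgk

end abstract

section normal
variable {G : Type*} [Group G] [Finite G]

/-- Sylow subgroups of a normal subgroup `N`: if `S ⊓ N` is good for one Sylow `S` of `G`,
every Sylow subgroup of `N` is good. -/
theorem good_sylow_of_normal (N : Subgroup G) [N.Normal] (S : Sylow 2 G)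
    (hS : Good 2 ((S : Subgroup G) ⊓ N)) (P : Sylow 2 N) :
    Good 2 (P : Subgroup N) := by
  classical
  obtain ⟨K, hK⟩ : ∃ K : Subgroup G, K = (S : Subgroup G) ⊓ N := ⟨_, rfl⟩
  rw [← hK] at hS
  have hι : Function.Injective N.subtype := Subgroup.subtype_injective N
  obtain ⟨PG, hPG⟩ := (IsPGroup.map P.isPGroup' N.subtype).exists_le_sylow
  obtain ⟨g, hg⟩ := MulAction.exists_smul_eq G S PG
  have hle : (P : Subgroup N).map N.subtype ≤ K.map (MulAut.conj g).toMonoidHom := by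
    rintro _ ⟨A, hA, rfl⟩
    have h1 : N.subtype A ∈ (PG : Subgroup G) := hPG ⟨A, hA, rfl⟩
    rw [← hg, Sylow.coe_subgroup_smul, Subgroup.pointwise_smul_def] at h1
    obtain ⟨s, hs, hsA⟩ := h1
    refine ⟨s, ?_, hsA⟩
    have h2 : s = g⁻¹ * N.subtype A * g := by
      rw [← hsA]
      show s = g⁻¹ * (g * s * g⁻¹) * g
      group
    rw [hK]
    refine ⟨hs, ?_⟩
    rw [h2]
    have h3 := Subgroup.Normal.conj_mem (inferInstance : N.Normal) (N.subtype A) A.2 g⁻¹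
    rwa [inv_inv] at h3
  have hKp : IsPGroup 2 K := S.isPGroup'.to_le (hK ▸ inf_le_left)
  have hKr : K ≤ N.subtype.range := by
    intro x hx
    rw [hK] at hx
    exact ⟨⟨x, hx.2⟩, rfl⟩
  have hmap : (K.comap N.subtype).map N.subtype = K := Subgroup.map_comap_eq_self hKr
  have hcK : Nat.card (K.comap N.subtype) = Nat.card K := by
    conv_rhs => rw [← hmap]
    rw [Subgroup.card_map_of_injective hι]
  obtain ⟨P₂, hP₂⟩ := (hKp.comap_of_injective N.subtype hι).exists_le_sylow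
  have hc : Nat.card K ≤ Nat.card P := by
    rw [← hcK, Sylow.card_eq_multiplicity P, ← Sylow.card_eq_multiplicity P₂]
    exact Subgroup.card_le_of_le hP₂
  have heq : (P : Subgroup N).map N.subtype = K.map (MulAut.conj g).toMonoidHom :=
    Subgroup.eq_of_le_of_card_ge hle (by
      rw [Subgroup.card_map_of_injective hι,
        Subgroup.card_map_of_injective (MulAut.conj g).injective]
      exact hc)
  apply good_of_map N.subtype hι
  rw [heq]
  exact good_map _ hS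

end normal

end Cfsg.Agent.Lib.Helper1.SylOr
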