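import Mathlib
import Cfsg.Agent.Lib.Helper1.SylOrA
import Cfsg.Agent.Lib.Helper15.CartanD
import Cfsg.Agent.Lib.Helper15.StdForms

/-!
The diagonal model form `Σ_i (x_i² + y_i²) + Σ_j e_j z_j²` on `(Fin k ⊕ Fin k) ⊕ Fin r`:
plane group `O₂`, block embeddings, block permutations, sign changes.
-/

namespace Cfsg.Agent.Lib.Helper1.SylOr

open Cfsg.Agent.Lib.Helper1.SylSym Cfsg.Agent.Lib.Helper1.SylSp Cfsg.Agent.Lib.Helper1.SylSl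
open Cfsg.Agent.Lib.Helper15.Spinor

section model
variable {F : Type*} [Field F]

/-- weights of the model form -/
def wtM (k r : ℕ) (e : Fin r → F) : (Fin k ⊕ Fin k) ⊕ Fin r → F := Sum.elim (fun _ => 1) e

/-- the model form -/
noncomputable def QM (k r : ℕ) (e : Fin r → F) :
    QuadraticForm F ((Fin k ⊕ Fin k) ⊕ Fin r → F) :=
  QuadraticMap.weightedSumSquares F (wtM k r e)

lemma QM_apply (k r : ℕ) (e : Fin r → F) (w : (Fin k ⊕ Fin k) ⊕ Fin r → F) :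
    QM k r e w = (∑ i : Fin k, (w (Sum.inl (Sum.inl i)) ^ 2 + w (Sum.inl (Sum.inr i)) ^ 2)) +
      ∑ j : Fin r, e j * w (Sum.inr j) ^ 2 := by
  unfold QM
  rw [QuadraticMap.weightedSumSquares_apply, Fintype.sum_sum_type, Fintype.sum_sum_type,
    Finset.sum_add_distrib]
  simp [wtM, pow_two]

lemma QM_polar (k r : ℕ) (e : Fin r → F) (x y : (Fin k ⊕ Fin k) ⊕ Fin r → F) :
    QuadraticMap.polar ⇑(QM k r e) x y = ∑ l, wtM k r e l * (2 * x l * y l) := by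
  unfold QuadraticMap.polar QM
  rw [QuadraticMap.weightedSumSquares_apply, QuadraticMap.weightedSumSquares_apply,
    QuadraticMap.weightedSumSquares_apply, ← Finset.sum_sub_distrib, ← Finset.sum_sub_distrib]
  apply Finset.sum_congr rfl
  intro l _
  simp only [Pi.add_apply, smul_eq_mul]
  ring

lemma QM_nondeg (h2 : (2 : F) ≠ 0) (k r : ℕ) (e : Fin r → F) (he : ∀ j, e j ≠ 0) :
    (QuadraticMap.polarBilin (QM k r e)).Nondegenerate := by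
  classical
  apply Cfsg.Agent.Lib.Helper15.StdForms.nondeg_of_sep
  intro x hx
  funext l
  have h1 := hx (Pi.single l 1)
  rw [QM_polar, Finset.sum_eq_single l] at h1
  · rw [Pi.single_eq_same, mul_one] at h1
    have hw : wtM k r e l ≠ 0 := by
      rcases l with l | l
      · simp [wtM]
      · simpa [wtM] using he l
    rcases mul_eq_zero.1 h1 with h | h
    · exact absurd h hw
    · rcases mul_eq_zero.1 h with h | h
      · exact absurd h h2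
      · exact h
  · intro l' _ hl'
    rw [Pi.single_eq_of_ne hl', mul_zero, mul_zero]
  · intro h; exact absurd (Finset.mem_univ l) h

/-- the plane form `x² + y²` -/
noncomputable def Q2 : QuadraticForm F (Fin 1 ⊕ Fin 1 → F) :=
  QuadraticMap.weightedSumSquares F (fun _ => (1 : F))

lemma Q2_apply (v : Fin 1 ⊕ Fin 1 → F) :
    Q2 v = v (Sum.inl 0) ^ 2 + v (Sum.inr 0) ^ 2 := by
  unfold Q2
  rw [QuadraticMap.weightedSumSquares_apply, Fintype.sum_sum_type]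
  simp [pow_two]

lemma Q2_mulVec (M : Matrix (Fin 1 ⊕ Fin 1) (Fin 1 ⊕ Fin 1) F) (v : Fin 1 ⊕ Fin 1 → F) :
    Q2 (M.mulVec v) =
      (M (Sum.inl 0) (Sum.inl 0) * v (Sum.inl 0) + M (Sum.inl 0) (Sum.inr 0) * v (Sum.inr 0)) ^ 2 +
      (M (Sum.inr 0) (Sum.inl 0) * v (Sum.inl 0) + M (Sum.inr 0) (Sum.inr 0) * v (Sum.inr 0)) ^ 2 := by
  rw [Q2_apply]
  simp [Matrix.mulVec, dotProduct, Fintype.sum_sum_type]

/-- the plane orthogonal group -/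
noncomputable def O2 (F : Type*) [Field F] : Subgroup (GL (Fin 1 ⊕ Fin 1) F) :=
  Cfsg.isometryGroup F ⇑(Q2 (F := F))

lemma mem_O2 (g : GL (Fin 1 ⊕ Fin 1) F) :
    g ∈ O2 F ↔ ∀ p q : F,
      ((g : Matrix (Fin 1 ⊕ Fin 1) (Fin 1 ⊕ Fin 1) F) (Sum.inl 0) (Sum.inl 0) * p +
        (g : Matrix (Fin 1 ⊕ Fin 1) (Fin 1 ⊕ Fin 1) F) (Sum.inl 0) (Sum.inr 0) * q) ^ 2 +
      ((g : Matrix (Fin 1 ⊕ Fin 1) (Fin 1 ⊕ Fin 1) F) (Sum.inr 0) (Sum.inl 0) * p +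
        (g : Matrix (Fin 1 ⊕ Fin 1) (Fin 1 ⊕ Fin 1) F) (Sum.inr 0) (Sum.inr 0) * q) ^ 2 =
      p ^ 2 + q ^ 2 := by
  unfold O2
  rw [mem_iso]
  constructor
  · intro h p q
    have h1 := h (Sum.elim (fun _ => p) (fun _ => q))
    rw [Q2_mulVec, Q2_apply] at h1
    exact h1
  · intro h v
    rw [Q2_mulVec, Q2_apply]
    exact h _ _

lemma O2_rel (h2 : (2 : F) ≠ 0) (g : GL (Fin 1 ⊕ Fin 1) F) (hg : g ∈ O2 F) :
    (g : Matrix (Fin 1 ⊕ Fin 1) (Fin 1 ⊕ Fin 1) F) (Sum.inl 0) (Sum.inl 0) ^ 2 +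
      (g : Matrix (Fin 1 ⊕ Fin 1) (Fin 1 ⊕ Fin 1) F) (Sum.inr 0) (Sum.inl 0) ^ 2 = 1 ∧
    (g : Matrix (Fin 1 ⊕ Fin 1) (Fin 1 ⊕ Fin 1) F) (Sum.inl 0) (Sum.inr 0) ^ 2 +
      (g : Matrix (Fin 1 ⊕ Fin 1) (Fin 1 ⊕ Fin 1) F) (Sum.inr 0) (Sum.inr 0) ^ 2 = 1 ∧
    (g : Matrix (Fin 1 ⊕ Fin 1) (Fin 1 ⊕ Fin 1) F) (Sum.inl 0) (Sum.inl 0) *
      (g : Matrix (Fin 1 ⊕ Fin 1) (Fin 1 ⊕ Fin 1) F) (Sum.inl 0) (Sum.inr 0) +
    (g : Matrix (Fin 1 ⊕ Fin 1) (Fin 1 ⊕ Fin 1) F) (Sum.inr 0) (Sum.inl 0) *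
      (g : Matrix (Fin 1 ⊕ Fin 1) (Fin 1 ⊕ Fin 1) F) (Sum.inr 0) (Sum.inr 0) = 0 := by
  rw [mem_O2] at hg
  have h10 := hg 1 0
  have h01 := hg 0 1
  have h11 := hg 1 1
  refine ⟨by linear_combination h10, by linear_combination h01, ?_⟩
  have h3 : (2 : F) * ((g : Matrix (Fin 1 ⊕ Fin 1) (Fin 1 ⊕ Fin 1) F) (Sum.inl 0) (Sum.inl 0) *
      (g : Matrix (Fin 1 ⊕ Fin 1) (Fin 1 ⊕ Fin 1) F) (Sum.inl 0) (Sum.inr 0) +
    (g : Matrix (Fin 1 ⊕ Fin 1) (Fin 1 ⊕ Fin 1) F) (Sum.inr 0) (Sum.inl 0) *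
      (g : Matrix (Fin 1 ⊕ Fin 1) (Fin 1 ⊕ Fin 1) F) (Sum.inr 0) (Sum.inr 0)) = 0 := by
    linear_combination h11 - h10 - h01
  rcases mul_eq_zero.1 h3 with h | h
  · exact absurd h h2
  · exact h

lemma O2_key_det (a b c d : F) (h1 : a ^ 2 + c ^ 2 = 1) (h2 : b ^ 2 + d ^ 2 = 1)
    (h3 : a * b + c * d = 0) : (a * d - c * b) * (a * d - c * b) = 1 := by
  have h : (a * d - c * b) * (a * d - c * b) =
      (a ^ 2 + c ^ 2) * (b ^ 2 + d ^ 2) - (a * b + c * d) ^ 2 := by ring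
  rw [h, h1, h2, h3]
  ring

lemma O2_key_refl (a b c d : F) (h1 : a ^ 2 + c ^ 2 = 1)
    (h3 : a * b + c * d = 0) (hd : a * d - c * b = -1) : d = -a ∧ b = c := by
  constructor
  · linear_combination c * h3 - d * h1 + a * hd
  · linear_combination a * h3 - b * h1 - c * hd

lemma O2_det (h2 : (2 : F) ≠ 0) (g : GL (Fin 1 ⊕ Fin 1) F) (hg : g ∈ O2 F) :
    det2 (g : Matrix (Fin 1 ⊕ Fin 1) (Fin 1 ⊕ Fin 1) F) = 1 ∨
      det2 (g : Matrix (Fin 1 ⊕ Fin 1) (Fin 1 ⊕ Fin 1) F) = -1 := by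
  obtain ⟨h1, h2', h3⟩ := O2_rel h2 g hg
  apply mul_self_eq_one_iff.1
  exact O2_key_det _ _ _ _ h1 h2' h3

lemma O2_refl_sq (h2 : (2 : F) ≠ 0) (g : GL (Fin 1 ⊕ Fin 1) F) (hg : g ∈ O2 F)
    (hdet : det2 (g : Matrix (Fin 1 ⊕ Fin 1) (Fin 1 ⊕ Fin 1) F) ≠ 1) : g * g = 1 := by
  obtain ⟨h1, h2', h3⟩ := O2_rel h2 g hg
  have hd : det2 (g : Matrix (Fin 1 ⊕ Fin 1) (Fin 1 ⊕ Fin 1) F) = -1 := by
    rcases O2_det h2 g hg with h | h
    · exact absurd h hdet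
    · exact h
  obtain ⟨e1, e2⟩ := O2_key_refl _ _ _ _ h1 h3 hd
  apply Units.ext
  rw [Units.val_mul, eq_mk2 (g : Matrix (Fin 1 ⊕ Fin 1) (Fin 1 ⊕ Fin 1) F),
    mk2_mul, Units.val_one, one_eq_mk2]
  apply mk2_congr
  · rw [e2]; linear_combination h1
  · rw [e1]; ring
  · rw [e1]; ring
  · rw [e1, e2]; linear_combination h1

end model

end Cfsg.Agent.Lib.Helper1.SylOr
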