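import Mathlib
import Cfsg.Agent.Lib.Helper1.SylOrB

/-!
Homomorphisms into the isometry group of the model form and their relations.
-/

namespace Cfsg.Agent.Lib.Helper1.SylOr

open Cfsg.Agent.Lib.Helper1.SylSym Cfsg.Agent.Lib.Helper1.SylSp Cfsg.Agent.Lib.Helper1.SylSl
open Cfsg.Agent.Lib.Helper15.Spinor

section emb
variable {F : Type*} [Field F]

/-- upper-left block embedding -/
def embL (k r : ℕ) : GL (Fin k ⊕ Fin k) F →* GL ((Fin k ⊕ Fin k) ⊕ Fin r) F :=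
  MonoidHom.toHomUnits
    { toFun := fun g => Matrix.fromBlocks (g : Matrix (Fin k ⊕ Fin k) (Fin k ⊕ Fin k) F) 0 0 1
      map_one' := Matrix.fromBlocks_one
      map_mul' := fun g h => by simp [Matrix.fromBlocks_multiply] }

lemma embL_coe (k r : ℕ) (g : GL (Fin k ⊕ Fin k) F) :
    ((embL k r g : GL ((Fin k ⊕ Fin k) ⊕ Fin r) F) :
      Matrix ((Fin k ⊕ Fin k) ⊕ Fin r) ((Fin k ⊕ Fin k) ⊕ Fin r) F) =
      Matrix.fromBlocks (g : Matrix (Fin k ⊕ Fin k) (Fin k ⊕ Fin k) F) 0 0 1 := rfl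

lemma embL_injective (k r : ℕ) : Function.Injective (embL (F := F) k r) := by
  intro g h hgh
  have h1 := congrArg Units.val hgh
  rw [embL_coe, embL_coe, Matrix.fromBlocks_inj] at h1
  exact Units.ext h1.1

/-- lower-right block embedding -/
def embR (k r : ℕ) : GL (Fin r) F →* GL ((Fin k ⊕ Fin k) ⊕ Fin r) F :=
  MonoidHom.toHomUnits
    { toFun := fun g => Matrix.fromBlocks 1 0 0 (g : Matrix (Fin r) (Fin r) F)
      map_one' := Matrix.fromBlocks_one
      map_mul' := fun g h => by simp [Matrix.fromBlocks_multiply] }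

lemma embR_coe (k r : ℕ) (g : GL (Fin r) F) :
    ((embR k r g : GL ((Fin k ⊕ Fin k) ⊕ Fin r) F) :
      Matrix ((Fin k ⊕ Fin k) ⊕ Fin r) ((Fin k ⊕ Fin k) ⊕ Fin r) F) =
      Matrix.fromBlocks 1 0 0 (g : Matrix (Fin r) (Fin r) F) := rfl

lemma embR_injective (k r : ℕ) : Function.Injective (embR (F := F) k r) := by
  intro g h hgh
  have h1 := congrArg Units.val hgh
  rw [embR_coe, embR_coe, Matrix.fromBlocks_inj] at h1
  exact Units.ext h1.2.2.2

lemma embL_embR_comm (k r : ℕ) (g : GL (Fin k ⊕ Fin k) F) (h : GL (Fin r) F) :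
    embL k r g * embR k r h = embR k r h * embL k r g := by
  apply Units.ext
  rw [Units.val_mul, Units.val_mul, embL_coe, embR_coe, Matrix.fromBlocks_multiply,
    Matrix.fromBlocks_multiply]
  simp

lemma embL_eq_embR (k r : ℕ) (g : GL (Fin k ⊕ Fin k) F) (h : GL (Fin r) F)
    (hgh : embL k r g = embR k r h) : g = 1 ∧ h = 1 := by
  have h1 := congrArg Units.val hgh
  rw [embL_coe, embR_coe, Matrix.fromBlocks_inj] at h1
  exact ⟨Units.ext h1.1, Units.ext h1.2.2.2.symm⟩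

/-- permutation pair at `GL` level -/
def pi2G (k : ℕ) : Equiv.Perm (Fin k) × Equiv.Perm (Fin k) →* GL (Fin k ⊕ Fin k) F :=
  MonoidHom.toHomUnits
    { toFun := fun p => Matrix.fromBlocks (pmat k p.1) 0 0 (pmat k p.2)
      map_one' := by
        show Matrix.fromBlocks (pmat k 1) 0 0 (pmat k 1) = 1
        rw [pmat_one, Matrix.fromBlocks_one]
      map_mul' := fun p q => by
        show Matrix.fromBlocks (pmat k (p.1 * q.1)) 0 0 (pmat k (p.2 * q.2)) =
          Matrix.fromBlocks (pmat k p.1) 0 0 (pmat k p.2) *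
            Matrix.fromBlocks (pmat k q.1) 0 0 (pmat k q.2)
        rw [pmat_mul, pmat_mul, Matrix.fromBlocks_multiply]
        simp }

lemma pi2G_coe (k : ℕ) (p : Equiv.Perm (Fin k) × Equiv.Perm (Fin k)) :
    ((pi2G k p : GL (Fin k ⊕ Fin k) F) : Matrix (Fin k ⊕ Fin k) (Fin k ⊕ Fin k) F) =
      Matrix.fromBlocks (pmat k p.1) 0 0 (pmat k p.2) := rfl

lemma pi2G_diag (k : ℕ) (σ : Equiv.Perm (Fin k)) : pi2G (F := F) k (σ, σ) = tauG k σ :=
  Units.ext rfl

/-- sign-diagonal at `GL` level -/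
def sgnG (r : ℕ) : (Fin r → ℤˣ) →* GL (Fin r) F :=
  MonoidHom.toHomUnits
    { toFun := fun ε => Matrix.diagonal (fun j => (((ε j : ℤˣ) : ℤ) : F))
      map_one' := by simp
      map_mul' := fun ε ε' => by simp [Matrix.diagonal_mul_diagonal] }

lemma sgnG_coe (r : ℕ) (ε : Fin r → ℤˣ) :
    ((sgnG r ε : GL (Fin r) F) : Matrix (Fin r) (Fin r) F) =
      Matrix.diagonal (fun j => (((ε j : ℤˣ) : ℤ) : F)) := rfl

lemma sgnG_injective (h2 : (2 : F) ≠ 0) (r : ℕ) : Function.Injective (sgnG (F := F) r) := by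
  intro ε ε' h
  have h1 := congrArg Units.val h
  rw [sgnG_coe, sgnG_coe] at h1
  funext j
  have h3 := congrFun (Matrix.diagonal_injective h1) j
  rcases Int.units_eq_one_or (ε j) with ha | ha <;> rcases Int.units_eq_one_or (ε' j) with hb | hb
  · rw [ha, hb]
  · exfalso
    rw [ha, hb] at h3
    apply h2
    have h4 : (1 : F) = -1 := by simpa using h3
    linear_combination h4
  · exfalso
    rw [ha, hb] at h3
    apply h2
    have h4 : (-1 : F) = 1 := by simpa using h3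
    linear_combination -h4
  · rw [ha, hb]

lemma fb_mulVec_inl {α β : Type*} [Fintype α] [Fintype β] [DecidableEq α] [DecidableEq β]
    (A : Matrix α α F) (D : Matrix β β F) (w : α ⊕ β → F) (x : α) :
    (Matrix.fromBlocks A 0 0 D).mulVec w (Sum.inl x) = A.mulVec (fun y => w (Sum.inl y)) x := by
  simp [Matrix.mulVec, dotProduct, Fintype.sum_sum_type]

lemma fb_mulVec_inr {α β : Type*} [Fintype α] [Fintype β] [DecidableEq α] [DecidableEq β]
    (A : Matrix α α F) (D : Matrix β β F) (w : α ⊕ β → F) (y : β) :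
    (Matrix.fromBlocks A 0 0 D).mulVec w (Sum.inr y) = D.mulVec (fun z => w (Sum.inr z)) y := by
  simp [Matrix.mulVec, dotProduct, Fintype.sum_sum_type]

lemma bm_mulVec_inl (k : ℕ) (f : Fin k → Matrix (Fin 1 ⊕ Fin 1) (Fin 1 ⊕ Fin 1) F)
    (y : Fin k ⊕ Fin k → F) (i : Fin k) :
    (bm k f).mulVec y (Sum.inl i) =
      f i (Sum.inl 0) (Sum.inl 0) * y (Sum.inl i) + f i (Sum.inl 0) (Sum.inr 0) * y (Sum.inr i) := by
  unfold bm
  simp [Matrix.mulVec, dotProduct, Fintype.sum_sum_type, Matrix.diagonal_apply]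

lemma bm_mulVec_inr (k : ℕ) (f : Fin k → Matrix (Fin 1 ⊕ Fin 1) (Fin 1 ⊕ Fin 1) F)
    (y : Fin k ⊕ Fin k → F) (i : Fin k) :
    (bm k f).mulVec y (Sum.inr i) =
      f i (Sum.inr 0) (Sum.inl 0) * y (Sum.inl i) + f i (Sum.inr 0) (Sum.inr 0) * y (Sum.inr i) := by
  unfold bm
  simp [Matrix.mulVec, dotProduct, Fintype.sum_sum_type, Matrix.diagonal_apply]

lemma pmat_mulVec (k : ℕ) (σ : Equiv.Perm (Fin k)) (y : Fin k → F) (i : Fin k) :
    (pmat k σ).mulVec y i = y (σ.symm i) := by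
  unfold pmat
  simp only [Matrix.mulVec, dotProduct, Matrix.of_apply]
  rw [Finset.sum_eq_single (σ.symm i)]
  · simp
  · intro j _ hj
    rw [if_neg, zero_mul]
    intro h
    apply hj
    rw [← h, Equiv.symm_apply_apply]
  · intro h; exact absurd (Finset.mem_univ _) h

lemma bm_flip (k : ℕ) : bm (F := F) k (fun _ => mk2 0 1 1 0) = Matrix.fromBlocks 0 1 1 0 := by
  unfold bm
  simp [mk2]

lemma beta_iso (k r : ℕ) (e : Fin r → F) (f : Fin k → GL (Fin 1 ⊕ Fin 1) F)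
    (hf : ∀ i, f i ∈ O2 F) :
    embL k r (betaG k f) ∈ Cfsg.isometryGroup F ⇑(QM k r e) := by
  rw [mem_iso]
  intro w
  rw [embL_coe, betaG_coe, QM_apply, QM_apply]
  congr 1
  · apply Finset.sum_congr rfl
    intro i _
    rw [fb_mulVec_inl, fb_mulVec_inl, bm_mulVec_inl, bm_mulVec_inr]
    exact (mem_O2 (f i)).1 (hf i) _ _
  · apply Finset.sum_congr rfl
    intro j _
    rw [fb_mulVec_inr, Matrix.one_mulVec]

lemma pi2_iso (k r : ℕ) (e : Fin r → F) (p : Equiv.Perm (Fin k) × Equiv.Perm (Fin k)) :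
    embL k r (pi2G k p) ∈ Cfsg.isometryGroup F ⇑(QM k r e) := by
  rw [mem_iso]
  intro w
  rw [embL_coe, pi2G_coe, QM_apply, QM_apply]
  congr 1
  · rw [Finset.sum_add_distrib, Finset.sum_add_distrib]
    congr 1
    · simp only [fb_mulVec_inl, pmat_mulVec]
      exact Equiv.sum_comp p.1.symm (fun i => w (Sum.inl (Sum.inl i)) ^ 2)
    · simp only [fb_mulVec_inl, fb_mulVec_inr, pmat_mulVec]
      exact Equiv.sum_comp p.2.symm (fun i => w (Sum.inl (Sum.inr i)) ^ 2)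
  · apply Finset.sum_congr rfl
    intro j _
    rw [fb_mulVec_inr, Matrix.one_mulVec]

lemma sgn_iso (k r : ℕ) (e : Fin r → F) (ε : Fin r → ℤˣ) :
    embR k r (sgnG r ε) ∈ Cfsg.isometryGroup F ⇑(QM k r e) := by
  rw [mem_iso]
  intro w
  rw [embR_coe, sgnG_coe, QM_apply, QM_apply]
  congr 1
  · apply Finset.sum_congr rfl
    intro i _
    rw [fb_mulVec_inl, fb_mulVec_inl, Matrix.one_mulVec]
  · apply Finset.sum_congr rfl
    intro j _
    rw [fb_mulVec_inr, Matrix.mulVec_diagonal, mul_pow]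
    have h1 : (((ε j : ℤˣ) : ℤ) : F) ^ 2 = 1 := by
      rcases Int.units_eq_one_or (ε j) with h | h <;> simp [h]
    rw [h1, one_mul]

/-- the model isometry group -/
noncomputable abbrev OM (k r : ℕ) (e : Fin r → F) :
    Subgroup (GL ((Fin k ⊕ Fin k) ⊕ Fin r) F) :=
  Cfsg.isometryGroup F ⇑(QM k r e)

/-- base group hom -/
noncomputable def betaM (k r : ℕ) (e : Fin r → F) : (Fin k → ↥(O2 F)) →* ↥(OM k r e) :=
  (((embL k r).comp (betaG k)).comp (MonoidHom.compLeft (O2 F).subtype (Fin k))).codRestrict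
    (OM k r e) (fun f => beta_iso k r e _ (fun i => (f i).2))

lemma betaM_coe (k r : ℕ) (e : Fin r → F) (f : Fin k → ↥(O2 F)) :
    ((betaM k r e f : ↥(OM k r e)) : GL ((Fin k ⊕ Fin k) ⊕ Fin r) F) =
      embL k r (betaG k (fun i => ((f i : ↥(O2 F)) : GL (Fin 1 ⊕ Fin 1) F))) := rfl

/-- pair of permutations -/
noncomputable def pi2M (k r : ℕ) (e : Fin r → F) :
    Equiv.Perm (Fin k) × Equiv.Perm (Fin k) →* ↥(OM k r e) :=
  ((embL k r).comp (pi2G k)).codRestrict (OM k r e) (fun p => pi2_iso k r e p)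

lemma pi2M_coe (k r : ℕ) (e : Fin r → F) (p : Equiv.Perm (Fin k) × Equiv.Perm (Fin k)) :
    ((pi2M k r e p : ↥(OM k r e)) : GL ((Fin k ⊕ Fin k) ⊕ Fin r) F) =
      embL k r (pi2G k p) := rfl

/-- top group hom -/
noncomputable def tauM (k r : ℕ) (e : Fin r → F) : Equiv.Perm (Fin k) →* ↥(OM k r e) :=
  (pi2M k r e).comp (MonoidHom.prod (MonoidHom.id _) (MonoidHom.id _))

lemma tauM_coe (k r : ℕ) (e : Fin r → F) (σ : Equiv.Perm (Fin k)) :
    ((tauM k r e σ : ↥(OM k r e)) : GL ((Fin k ⊕ Fin k) ⊕ Fin r) F) =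
      embL k r (tauG k σ) := by
  rw [← pi2G_diag]
  rfl

/-- sign changes on the leftover coordinates -/
noncomputable def zetaM (k r : ℕ) (e : Fin r → F) : (Fin r → ℤˣ) →* ↥(OM k r e) :=
  ((embR k r).comp (sgnG r)).codRestrict (OM k r e) (fun ε => sgn_iso k r e ε)

lemma zetaM_coe (k r : ℕ) (e : Fin r → F) (ε : Fin r → ℤˣ) :
    ((zetaM k r e ε : ↥(OM k r e)) : GL ((Fin k ⊕ Fin k) ⊕ Fin r) F) =
      embR k r (sgnG r ε) := rfl

lemma tauM_betaM (k r : ℕ) (e : Fin r → F) (σ : Equiv.Perm (Fin k)) (f : Fin k → ↥(O2 F)) :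
    tauM k r e σ * betaM k r e f = betaM k r e (fun i => f (σ.symm i)) * tauM k r e σ := by
  apply Subtype.ext
  rw [Subgroup.coe_mul, Subgroup.coe_mul, tauM_coe, betaM_coe, betaM_coe, ← map_mul, ← map_mul,
    tauG_betaG]

lemma zetaM_betaM (k r : ℕ) (e : Fin r → F) (ε : Fin r → ℤˣ) (f : Fin k → ↥(O2 F)) :
    zetaM k r e ε * betaM k r e f = betaM k r e f * zetaM k r e ε := by
  apply Subtype.ext
  rw [Subgroup.coe_mul, Subgroup.coe_mul, zetaM_coe, betaM_coe]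
  exact (embL_embR_comm k r _ _).symm

lemma zetaM_tauM (k r : ℕ) (e : Fin r → F) (ε : Fin r → ℤˣ) (σ : Equiv.Perm (Fin k)) :
    zetaM k r e ε * tauM k r e σ = tauM k r e σ * zetaM k r e ε := by
  apply Subtype.ext
  rw [Subgroup.coe_mul, Subgroup.coe_mul, zetaM_coe, tauM_coe]
  exact (embL_embR_comm k r _ _).symm

lemma zetaM_sq (k r : ℕ) (e : Fin r → F) (ε : Fin r → ℤˣ) :
    zetaM k r e ε * zetaM k r e ε = 1 := by
  rw [← map_mul]
  have h1 : ε * ε = 1 := by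
    funext j
    exact Int.units_mul_self (ε j)
  rw [h1, map_one]

lemma betaM_injective (k r : ℕ) (e : Fin r → F) : Function.Injective (betaM (F := F) k r e) := by
  intro f g h
  have h1 := congrArg Subtype.val h
  rw [betaM_coe, betaM_coe] at h1
  have h2 := betaG_injective k (embL_injective k r h1)
  funext i
  exact Subtype.ext (congrFun h2 i)

lemma tauM_injective (k r : ℕ) (e : Fin r → F) : Function.Injective (tauM (F := F) k r e) := by
  intro σ σ' h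
  have h1 := congrArg Subtype.val h
  rw [tauM_coe, tauM_coe] at h1
  exact tauG_injective k (embL_injective k r h1)

lemma zetaM_injective (h2 : (2 : F) ≠ 0) (k r : ℕ) (e : Fin r → F) :
    Function.Injective (zetaM (F := F) k r e) := by
  intro ε ε' h
  have h1 := congrArg Subtype.val h
  rw [zetaM_coe, zetaM_coe] at h1
  exact sgnG_injective h2 r (embR_injective k r h1)

lemma betaM_tauM_inf (k r : ℕ) (e : Fin r → F) :
    (betaM (F := F) k r e).range ⊓ (tauM (F := F) k r e).range = ⊥ := by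
  rw [eq_bot_iff]
  rintro x ⟨⟨f, rfl⟩, ⟨σ, hσ⟩⟩
  have h1 := congrArg Subtype.val hσ
  rw [tauM_coe, betaM_coe] at h1
  have h2 := embL_injective k r h1
  have h3 : betaG k (fun i => ((f i : ↥(O2 F)) : GL (Fin 1 ⊕ Fin 1) F)) ∈
      (betaG (F := F) k).range ⊓ (tauG (F := F) k).range := ⟨⟨_, rfl⟩, ⟨σ, h2⟩⟩
  rw [rangeG_inf, Subgroup.mem_bot] at h3
  rw [Subgroup.mem_bot]
  apply Subtype.ext
  rw [betaM_coe, h3, map_one]
  rfl

lemma betaM_tauM_zetaM (k r : ℕ) (e : Fin r → F) (f : Fin k → ↥(O2 F))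
    (σ : Equiv.Perm (Fin k)) (ε : Fin r → ℤˣ)
    (h : betaM k r e f * tauM k r e σ = zetaM k r e ε) : zetaM k r e ε = 1 := by
  have h1 := congrArg Subtype.val h
  rw [Subgroup.coe_mul, betaM_coe, tauM_coe, zetaM_coe, ← map_mul] at h1
  obtain ⟨-, h3⟩ := embL_eq_embR k r _ _ h1
  apply Subtype.ext
  rw [zetaM_coe, h3, map_one]
  rfl

lemma theta_tauM {A : Type*} [CommGroup A] (hA : ∀ a : A, a * a = 1) (k r : ℕ) (e : Fin r → F)
    (Θ : ↥(OM k r e) →* A) (σ : Equiv.Perm (Fin k)) : Θ (tauM k r e σ) = 1 := by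
  obtain ⟨j₀, hj₀⟩ : ∃ j₀ : ↥(O2 F), ((j₀ : GL (Fin 1 ⊕ Fin 1) F) :
      Matrix (Fin 1 ⊕ Fin 1) (Fin 1 ⊕ Fin 1) F) = mk2 0 1 1 0 := by
    have hmul : mk2 (0 : F) 1 1 0 * mk2 0 1 1 0 = 1 := by
      rw [mk2_mul, one_eq_mk2]
      exact mk2_congr (by ring) (by ring) (by ring) (by ring)
    refine ⟨⟨⟨mk2 0 1 1 0, mk2 0 1 1 0, hmul, hmul⟩, ?_⟩, rfl⟩
    rw [mem_O2]
    intro p q
    simp [mk2]
    ring
  have h1 : betaM k r e (fun _ => j₀) * pi2M k r e (σ, 1) =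
      pi2M k r e (1, σ) * betaM k r e (fun _ => j₀) := by
    apply Subtype.ext
    apply Units.ext
    show (Matrix.fromBlocks (bm k (fun _ => ((j₀ : GL (Fin 1 ⊕ Fin 1) F) :
        Matrix (Fin 1 ⊕ Fin 1) (Fin 1 ⊕ Fin 1) F))) 0 0 1 : Matrix ((Fin k ⊕ Fin k) ⊕ Fin r)
          ((Fin k ⊕ Fin k) ⊕ Fin r) F) *
        Matrix.fromBlocks (Matrix.fromBlocks (pmat k σ) 0 0 (pmat k 1)) 0 0 1 =
      Matrix.fromBlocks (Matrix.fromBlocks (pmat k 1) 0 0 (pmat k σ)) 0 0 1 *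
        Matrix.fromBlocks (bm k (fun _ => ((j₀ : GL (Fin 1 ⊕ Fin 1) F) :
        Matrix (Fin 1 ⊕ Fin 1) (Fin 1 ⊕ Fin 1) F))) 0 0 1
    rw [hj₀, bm_flip, pmat_one]
    simp [Matrix.fromBlocks_multiply]
  have h2 : tauM k r e σ = pi2M k r e (σ, 1) * pi2M k r e (1, σ) := by
    rw [← map_mul, Prod.mk_mul_mk, mul_one, one_mul]
    rfl
  have h3 : Θ (pi2M k r e (1, σ)) = Θ (pi2M k r e (σ, 1)) := by
    have h4 := congrArg Θ h1
    rw [map_mul, map_mul, mul_comm (Θ (pi2M k r e (1, σ)))] at h4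
    exact (mul_left_cancel h4).symm
  rw [h2, map_mul, h3, hA]

end emb

end Cfsg.Agent.Lib.Helper1.SylOr
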