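import Mathlib
import Cfsg.Agent.Lib.Helper1.SylOrC

/-!
The model group: a subgroup `S` of the isometry group of the diagonal model form whose
intersection with the commutator subgroup is `Good`, together with its order.
-/

namespace Cfsg.Agent.Lib.Helper1.SylOr

open Cfsg.Agent.Lib.Helper1.SylSym Cfsg.Agent.Lib.Helper1.SylSp Cfsg.Agent.Lib.Helper1.SylSl
open Cfsg.Agent.Lib.Helper15.Spinor

section modelgood
variable {F : Type*} [Field F] [Fintype F]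

theorem model_good (h2 : (2 : F) ≠ 0) (k r : ℕ) (hk : 2 ≤ k) (e : Fin r → F)
    (he : ∀ j, e j ≠ 0) :
    ∃ S : Subgroup ↥(OM k r e), Good 2 (S ⊓ commutator ↥(OM k r e)) ∧
      Nat.card S = 2 ^ (k * (Nat.card ↥(O2 F)).factorization 2 +
        (k.factorial).factorization 2 + r) := by
  classical
  have hn : 2 ≤ Fintype.card ((Fin k ⊕ Fin k) ⊕ Fin r) := by
    simp only [Fintype.card_sum, Fintype.card_fin]; omega
  obtain ⟨Θ, -, hker⟩ := Cfsg.Agent.Lib.Helper15.CartanD.exists_theta h2 (QM k r e)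
    (QM_nondeg h2 k r e he) hn
  have hA : ∀ a : ℤˣ × ℤˣ, a * a = 1 := by
    rintro ⟨a, b⟩
    rw [Prod.mk_mul_mk, Int.units_mul_self, Int.units_mul_self]; rfl
  have hmul : mk2 (1 : F) 0 0 (-1) * mk2 1 0 0 (-1) = 1 := by
    rw [mk2_mul, one_eq_mk2]
    exact mk2_congr (by ring) (by ring) (by ring) (by ring)
  obtain ⟨s₁, hs₁⟩ : ∃ s₁ : ↥(O2 F), ((s₁ : GL (Fin 1 ⊕ Fin 1) F) :
      Matrix (Fin 1 ⊕ Fin 1) (Fin 1 ⊕ Fin 1) F) = mk2 1 0 0 (-1) := by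
    refine ⟨⟨⟨mk2 1 0 0 (-1), mk2 1 0 0 (-1), hmul, hmul⟩, ?_⟩, rfl⟩
    rw [mem_O2]
    intro p q
    simp [mk2]
  obtain ⟨ν, hνdef⟩ : ∃ ν : ↥(O2 F) →* Fˣ, ν = (delta (F := F)).comp (O2 F).subtype := ⟨_, rfl⟩
  have hνcoe : ∀ d : ↥(O2 F), ((ν d : Fˣ) : F) =
      det2 ((d : GL (Fin 1 ⊕ Fin 1) F) : Matrix (Fin 1 ⊕ Fin 1) (Fin 1 ⊕ Fin 1) F) := by
    intro d; rw [hνdef]; rfl
  have hν : ∀ d : ↥(O2 F), ν d ≠ 1 → d * d = 1 := by
    intro d hd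
    apply Subtype.ext
    rw [Subgroup.coe_mul]
    apply O2_refl_sq h2 _ d.2
    intro h
    apply hd
    apply Units.ext
    rw [hνcoe, h, Units.val_one]
  have hνs : ν s₁ ≠ 1 := by
    intro h
    have h1 := congrArg Units.val h
    rw [hνcoe, hs₁, det2_mk2, Units.val_one] at h1
    apply h2
    linear_combination -h1
  have hs₁2 : s₁ * s₁ = 1 := hν s₁ hνs
  obtain ⟨D, hD⟩ : ∃ D : Sylow 2 ↥(O2 F), s₁ ∈ (D : Subgroup ↥(O2 F)) := by
    have hp : IsPGroup 2 (Subgroup.zpowers s₁) := by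
      rintro ⟨g, hg⟩
      obtain ⟨n, rfl⟩ := Subgroup.mem_zpowers_iff.1 hg
      refine ⟨1, Subtype.ext ?_⟩
      show (s₁ ^ n) ^ 2 ^ 1 = 1
      rw [pow_one, ← zpow_natCast, ← zpow_mul, mul_comm, zpow_mul, zpow_natCast, pow_two, hs₁2,
        one_zpow]
    obtain ⟨D, hD⟩ := hp.exists_le_sylow
    exact ⟨D, hD (Subgroup.mem_zpowers s₁)⟩
  obtain ⟨T₀⟩ : Nonempty (Sylow 2 (Equiv.Perm (Fin k))) := inferInstance
  have hT₀ : Good 2 (T₀ : Subgroup (Equiv.Perm (Fin k))) :=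
    (Cfsg.Agent.Lib.Helper1.SylSym.main 2 k (Fin k) (Fintype.card_fin k) T₀).1
  obtain ⟨B, hB⟩ : ∃ B : Subgroup ↥(OM k r e), B =
      (Subgroup.pi Set.univ (fun _ : Fin k => (D : Subgroup ↥(O2 F)))).map (betaM k r e) :=
    ⟨_, rfl⟩
  obtain ⟨T, hT⟩ : ∃ T : Subgroup ↥(OM k r e), T =
      (T₀ : Subgroup (Equiv.Perm (Fin k))).map (tauM k r e) := ⟨_, rfl⟩
  obtain ⟨Z, hZ⟩ : ∃ Z : Subgroup ↥(OM k r e), Z = (zetaM k r e).range := ⟨_, rfl⟩
  have hnorm : ∀ t ∈ T, ∀ b ∈ B, t * b * t⁻¹ ∈ B := by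
    rw [hT, hB]
    rintro _ ⟨σ, hσ, rfl⟩ _ ⟨f, hf, rfl⟩
    rw [tauM_betaM, mul_inv_cancel_right]
    exact ⟨_, fun i _ => hf (σ.symm i) (Set.mem_univ _), rfl⟩
  have hBT : B ⊓ T = ⊥ := by
    rw [eq_bot_iff, ← betaM_tauM_inf k r e, hB, hT]
    exact inf_le_inf (Subgroup.map_le_range _ _) (Subgroup.map_le_range _ _)
  have hnorm2 : ∀ z ∈ Z, ∀ w ∈ prodSub B T hnorm, z * w * z⁻¹ ∈ prodSub B T hnorm := by
    rw [hZ]
    rintro _ ⟨ε, rfl⟩ w hw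
    have h1 : zetaM k r e ε * w = w * zetaM k r e ε := by
      obtain ⟨b, hb, t, ht, rfl⟩ := hw
      rw [hB] at hb
      rw [hT] at ht
      obtain ⟨f, hf, rfl⟩ := hb
      obtain ⟨σ, hσ, rfl⟩ := ht
      rw [← mul_assoc, zetaM_betaM, mul_assoc, zetaM_tauM, mul_assoc]
    rw [h1, mul_inv_cancel_right]
    exact hw
  have hWZ : prodSub B T hnorm ⊓ Z = ⊥ := by
    rw [eq_bot_iff]
    rintro x ⟨⟨b, hb, t, ht, rfl⟩, hz⟩
    rw [hB] at hb
    rw [hT] at ht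
    rw [hZ] at hz
    obtain ⟨f, hf, rfl⟩ := hb
    obtain ⟨σ, hσ, rfl⟩ := ht
    obtain ⟨ε, hε⟩ := hz
    rw [Subgroup.mem_bot, ← hε]
    exact betaM_tauM_zetaM k r e f σ ε hε.symm
  refine ⟨prodSub (prodSub B T hnorm) Z hnorm2, ?_, ?_⟩
  · have hS : ∀ x, x ∈ prodSub (prodSub B T hnorm) Z hnorm2 ↔
        ∃ f ∈ Subgroup.pi Set.univ (fun _ : Fin k => (D : Subgroup ↥(O2 F))),
        ∃ σ ∈ (T₀ : Subgroup (Equiv.Perm (Fin k))), ∃ z ∈ Z,
          x = betaM k r e f * tauM k r e σ * z := by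
      intro x
      constructor
      · rintro ⟨w, ⟨b, hb, t, ht, rfl⟩, z, hz, rfl⟩
        rw [hB] at hb
        rw [hT] at ht
        obtain ⟨f, hf, rfl⟩ := hb
        obtain ⟨σ, hσ, rfl⟩ := ht
        exact ⟨f, hf, σ, hσ, z, hz, rfl⟩
      · rintro ⟨f, hf, σ, hσ, z, hz, rfl⟩
        refine ⟨_, ⟨_, ?_, _, ?_, rfl⟩, z, hz, rfl⟩
        · rw [hB]; exact ⟨f, hf, rfl⟩
        · rw [hT]; exact ⟨σ, hσ, rfl⟩
    have hgood := wreath_ker_good k hk Θ hA ν (D : Subgroup ↥(O2 F)) (fun d _ => hν d) s₁ hD hνs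
      (betaM k r e) (tauM k r e) (tauM_betaM k r e) (T₀ : Subgroup (Equiv.Perm (Fin k))) hT₀
      (fun σ _ => theta_tauM hA k r e Θ σ) Z
      (by rw [hZ]; rintro _ ⟨ε, rfl⟩; exact zetaM_sq k r e ε)
      (by rw [hZ]; rintro _ ⟨ε, rfl⟩ f; exact zetaM_betaM k r e ε f)
      (by rw [hZ]; rintro _ ⟨ε, rfl⟩ σ; exact zetaM_tauM k r e ε σ)
      (prodSub (prodSub B T hnorm) Z hnorm2) hS
    rw [hker] at hgood
    exact hgood
  · rw [prodSub_card _ _ hnorm2 hWZ, prodSub_card _ _ hnorm hBT, hB, hT, hZ,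
      Subgroup.card_map_of_injective (betaM_injective k r e),
      Subgroup.card_map_of_injective (tauM_injective k r e), card_pi_const,
      D.card_eq_multiplicity, T₀.card_eq_multiplicity,
      ← Nat.card_congr (MonoidHom.ofInjective (zetaM_injective h2 k r e)).toEquiv,
      Nat.card_fun, Nat.card_eq_fintype_card (α := ℤˣ), Fintype.card_units_int,
      Nat.card_eq_fintype_card (α := Fin k), Fintype.card_fin,
      Nat.card_eq_fintype_card (α := Fin r), Fintype.card_fin,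
      Nat.card_eq_fintype_card (α := Equiv.Perm (Fin k)), Fintype.card_perm, Fintype.card_fin,
      ← pow_mul, ← pow_add, ← pow_add, mul_comm k]

end modelgood

end Cfsg.Agent.Lib.Helper1.SylOr
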