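import Mathlib
import Cfsg.Agent.Lib.Helper1.SylOrD
import Cfsg.Agent.Lib.Helper15.HypStab
import Cfsg.Agent.Lib.Helper15.Spinor2
import Cfsg.Agent.S0287
import Cfsg.Agent.S0288

/-!
The order of the plane orthogonal group `O₂(F)` of `x² + y²` (2-part).
-/

namespace Cfsg.Agent.Lib.Helper1.SylOr

open Cfsg.Agent.Lib.Helper1.SylSym Cfsg.Agent.Lib.Helper1.SylSp Cfsg.Agent.Lib.Helper1.SylSl
open Cfsg.Agent.Lib.Helper15.Spinor

section cardO2
variable {F : Type*} [Field F] [Fintype F]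

lemma O2_card_one (h2 : (2 : F) ≠ 0) (i : F) (hi : i * i = -1) :
    Nat.card ↥(O2 F) = Nat.card ↥(Cfsg.isometryGroup F (Cfsg.quadFormPlus 1 F)) := by
  unfold O2
  let f : (Fin 1 ⊕ Fin 1 → F) →ₗ[F] (Fin 1 ⊕ Fin 1 → F) :=
    { toFun := fun v => Sum.elim (fun _ => v (Sum.inl 0) + i * v (Sum.inr 0))
        (fun _ => v (Sum.inl 0) - i * v (Sum.inr 0))
      map_add' := by
        intro v w
        funext x
        rcases x with x | x <;> simp <;> ring
      map_smul' := by
        intro c v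
        funext x
        rcases x with x | x <;> simp <;> ring }
  have hf : ∀ v, f v = Sum.elim (fun _ => v (Sum.inl 0) + i * v (Sum.inr 0))
        (fun _ => v (Sum.inl 0) - i * v (Sum.inr 0)) := fun v => rfl
  have hinj : Function.Injective f := by
    rw [← LinearMap.ker_eq_bot, LinearMap.ker_eq_bot']
    intro v hv
    rw [hf] at hv
    have h1 : v (Sum.inl 0) + i * v (Sum.inr 0) = 0 := congrFun hv (Sum.inl 0)
    have h2' : v (Sum.inl 0) - i * v (Sum.inr 0) = 0 := congrFun hv (Sum.inr 0)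
    have h3 : v (Sum.inl 0) = 0 := by
      have : 2 * v (Sum.inl 0) = 0 := by linear_combination h1 + h2'
      exact (mul_eq_zero.1 this).resolve_left h2
    have h4 : v (Sum.inr 0) = 0 := by
      have : 2 * v (Sum.inr 0) = 0 := by
        linear_combination (-i) * h1 + i * h2' + 2 * v (Sum.inr 0) * hi
      exact (mul_eq_zero.1 this).resolve_left h2
    funext x
    rcases x with x | x
    · rw [Subsingleton.elim x 0]; exact h3
    · rw [Subsingleton.elim x 0]; exact h4
  refine Cfsg.Agent.Lib.Helper15.HypStab.card_iso_congr _ _ (LinearEquiv.ofInjectiveEndo f hinj) ?_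
  intro v
  rw [LinearEquiv.coe_ofInjectiveEndo, hf, Q2_apply]
  unfold Cfsg.quadFormPlus
  rw [Fin.sum_univ_one]
  simp only [Sum.elim_inl, Sum.elim_inr]
  linear_combination v (Sum.inr 0) ^ 2 * hi

lemma O2_card_three :
    Nat.card ↥(O2 F) = Nat.card ↥(Cfsg.isometryGroup F (Cfsg.quadFormMinus 0 F 0 1)) := by
  unfold O2
  let e : (Fin 0 ⊕ Fin 0) ⊕ Fin 2 ≃ Fin 1 ⊕ Fin 1 :=
    (Equiv.emptySum (Fin 0 ⊕ Fin 0) (Fin 2)).trans (finSumFinEquiv (m := 1) (n := 1)).symm
  have he0 : e (Sum.inr 0) = Sum.inl 0 := rfl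
  have he1 : e (Sum.inr 1) = Sum.inr 0 := rfl
  refine Cfsg.Agent.Lib.Helper15.HypStab.card_iso_congr _ _ (LinearEquiv.funCongrLeft F F e) ?_
  intro v
  rw [Q2_apply]
  unfold Cfsg.quadFormMinus
  rw [LinearEquiv.funCongrLeft_apply, LinearMap.funLeft_apply, LinearMap.funLeft_apply, he0, he1]
  simp

theorem val_O2 (hodd : Odd (Fintype.card F)) :
    (Nat.card ↥(O2 F)).factorization 2 = padicValNat 2 (Fintype.card F ^ 2 - 1) := by
  have h2 : (2 : F) ≠ 0 := Cfsg.Agent.Lib.Helper15.Spinor2.two_ne_zero_of_odd_card rfl hodd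
  have hq1 : 1 < Fintype.card F := Fintype.one_lt_card
  rw [Nat.factorization_def _ Nat.prime_two]
  have hiff := FiniteField.isSquare_neg_one_iff (F := F)
  obtain ⟨q, hF⟩ : ∃ q, Fintype.card F = q := ⟨_, rfl⟩
  rw [hF] at hodd hq1 hiff ⊢
  have hsq : q ^ 2 - 1 = (q - 1) * (q + 1) := by
    obtain ⟨r, rfl⟩ : ∃ r, q = r + 1 := ⟨q - 1, by omega⟩
    rw [Nat.add_sub_cancel]
    have : (r + 1) ^ 2 = r * (r + 1 + 1) + 1 := by ring
    rw [this, Nat.add_sub_cancel]
  rcases Nat.odd_mod_four_iff.1 (Nat.odd_iff.1 hodd) with hq | hq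
  · have hsq1 : IsSquare (-1 : F) := by
      rw [hiff]; omega
    obtain ⟨i, hi⟩ := hsq1
    have hc : Nat.card ↥(O2 F) = 2 * (q - 1) := by
      rw [O2_card_one h2 i hi.symm, Cfsg.Agent.S0287.result hF 1 le_rfl]
      simp
    rw [hc, hsq, padicValNat.mul (by norm_num) (by omega), padicValNat.mul (by omega) (by omega),
      padicValNat_self, val_two_of_mod_four (q + 1) (by omega), add_comm]
  · have hns : ¬ IsSquare (-1 : F) := by
      rw [hiff]; omega
    have hab : ∀ z₁ z₂ : F, z₁ ^ 2 + 0 * z₁ * z₂ + 1 * z₂ ^ 2 = 0 → z₁ = 0 ∧ z₂ = 0 := by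
      intro z₁ z₂ h
      by_cases hz : z₂ = 0
      · subst hz
        refine ⟨?_, rfl⟩
        have h1 : z₁ ^ 2 = 0 := by linear_combination h
        exact (pow_eq_zero_iff (by norm_num)).1 h1
      · exfalso
        apply hns
        refine ⟨z₁ / z₂, ?_⟩
        field_simp
        linear_combination -h
    have hc : Nat.card ↥(O2 F) = 2 * (q + 1) := by
      rw [O2_card_three, Cfsg.Agent.S0288.aux hF 0 1 hab 0]
      simp
    rw [hc, hsq, padicValNat.mul (by norm_num) (by omega), padicValNat.mul (by omega) (by omega),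
      padicValNat_self, val_two_of_mod_four (q - 1) (by omega)]

end cardO2

end Cfsg.Agent.Lib.Helper1.SylOr
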