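import Mathlib
import Cfsg.Agent.Lib.Helper1.SylOrE
import Cfsg.Agent.S0756

/-!
Diagonalization of nondegenerate quadratic forms over finite fields of odd characteristic,
in the shape `Σ (T v i)² + (d - 1) (T v last)²`.
-/

namespace Cfsg.Agent.Lib.Helper1.SylOr

open Cfsg.Agent.Lib.Helper1.SylSym Cfsg.Agent.Lib.Helper1.SylSp Cfsg.Agent.Lib.Helper1.SylSl
open Cfsg.Agent.Lib.Helper15.Spinor

section diag
variable {F : Type*} [Field F] [Finite F]

theorem diag_exists {ι : Type} [Fintype ι] [DecidableEq ι] (h2 : (2 : F) ≠ 0)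
    (Q : QuadraticForm F (ι → F)) (hQ : (QuadraticMap.polarBilin Q).Nondegenerate)
    (n : ℕ) (hcard : Fintype.card ι = n + 1) (α : F) (hα : ¬ IsSquare α) :
    ∃ d : F, (d = 1 ∨ d = α) ∧ ∃ T : (ι → F) ≃ₗ[F] (Fin (n + 1) → F),
      ∀ v, Q v = ∑ i : Fin (n + 1), (if i = Fin.last n then d else 1) * (T v i) ^ 2 := by
  haveI : Invertible (2 : F) := invertibleOfNonzero h2
  obtain ⟨B, hBdef⟩ : ∃ B : LinearMap.BilinForm F (ι → F), B = QuadraticMap.associated Q :=
    ⟨_, rfl⟩
  have hS : B.IsSymm := by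
    rw [hBdef]
    exact ⟨fun x y => QuadraticMap.associated_isSymm F Q x y⟩
  have hpol : ∀ x y, QuadraticMap.polar Q x y = 2 * B x y := by
    intro x y
    have h := congrArg (fun L => L x y) (QuadraticMap.two_nsmul_associated F Q)
    simp only [LinearMap.smul_apply, QuadraticMap.polarBilin_apply_apply] at h
    rw [← h, hBdef]
    simp
  have hB : B.Nondegenerate := by
    have hrefl : B.IsRefl := hS.isRefl
    show LinearMap.Nondegenerate B
    rw [LinearMap.IsRefl.nondegenerate_iff_separatingLeft hrefl]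
    intro x hx
    apply hQ.1 x
    intro y
    show QuadraticMap.polar Q x y = 0
    rw [hpol, hx y, mul_zero]
  have hfin : Module.finrank F (ι → F) = n + 1 := by
    rw [Module.finrank_fintype_fun_eq_card, hcard]
  obtain ⟨b, hb1, hb2, hb3⟩ := Cfsg.Agent.S0756.result h2 B hS hB hfin α hα
  refine ⟨Q (b (Fin.last n)), ?_, b.equivFun, ?_⟩
  · rw [hBdef, QuadraticMap.associated_eq_self_apply] at hb3
    exact hb3
  · intro v
    have hortho : (QuadraticMap.associated (R := F) Q).IsOrthoᵢ b := by
      rw [LinearMap.isOrthoᵢ_def]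
      intro i j hij
      rw [← hBdef]; exact hb1 i j hij
    have h1 := QuadraticMap.basisRepr_eq_of_iIsOrtho Q b hortho
    have h3 : Q v = Q.basisRepr b (b.equivFun v) := by
      rw [QuadraticMap.basisRepr_apply, Module.Basis.sum_equivFun]
    rw [h3, h1, QuadraticMap.weightedSumSquares_apply]
    apply Finset.sum_congr rfl
    intro i _
    by_cases hi : i = Fin.last n
    · rw [if_pos hi, hi, smul_eq_mul, pow_two]
    · rw [if_neg hi, smul_eq_mul, pow_two]
      have h4 := hb2 i hi
      rw [hBdef, QuadraticMap.associated_eq_self_apply] at h4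
      rw [h4]

end diag

end Cfsg.Agent.Lib.Helper1.SylOr
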