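import Mathlib
import Cfsg.Agent.Lib.Helper1.SylOrF
import Cfsg.Agent.Lib.Helper15.Spinor3
import Cfsg.Agent.Lib.Helper15.OrthOrder
import Cfsg.Agent.S0286

/-!
Transfer of the model Sylow subgroup to a form equivalent to the model form, and the odd
dimensional case.
-/

namespace Cfsg.Agent.Lib.Helper1.SylOr

open Cfsg.Agent.Lib.Helper1.SylSym Cfsg.Agent.Lib.Helper1.SylSp Cfsg.Agent.Lib.Helper1.SylSl
open Cfsg.Agent.Lib.Helper15.Spinor

section transfer
variable {F : Type*} [Field F]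

lemma QM_reindex (k r N : ℕ) (e : Fin r → F) (w : Fin N → F)
    (ρ : (Fin k ⊕ Fin k) ⊕ Fin r ≃ Fin N)
    (h1 : ∀ x, w (ρ (Sum.inl x)) = 1) (h2 : ∀ j, w (ρ (Sum.inr j)) = e j) (u : Fin N → F) :
    ∑ i, w i * u i ^ 2 = QM k r e (fun x => u (ρ x)) := by
  rw [QM_apply, ← Equiv.sum_comp ρ, Fintype.sum_sum_type, Fintype.sum_sum_type,
    Finset.sum_add_distrib]
  simp only [h1, h2, one_mul]

variable [Fintype F]

theorem transfer {ι : Type} [Fintype ι] [DecidableEq ι] (h2 : (2 : F) ≠ 0) (Qs : (ι → F) → F)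
    (k r : ℕ) (hk : 2 ≤ k) (e : Fin r → F) (he : ∀ j, e j ≠ 0)
    (T : (ι → F) ≃ₗ[F] ((Fin k ⊕ Fin k) ⊕ Fin r → F)) (hT : ∀ v, Qs v = QM k r e (T v))
    (hcard : (Nat.card ↥(Cfsg.isometryGroup F Qs)).factorization 2 =
      k * (Nat.card ↥(O2 F)).factorization 2 + (k.factorial).factorization 2 + r)
    (P : Sylow 2 (Cfsg.Omega F Qs)) : Good 2 (P : Subgroup (Cfsg.Omega F Qs)) := by
  classical
  obtain ⟨SM, hgood, hcardS⟩ := model_good h2 k r hk e he
  obtain ⟨φ, hφ⟩ := Cfsg.Agent.Lib.Helper15.HypStab.iso_embed Qs (⇑(QM k r e)) T hT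
  have hcc := Cfsg.Agent.Lib.Helper15.HypStab.card_iso_congr Qs (⇑(QM k r e)) T hT
  have hbij : Function.Bijective φ := hφ.bijective_of_nat_card_le (le_of_eq hcc.symm)
  obtain ⟨E, hE⟩ : ∃ E : ↥(Cfsg.isometryGroup F Qs) ≃* ↥(OM k r e), ∀ x, E x = φ x :=
    ⟨MulEquiv.ofBijective φ hbij, fun x => rfl⟩
  have hinj : Function.Injective E.symm.toMonoidHom := E.symm.injective
  have hsurj : Function.Surjective E.symm.toMonoidHom := E.symm.surjective
  have hcS : Nat.card (SM.map E.symm.toMonoidHom) =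
      2 ^ (Nat.card ↥(Cfsg.isometryGroup F Qs)).factorization 2 := by
    rw [Subgroup.card_map_of_injective hinj, hcardS, hcard]
  have hcomm : (commutator ↥(OM k r e)).map E.symm.toMonoidHom =
      commutator ↥(Cfsg.isometryGroup F Qs) := by
    rw [commutator_def, commutator_def, Subgroup.map_commutator,
      Subgroup.map_top_of_surjective _ hsurj]
  have hS : Good 2 ((Sylow.ofCard (SM.map E.symm.toMonoidHom) hcS :
      Subgroup ↥(Cfsg.isometryGroup F Qs)) ⊓ commutator ↥(Cfsg.isometryGroup F Qs)) := by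
    rw [Sylow.coe_ofCard, ← hcomm, ← Subgroup.map_inf _ _ _ hinj]
    exact good_map _ hgood
  exact good_sylow_of_normal (commutator ↥(Cfsg.isometryGroup F Qs))
    (Sylow.ofCard (SM.map E.symm.toMonoidHom) hcS) hS P

theorem odd_main (hF : Odd (Fintype.card F)) (m : ℕ) (hm : 2 ≤ m)
    (P : Sylow 2 (Cfsg.Omega F (Cfsg.quadFormOdd m F))) :
    Good 2 (P : Subgroup (Cfsg.Omega F (Cfsg.quadFormOdd m F))) := by
  classical
  have h2 : (2 : F) ≠ 0 := Cfsg.Agent.Lib.Helper15.Spinor2.two_ne_zero_of_odd_card rfl hF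
  obtain ⟨α, hα⟩ := FiniteField.exists_nonsquare (F := F) (ringChar_ne_two h2)
  have hα0 : α ≠ 0 := by rintro rfl; exact hα ⟨0, by simp⟩
  have hQ : (QuadraticMap.polarBilin (Cfsg.Agent.Lib.Helper15.Spinor3.oddQF m F)).Nondegenerate :=
    Cfsg.Agent.Lib.Helper15.StdForms.nondeg_of_sep _ (fun x hx =>
      Cfsg.Agent.Lib.Helper15.OrthOrder.odd_sep h2 m x
        (by rw [← Cfsg.Agent.Lib.Helper15.Spinor3.coe_oddQF]; exact hx))
  obtain ⟨d, hd, T₀, hT₀⟩ := diag_exists h2 (Cfsg.Agent.Lib.Helper15.Spinor3.oddQF m F) hQ (m + m)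
    (by simp only [Fintype.card_sum, Fintype.card_fin, Fintype.card_unit]; omega) α hα
  have hd0 : d ≠ 0 := by
    rcases hd with rfl | rfl
    · exact one_ne_zero
    · exact hα0
  obtain ⟨ρ, hρ⟩ : ∃ ρ : (Fin m ⊕ Fin m) ⊕ Fin 1 ≃ Fin (m + m + 1),
      ρ = (Equiv.sumCongr finSumFinEquiv (Equiv.refl (Fin 1))).trans finSumFinEquiv := ⟨_, rfl⟩
  have hρl : ∀ x, ρ (Sum.inl x) ≠ Fin.last (m + m) := by
    intro x h
    rw [hρ] at h
    have h1 := congrArg Fin.val h
    simp at h1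
    omega
  have hρr : ∀ j, ρ (Sum.inr j) = Fin.last (m + m) := by
    intro j
    rw [hρ]
    apply Fin.ext
    simp
  have hT : ∀ v, Cfsg.quadFormOdd m F v =
      QM m 1 (fun _ => d) ((T₀.trans (LinearEquiv.funCongrLeft F F ρ)) v) := by
    intro v
    rw [← Cfsg.Agent.Lib.Helper15.Spinor3.coe_oddQF, hT₀ v,
      QM_reindex m 1 (m + m + 1) (fun _ => d) (fun i => if i = Fin.last (m + m) then d else 1) ρ
        (fun x => if_neg (hρl x)) (fun j => if_pos (hρr j))]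
    rfl
  have hq1 : 1 < Fintype.card F := Fintype.one_lt_card
  apply transfer h2 _ m 1 hm (fun _ => d) (fun _ => hd0) _ hT _ P
  rw [val_O2 hF, Nat.factorization_def _ Nat.prime_two, Nat.factorization_def _ Nat.prime_two,
    Cfsg.Agent.S0286.result rfl hF m, mul_assoc,
    padicValNat.mul (by norm_num) (by
      have h1 : Fintype.card F ^ (m ^ 2) ≠ 0 := pow_ne_zero _ (by omega)
      exact mul_ne_zero h1 (val_prod _ hF hq1 m).1),
    padicValNat_self, val_sp _ hF hq1 m]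
  ring

end transfer

end Cfsg.Agent.Lib.Helper1.SylOr
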