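import Mathlib
import Cfsg.Agent.Lib.Helper1.SylOrG

/-!
Even-dimensional orthogonal groups: diagonalization with discriminant, 2-adic valuations,
and the general transfer theorem.
-/

namespace Cfsg.Agent.Lib.Helper1.SylOr

open Cfsg.Agent.Lib.Helper1.SylSym Cfsg.Agent.Lib.Helper1.SylSp Cfsg.Agent.Lib.Helper1.SylSl
open Cfsg.Agent.Lib.Helper15.Spinor
open Nat

section numbers

lemma val_even_order (q : ℕ) (hq : Odd q) (hq1 : 1 < q) (m : ℕ) (c : ℕ) (hc : c ≠ 0) :
    padicValNat 2 (2 * q ^ (m * (m - 1)) * c * ∏ i ∈ Finset.range (m - 1),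
      (q ^ (2 * (i + 1)) - 1)) =
    1 + padicValNat 2 c + ((m - 1) * padicValNat 2 (q ^ 2 - 1) + padicValNat 2 (m - 1)!) := by
  have h1 : q ^ (m * (m - 1)) ≠ 0 := pow_ne_zero _ (by omega)
  have h2 : padicValNat 2 (q ^ (m * (m - 1))) = 0 := by
    apply padicValNat.eq_zero_of_not_dvd
    intro h
    have := (Nat.prime_two.dvd_of_dvd_pow h)
    rw [Nat.odd_iff] at hq
    omega
  obtain ⟨h3, h4⟩ := val_prod q hq hq1 (m - 1)
  rw [padicValNat.mul (mul_ne_zero (mul_ne_zero (by norm_num) h1) hc) h3,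
    padicValNat.mul (mul_ne_zero (by norm_num) h1) hc,
    padicValNat.mul (by norm_num) h1, padicValNat_self, h2, h4]

lemma val_fact_succ (m : ℕ) (hm : 1 ≤ m) :
    padicValNat 2 m ! = padicValNat 2 (m - 1)! + padicValNat 2 m := by
  obtain ⟨k, rfl⟩ : ∃ k, m = k + 1 := ⟨m - 1, by omega⟩
  rw [Nat.add_sub_cancel, Nat.factorial_succ,
    padicValNat.mul (by omega) (Nat.factorial_ne_zero k), add_comm]

lemma sq_sub_one (q : ℕ) (hq1 : 1 ≤ q) : q ^ 2 - 1 = (q - 1) * (q + 1) := by
  obtain ⟨r, rfl⟩ : ∃ r, q = r + 1 := ⟨q - 1, by omega⟩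
  rw [Nat.add_sub_cancel]
  have : (r + 1) ^ 2 = r * (r + 1 + 1) + 1 := by ring
  rw [this, Nat.add_sub_cancel]

/-- plus type, square discriminant -/
lemma val_plus_sq (q : ℕ) (hq : Odd q) (hq1 : 1 < q) (m : ℕ) (hm : 1 ≤ m)
    (h : Even m ∨ q % 4 ≠ 3) :
    padicValNat 2 (q ^ m - 1) + 1 = padicValNat 2 (q ^ 2 - 1) + padicValNat 2 m := by
  rcases Nat.even_or_odd m with hme | hmo
  · obtain ⟨j, rfl⟩ := hme
    have hj : j ≠ 0 := by omega
    rw [← two_mul, lte_two q hq hq1 j hj, padicValNat.mul (by norm_num) hj, padicValNat_self]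
    ring
  · have hq4 : q % 4 = 1 := by
      rcases h with h | h
      · exact absurd h (Nat.not_even_iff_odd.2 hmo)
      · rcases Nat.odd_mod_four_iff.1 (Nat.odd_iff.1 hq) with h' | h'
        · exact h'
        · exact absurd h' h
    have hm0 : padicValNat 2 m = 0 := by
      apply padicValNat.eq_zero_of_not_dvd
      rw [Nat.odd_iff] at hmo
      omega
    rw [val_one_mod_four q hq4 hq1 m (by omega), hm0, sq_sub_one q (by omega),
      padicValNat.mul (by omega) (by omega), val_two_of_mod_four (q + 1) (by omega)]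

/-- plus type, non-square discriminant -/
lemma val_plus_nsq (q : ℕ) (m : ℕ) (h : ¬ (Even m ∨ q % 4 ≠ 3)) :
    padicValNat 2 (q ^ m - 1) = 1 := by
  push_neg at h
  obtain ⟨h1, h3⟩ := h
  obtain ⟨j, rfl⟩ := Nat.not_even_iff_odd.1 h1
  exact val_odd q h3 j

/-- minus type, square discriminant -/
lemma val_minus_sq (q : ℕ) (hq : Odd q) (hq1 : 1 < q) (m : ℕ)
    (h : ¬ (Even m ∨ q % 4 ≠ 3)) :
    padicValNat 2 (q ^ m + 1) + 1 = padicValNat 2 (q ^ 2 - 1) + padicValNat 2 m := by
  have h' := h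
  push_neg at h'
  obtain ⟨h1, h3⟩ := h'
  have hmo := Nat.not_even_iff_odd.1 h1
  have hm0 : m ≠ 0 := by
    rintro rfl
    exact h1 (by decide)
  have e1 := lte_two q hq hq1 m hm0
  have e2 := val_plus_nsq q m h
  have hpos : 1 < q ^ m := Nat.one_lt_pow hm0 hq1
  have e3 : q ^ (2 * m) - 1 = (q ^ m - 1) * (q ^ m + 1) := by
    rw [mul_comm 2 m, pow_mul, sq_sub_one _ (by omega)]
  rw [e3, padicValNat.mul (by omega) (by omega), e2] at e1
  omega

/-- minus type, non-square discriminant -/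
lemma val_minus_nsq (q : ℕ) (hq : Odd q) (m : ℕ) (h : Even m ∨ q % 4 ≠ 3) :
    padicValNat 2 (q ^ m + 1) = 1 := by
  apply val_two_of_mod_four
  have hqm : q ^ m % 4 = 1 := by
    rcases Nat.even_or_odd m with hme | hmo
    · obtain ⟨j, rfl⟩ := hme
      rw [← two_mul, pow_mul, Nat.pow_mod]
      have h1 : q ^ 2 % 4 = 1 := by
        rcases Nat.odd_mod_four_iff.1 (Nat.odd_iff.1 hq) with h' | h'
        · rw [Nat.pow_mod, h']
        · rw [Nat.pow_mod, h']
      rw [h1, Nat.one_pow]
    · have hq4 : q % 4 = 1 := by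
        rcases h with h | h
        · exact absurd h (Nat.not_even_iff_odd.2 hmo)
        · rcases Nat.odd_mod_four_iff.1 (Nat.odd_iff.1 hq) with h' | h'
          · exact h'
          · exact absurd h' h
      rw [Nat.pow_mod, hq4, Nat.one_pow]
  omega

end numbers

section diag
variable {F : Type*} [Field F] [Finite F]

theorem diag_exists' {ι : Type} [Fintype ι] [DecidableEq ι] (h2 : (2 : F) ≠ 0)
    (Q : QuadraticForm F (ι → F)) (hQ : (QuadraticMap.polarBilin Q).Nondegenerate)
    (n : ℕ) (hcard : Fintype.card ι = n + 1) (α : F) (hα : ¬ IsSquare α) :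
    ∃ d : F, (d = 1 ∨ d = α) ∧ ∃ b : Module.Basis (Fin (n + 1)) F (ι → F),
      (∀ v, Q v = ∑ i : Fin (n + 1),
        (if i = Fin.last n then d else 1) * (b.equivFun v i) ^ 2) ∧
      (Matrix.of (fun i j : Fin (n + 1) => QuadraticMap.polar ⇑Q (b i) (b j))).det =
        2 ^ (n + 1) * d := by
  haveI : Invertible (2 : F) := invertibleOfNonzero h2
  obtain ⟨B, hBdef⟩ : ∃ B : LinearMap.BilinForm F (ι → F), B = QuadraticMap.associated Q :=
    ⟨_, rfl⟩
  have hS : B.IsSymm := by
    rw [hBdef]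
    exact ⟨fun x y => QuadraticMap.associated_isSymm F Q x y⟩
  have hpol : ∀ x y, QuadraticMap.polar Q x y = 2 * B x y := by
    intro x y
    have h := congrArg (fun L => L x y) (QuadraticMap.two_nsmul_associated F Q)
    simp only [LinearMap.smul_apply, QuadraticMap.polarBilin_apply_apply] at h
    rw [← h, hBdef]
    simp
  have hB : B.Nondegenerate := by
    have hrefl : B.IsRefl := hS.isRefl
    show LinearMap.Nondegenerate B
    rw [LinearMap.IsRefl.nondegenerate_iff_separatingLeft hrefl]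
    intro x hx
    apply hQ.1 x
    intro y
    show QuadraticMap.polar Q x y = 0
    rw [hpol, hx y, mul_zero]
  have hfin : Module.finrank F (ι → F) = n + 1 := by
    rw [Module.finrank_fintype_fun_eq_card, hcard]
  obtain ⟨b, hb1, hb2, hb3⟩ := Cfsg.Agent.S0756.result h2 B hS hB hfin α hα
  have hBQ : ∀ x, B x x = Q x := by
    intro x; rw [hBdef, QuadraticMap.associated_eq_self_apply]
  refine ⟨Q (b (Fin.last n)), ?_, b, ?_, ?_⟩
  · rw [hBQ] at hb3
    exact hb3
  · intro v
    have hortho : (QuadraticMap.associated (R := F) Q).IsOrthoᵢ b := by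
      rw [LinearMap.isOrthoᵢ_def]
      intro i j hij
      rw [← hBdef]; exact hb1 i j hij
    have h1 := QuadraticMap.basisRepr_eq_of_iIsOrtho Q b hortho
    have h3 : Q v = Q.basisRepr b (b.equivFun v) := by
      rw [QuadraticMap.basisRepr_apply, Module.Basis.sum_equivFun]
    rw [h3, h1, QuadraticMap.weightedSumSquares_apply]
    apply Finset.sum_congr rfl
    intro i _
    by_cases hi : i = Fin.last n
    · rw [if_pos hi, hi, smul_eq_mul, pow_two]
    · rw [if_neg hi, smul_eq_mul, pow_two]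
      have h4 := hb2 i hi
      rw [hBQ] at h4
      rw [h4]
  · have hM : Matrix.of (fun i j : Fin (n + 1) => QuadraticMap.polar ⇑Q (b i) (b j)) =
        Matrix.diagonal (fun i => 2 * (if i = Fin.last n then Q (b (Fin.last n)) else 1)) := by
      ext i j
      rw [Matrix.of_apply, hpol]
      by_cases hij : i = j
      · subst hij
        rw [Matrix.diagonal_apply_eq]
        by_cases hi : i = Fin.last n
        · rw [if_pos hi, hi, hBQ]
        · rw [if_neg hi, hb2 i hi]
      · rw [Matrix.diagonal_apply_ne _ hij, hb1 i j hij, mul_zero]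
    rw [hM, Matrix.det_diagonal, Finset.prod_mul_distrib, Finset.prod_const, Finset.card_univ,
      Fintype.card_fin, Fintype.prod_ite_eq']

end diag

section rho

lemma exists_rho (k r n : ℕ) (h : k + k + r = n + 1) :
    ∃ ρ : (Fin k ⊕ Fin k) ⊕ Fin r ≃ Fin (n + 1),
      (∀ x, ((ρ (Sum.inl x) : Fin (n + 1)) : ℕ) < k + k) ∧
      (∀ j : Fin r, ((ρ (Sum.inr j) : Fin (n + 1)) : ℕ) = k + k + j) := by
  refine ⟨((Equiv.sumCongr finSumFinEquiv (Equiv.refl (Fin r))).trans finSumFinEquiv).trans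
    (finCongr h), ?_, ?_⟩
  · intro x
    simp
  · intro j
    simp

end rho

end Cfsg.Agent.Lib.Helper1.SylOr
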