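import Mathlib
import Cfsg.Agent.Lib.Helper1.SylOrH

/-!
Even-dimensional orthogonal groups: the general theorem.
-/

namespace Cfsg.Agent.Lib.Helper1.SylOr

open Cfsg.Agent.Lib.Helper1.SylSym Cfsg.Agent.Lib.Helper1.SylSp Cfsg.Agent.Lib.Helper1.SylSl
open Cfsg.Agent.Lib.Helper15.Spinor
open Nat

section arith

lemma arith_sq (m V f a vm : ℕ) (hm : 1 ≤ m) (h : a + 1 = V + vm) :
    1 + a + ((m - 1) * V + f) = m * V + (f + vm) := by
  obtain ⟨k, rfl⟩ : ∃ k, m = k + 1 := ⟨m - 1, by omega⟩
  rw [Nat.add_sub_cancel, add_mul, one_mul]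
  omega

lemma arith_nsq (m V f a : ℕ) (h : a = 1) :
    1 + a + ((m - 1) * V + f) = (m - 1) * V + f + 2 := by
  subst h
  omega

end arith

section evenmain
variable {F : Type*} [Field F] [Fintype F]

theorem even_main {ι : Type} [Fintype ι] [DecidableEq ι] (hF : Odd (Fintype.card F))
    (Q : QuadraticForm F (ι → F)) (hQ : (QuadraticMap.polarBilin Q).Nondegenerate)
    (Qs : (ι → F) → F) (hQs : ⇑Q = Qs)
    (m : ℕ) (hm : 2 ≤ m) (hι : Fintype.card ι = 2 * m) (X : Prop) (hX3 : ¬ X → 3 ≤ m)
    (hdet : ∀ (N : ℕ) (b : Module.Basis (Fin N) F (ι → F)),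
      IsSquare (Matrix.of (fun i j : Fin N => QuadraticMap.polar Qs (b i) (b j))).det ↔ X)
    (hc1 : X → padicValNat 2 (Nat.card ↥(Cfsg.isometryGroup F Qs)) =
      m * padicValNat 2 (Fintype.card F ^ 2 - 1) + padicValNat 2 m !)
    (hc2 : ¬ X → padicValNat 2 (Nat.card ↥(Cfsg.isometryGroup F Qs)) =
      (m - 1) * padicValNat 2 (Fintype.card F ^ 2 - 1) + padicValNat 2 (m - 1)! + 2)
    (P : Sylow 2 (Cfsg.Omega F Qs)) : Good 2 (P : Subgroup (Cfsg.Omega F Qs)) := by
  classical
  subst hQs
  have h2 : (2 : F) ≠ 0 := Cfsg.Agent.Lib.Helper15.Spinor2.two_ne_zero_of_odd_card rfl hF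
  obtain ⟨α, hα⟩ := FiniteField.exists_nonsquare (F := F) (ringChar_ne_two h2)
  have hα0 : α ≠ 0 := by rintro rfl; exact hα ⟨0, by simp⟩
  obtain ⟨n, hn⟩ : ∃ n, 2 * m = n + 1 := ⟨2 * m - 1, by omega⟩
  obtain ⟨d, hd, b, hb, hdetb⟩ := diag_exists' h2 Q hQ n (by rw [hι, hn]) α hα
  have hdsq : IsSquare d ↔ X := by
    rw [← hdet (n + 1) b, hdetb, ← hn, mul_comm 2 m, pow_mul,
      Cfsg.Agent.Lib.Helper15.Gram.isSquare_sq_mul _ _ (pow_ne_zero _ h2)]
  by_cases hX : X
  · have hd1 : d = 1 := by
      rcases hd with h | h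
      · exact h
      · exfalso
        rw [h] at hdsq
        exact hα (hdsq.2 hX)
    obtain ⟨ρ, hρ1, -⟩ := exists_rho m 0 n (by omega)
    have hT : ∀ v, Q v =
        QM m 0 (fun _ => (1 : F)) ((b.equivFun.trans (LinearEquiv.funCongrLeft F F ρ)) v) := by
      intro v
      rw [hb v, hd1, QM_reindex m 0 (n + 1) (fun _ => (1 : F))
          (fun i => if i = Fin.last n then (1 : F) else 1) ρ
          (fun x => ite_self _) (fun j => j.elim0)]
      rfl
    apply transfer h2 _ m 0 hm (fun _ => (1 : F)) (fun _ => one_ne_zero) _ hT _ P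
    rw [val_O2 hF, Nat.factorization_def _ Nat.prime_two, Nat.factorization_def _ Nat.prime_two,
      hc1 hX, add_zero]
  · have hdα : d = α := by
      rcases hd with h | h
      · exfalso
        rw [h] at hdsq
        exact hX (hdsq.1 ⟨1, by simp⟩)
      · exact h
    have hm3 := hX3 hX
    obtain ⟨k, rfl⟩ : ∃ k, m = k + 1 := ⟨m - 1, by omega⟩
    obtain ⟨ρ, hρ1, hρ2⟩ := exists_rho k 2 n (by omega)
    obtain ⟨e, he⟩ : ∃ e : Fin 2 → F, e = fun j : Fin 2 => if (j : ℕ) = 1 then α else 1 := ⟨_, rfl⟩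
    have he0 : ∀ j, e j ≠ 0 := by
      intro j
      rw [he]
      show (if (j : ℕ) = 1 then α else 1) ≠ 0
      split_ifs
      · exact hα0
      · exact one_ne_zero
    have hT : ∀ v, Q v =
        QM k 2 e ((b.equivFun.trans (LinearEquiv.funCongrLeft F F ρ)) v) := by
      intro v
      rw [hb v, hdα, QM_reindex k 2 (n + 1) e
          (fun i => if i = Fin.last n then α else 1) ρ
          (fun x => if_neg (by
            intro h
            have h1 := congrArg Fin.val h
            have h3 := hρ1 x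
            rw [h1, Fin.val_last] at h3
            omega)) (fun j => by
            rw [he]
            show (if ρ (Sum.inr j) = Fin.last n then α else 1) = if (j : ℕ) = 1 then α else 1
            have h3 := hρ2 j
            by_cases hj : (j : ℕ) = 1
            · rw [if_pos hj, if_pos]
              apply Fin.ext
              rw [h3, Fin.val_last]
              omega
            · rw [if_neg hj, if_neg]
              intro h
              have h1 := congrArg Fin.val h
              rw [h3, Fin.val_last] at h1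
              omega)]
      rfl
    apply transfer h2 _ k 2 (by omega) e he0 _ hT _ P
    rw [val_O2 hF, Nat.factorization_def _ Nat.prime_two, Nat.factorization_def _ Nat.prime_two,
      hc2 hX, Nat.add_sub_cancel]

end evenmain

end Cfsg.Agent.Lib.Helper1.SylOr
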