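import Cfsg.Agent.Lib.Helper1.ZStarCorA

set_option autoImplicit false

namespace Cfsg.Agent.Lib.Helper1.ZStarCor

universe u

/-- A Z*-type result for an odd prime `p` (statement S5560), assuming the Z*-theorem. -/
theorem prod_conj_mem_pCore (hZ : ZStarHyp.{u}) {G : Type u} [Group G] [Finite G] {p : ℕ}
    (hp : p.Prime) (hp2 : p ≠ 2) (d : G) (hd : orderOf d = 2)
    (hprod : ∀ a ∈ conjugatesOf d, ∀ b ∈ conjugatesOf d, ∃ k : ℕ, orderOf (a * b) = p ^ k) :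
    ∀ a ∈ conjugatesOf d, ∀ b ∈ conjugatesOf d, a * b ∈ Cfsg.pCore p G := by
  classical
  have hpF : Fact p.Prime := ⟨hp⟩
  have hd2 : d * d = 1 := by rw [← pow_two, ← hd]; exact pow_orderOf_eq_one d
  have hdinv : d⁻¹ = d := inv_eq_of_mul_eq_one_right hd2
  have hconj : ∀ g : G, g * d * g⁻¹ ∈ conjugatesOf d := fun g => by
    show IsConj d (g * d * g⁻¹)
    exact isConj_iff.mpr ⟨g, rfl⟩
  have hdc : d ∈ conjugatesOf d := mem_conjugatesOf_self
  -- a Sylow 2-subgroup containing d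
  have hzp : IsPGroup 2 (Subgroup.zpowers d) := by
    apply IsPGroup.of_card (n := 1); rw [Nat.card_zpowers, hd, pow_one]
  obtain ⟨P, hP⟩ := hzp.exists_le_sylow
  have hdP : d ∈ P := hP (Subgroup.mem_zpowers d)
  have hiso : ∀ g : G, g * d * g⁻¹ ∈ P → g * d * g⁻¹ = d := by
    intro g hg
    obtain ⟨k, hk⟩ := hprod d hdc (g * d * g⁻¹) (hconj g)
    have hmem : d * (g * d * g⁻¹) ∈ (P : Subgroup G) := Subgroup.mul_mem _ hdP hg
    obtain ⟨j, hj⟩ := (IsPGroup.iff_orderOf.mp P.isPGroup') ⟨_, hmem⟩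
    have hj' : orderOf (d * (g * d * g⁻¹)) = 2 ^ j := by rw [← hj, Subgroup.orderOf_mk]
    have h1 : orderOf (d * (g * d * g⁻¹)) = 1 := by
      rcases Nat.eq_zero_or_pos k with hk0 | hk0
      · rw [hk, hk0, pow_zero]
      · exfalso
        have : p ∣ 2 ^ j := by rw [← hj', hk]; exact dvd_pow_self p hk0.ne'
        exact hp2 ((Nat.prime_dvd_prime_iff_eq hp Nat.prime_two).mp (hp.dvd_of_dvd_pow this))
    have h2 := orderOf_eq_one_iff.mp h1
    have h3 : g * d * g⁻¹ = d⁻¹ := (inv_eq_of_mul_eq_one_right h2).symm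
    rw [h3, hdinv]
  obtain ⟨N, hNn, hNodd, hN⟩ := hZ G P d hd hdP hiso
  have hNn' : N.Normal := hNn
  let δ : MulAut N := MulAut.conjNormal d
  have hδc : ∀ n : N, ((δ n : N) : G) = d * n * d⁻¹ := fun n => MulAut.conjNormal_apply d n
  have hδ : ∀ n : N, δ (δ n) = n := by
    intro n
    apply Subtype.ext
    rw [hδc, hδc, hdinv]
    calc d * (d * (n : G) * d) * d = (d * d) * n * (d * d) := by group
      _ = n := by rw [hd2, one_mul, mul_one]
  have hord : ∀ n : N, ∃ k : ℕ, orderOf (n⁻¹ * δ n) = p ^ k := by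
    intro n
    have e : ((n⁻¹ * δ n : N) : G) = ((n : G)⁻¹ * d * ((n : G)⁻¹)⁻¹) * d := by
      rw [Subgroup.coe_mul, hδc, Subgroup.coe_inv, hdinv]; group
    obtain ⟨k, hk⟩ := hprod _ (hconj (n : G)⁻¹) d hdc
    refine ⟨k, ?_⟩
    rw [← Subgroup.orderOf_coe, e, hk]
  obtain ⟨Pp, hPinv, hPmem⟩ := comm_mem_sylow hNodd δ hδ p hord
  -- every g d g⁻¹ d lies in (the image of) Pp
  have hI : ∀ g : G, g * d * g⁻¹ * d ∈ N := by
    intro g
    have := N.inv_mem (hN g)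
    have e : (d * g * d⁻¹ * g⁻¹)⁻¹ = g * d * g⁻¹ * d⁻¹ := by group
    rwa [e, hdinv] at this
  have hIP : ∀ g : G, (⟨g * d * g⁻¹ * d, hI g⟩ : N) ∈ Pp := by
    intro g
    obtain ⟨i, hi⟩ : ∃ i : N, i = ⟨g * d * g⁻¹ * d, hI g⟩ := ⟨_, rfl⟩
    rw [← hi]
    have hδi : δ i = i⁻¹ := by
      apply Subtype.ext
      rw [hδc, Subgroup.coe_inv, hi, hdinv]
      show d * (g * d * g⁻¹ * d) * d = (g * d * g⁻¹ * d)⁻¹
      have e : (g * d * g⁻¹ * d)⁻¹ = d⁻¹ * g * d⁻¹ * g⁻¹ := by group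
      rw [e, hdinv]
      calc d * (g * d * g⁻¹ * d) * d = d * g * d * g⁻¹ * (d * d) := by group
        _ = d * g * d * g⁻¹ := by rw [hd2, mul_one]
    have hoi : Odd (orderOf i) := by
      have h1 : orderOf i ∣ Nat.card N := orderOf_dvd_natCard i
      obtain ⟨c, hc⟩ := h1
      by_contra hne
      rw [Nat.not_odd_iff_even] at hne
      have : Even (Nat.card N) := by rw [hc]; exact hne.mul_right c
      exact (Nat.not_even_iff_odd.mpr hNodd) this
    obtain ⟨k, hk⟩ := hoi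
    have hjj : i ^ (k + 1) * i ^ (k + 1) = i := by
      rw [← pow_add]
      have : k + 1 + (k + 1) = orderOf i + 1 := by omega
      rw [this, pow_succ, pow_orderOf_eq_one, one_mul]
    have hδj : δ (i ^ (k + 1)) = (i ^ (k + 1))⁻¹ := by
      rw [map_pow, hδi, inv_pow]
    have h1 := hPmem (i ^ (k + 1))⁻¹
    rw [inv_inv, map_inv, hδj, inv_inv, hjj] at h1
    exact h1
  obtain ⟨K, hKdef⟩ : ∃ K : Subgroup G,
      K = Subgroup.closure (Set.range fun g : G => g * d * g⁻¹ * d) := ⟨_, rfl⟩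
  have hgen : ∀ g : G, g * d * g⁻¹ * d ∈ K := by
    intro g; rw [hKdef]; exact Subgroup.subset_closure ⟨g, rfl⟩
  have hKle : K ≤ (Pp : Subgroup N).map N.subtype := by
    rw [hKdef, Subgroup.closure_le]
    rintro _ ⟨g, rfl⟩
    exact ⟨⟨g * d * g⁻¹ * d, hI g⟩, hIP g, rfl⟩
  have hKp : IsPGroup p K := (Pp.isPGroup'.map N.subtype).to_le hKle
  have hKn : K.Normal := by
    constructor
    intro x hx h
    rw [hKdef] at hx
    induction hx using Subgroup.closure_induction with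
    | mem y hy =>
      obtain ⟨g, rfl⟩ := hy
      have e : h * (g * d * g⁻¹ * d) * h⁻¹
          = ((h * g) * d * (h * g)⁻¹ * d) * (h * d * h⁻¹ * d)⁻¹ := by
        have e2 : (h * d * h⁻¹ * d)⁻¹ = d⁻¹ * h * d⁻¹ * h⁻¹ := by group
        rw [e2, hdinv]
        calc h * (g * d * g⁻¹ * d) * h⁻¹ = h * g * d * (h * g)⁻¹ * (h * d * h⁻¹) := by group
          _ = h * g * d * (h * g)⁻¹ * ((d * d) * h * d * h⁻¹) := by rw [hd2]; group
          _ = h * g * d * (h * g)⁻¹ * d * (d * h * d * h⁻¹) := by group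
      rw [e]
      exact K.mul_mem (hgen _) (K.inv_mem (hgen _))
    | one => rw [mul_one, mul_inv_cancel]; exact K.one_mem
    | mul y z _ _ hy hz =>
      have e : h * (y * z) * h⁻¹ = (h * y * h⁻¹) * (h * z * h⁻¹) := by group
      rw [e]; exact K.mul_mem hy hz
    | inv y _ hy =>
      have e : h * y⁻¹ * h⁻¹ = (h * y * h⁻¹)⁻¹ := by group
      rw [e]; exact K.inv_mem hy
  have hKcore : K ≤ Cfsg.pCore p G := Cfsg.Agent.Lib.Lead.Cores.le_pCore hKn hKp
  intro a ha b hb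
  have ha' : IsConj d a := ha
  have hb' : IsConj d b := hb
  rw [isConj_iff] at ha' hb'
  obtain ⟨x, rfl⟩ := ha'
  obtain ⟨y, rfl⟩ := hb'
  have e : x * d * x⁻¹ * (y * d * y⁻¹) = (x * d * x⁻¹ * d) * (y * d * y⁻¹ * d)⁻¹ := by
    have e2 : (y * d * y⁻¹ * d)⁻¹ = d⁻¹ * y * d⁻¹ * y⁻¹ := by group
    rw [e2, hdinv]
    calc x * d * x⁻¹ * (y * d * y⁻¹) = x * d * x⁻¹ * ((d * d) * y * d * y⁻¹) := by rw [hd2]; group
      _ = x * d * x⁻¹ * d * (d * y * d * y⁻¹) := by group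
  rw [e]
  exact hKcore (K.mul_mem (hgen x) (K.inv_mem (hgen y)))

end Cfsg.Agent.Lib.Helper1.ZStarCor
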